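import Mathlib
import Cfsg.Prelude.Def_Amalgam
import Cfsg.Prelude.Def_LocalEven
import Cfsg.Agent.Lib.Helper3.PRes
import Cfsg.Agent.Lib.Helper3.PrimAct
import Cfsg.Agent.Lib.Helper4.Normalizer
import Cfsg.Agent.Lib.Helper4.PCore

set_option autoImplicit false

namespace Cfsg.Agent.Lib.Helper3

section

variable {G : Type*} [Group G] {p : ℕ}

theorem pCoreOf_le_self (L : Subgroup G) : Cfsg.pCoreOf p L ≤ L := by
  unfold Cfsg.pCoreOf
  exact Subgroup.map_subtype_le _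

theorem pCoreOf_isPGroup' (L : Subgroup G) : IsPGroup p ↥(Cfsg.pCoreOf p L) := by
  unfold Cfsg.pCoreOf
  exact (Cfsg.Agent.Lib.Helper4.pCore_isPGroup p ↥L).map _

theorem pCoreOf_map_conj' (M : Subgroup G) (x : G) :
    Cfsg.pCoreOf p (M.map (MulAut.conj x).toMonoidHom) =
      (Cfsg.pCoreOf p M).map (MulAut.conj x).toMonoidHom := by
  unfold Cfsg.pCoreOf
  let e : ↥M ≃* ↥(M.map (MulAut.conj x).toMonoidHom) := (MulAut.conj x).subgroupMap M
  have h := Cfsg.Agent.Lib.Helper4.pCore_map_equiv (p := p) e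
  rw [← h, Subgroup.map_map, Subgroup.map_map]
  congr 1

theorem normalizer_le_normalizer_pCoreOf' (L : Subgroup G) :
    Subgroup.normalizer (L : Set G) ≤
      Subgroup.normalizer ((Cfsg.pCoreOf p L : Subgroup G) : Set G) := by
  intro g hg
  apply mem_normalizer_of_map_conj_eq'
  rw [← pCoreOf_map_conj', map_conj_eq_of_mem_normalizer L g hg]

theorem le_pCoreOf' {X L : Subgroup G} (hXL : X ≤ L)
    (hn : L ≤ Subgroup.normalizer (X : Set G)) (hX : IsPGroup p ↥X) : X ≤ Cfsg.pCoreOf p L := by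
  have h1 : (X.subgroupOf L).Normal := (Subgroup.normal_subgroupOf_iff_le_normalizer hXL).mpr hn
  have h2 : X.subgroupOf L ≤ Cfsg.pCore p ↥L :=
    Cfsg.Agent.Lib.Helper4.le_pCore h1 (hX.comap_of_injective L.subtype L.subtype_injective)
  intro x hx
  exact ⟨⟨x, hXL hx⟩, h2 (Subgroup.mem_subgroupOf.mpr hx), rfl⟩

theorem mem_centralizer_pCoreOf' (L : Subgroup G) (c : ↥L) :
    c ∈ Subgroup.centralizer (Cfsg.pCore p ↥L : Set ↥L) ↔
      (c : G) ∈ Subgroup.centralizer ((Cfsg.pCoreOf p L : Subgroup G) : Set G) := by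
  unfold Cfsg.pCoreOf
  rw [Subgroup.mem_centralizer_iff, Subgroup.mem_centralizer_iff]
  constructor
  · rintro h _ ⟨x, hx, rfl⟩
    exact congrArg Subtype.val (h x hx)
  · intro h x hx
    exact Subtype.ext (h _ ⟨x, hx, rfl⟩)

/-- `M` is a `p`-local subgroup: the normalizer of a nontrivial `p`-subgroup. -/
def IsPLocalSub (p : ℕ) (M : Subgroup G) : Prop :=
  ∃ T : Subgroup G, IsPGroup p T ∧ T ≠ ⊥ ∧ M = Subgroup.normalizer (T : Set G)

/-- `M` is a maximal `p`-local subgroup. -/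
def IsMaxPLocalSub (p : ℕ) (M : Subgroup G) : Prop :=
  IsPLocalSub p M ∧ ∀ L : Subgroup G, IsPLocalSub p L → M ≤ L → L = M

theorem isPLocalSub_pCoreOf_ne_bot {M : Subgroup G} (hM : IsPLocalSub p M) :
    Cfsg.pCoreOf p M ≠ ⊥ := by
  obtain ⟨T, hT, hT1, rfl⟩ := hM
  intro h
  apply hT1
  rw [eq_bot_iff, ← h]
  exact le_pCoreOf' Subgroup.le_normalizer le_rfl hT

theorem isMaxPLocalSub_normalizer_pCoreOf {M : Subgroup G} (hM : IsMaxPLocalSub p M) :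
    Subgroup.normalizer ((Cfsg.pCoreOf p M : Subgroup G) : Set G) = M := by
  apply hM.2
  · exact ⟨_, pCoreOf_isPGroup' M, isPLocalSub_pCoreOf_ne_bot hM.1, rfl⟩
  · exact le_trans Subgroup.le_normalizer (normalizer_le_normalizer_pCoreOf' M)

theorem isPLocalSub_charp (hloc : Cfsg.IsOfLocalCharacteristic p G) {M : Subgroup G}
    (hM : IsPLocalSub p M) :
    Subgroup.centralizer (Cfsg.pCore p ↥M : Set ↥M) ≤ Cfsg.pCore p ↥M := by
  obtain ⟨T, hT, hT1, rfl⟩ := hM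
  exact hloc.2 T hT hT1

theorem isMaxPLocalSub_centralizer_le (hloc : Cfsg.IsOfLocalCharacteristic p G) {M : Subgroup G}
    (hM : IsMaxPLocalSub p M) :
    Subgroup.centralizer ((Cfsg.pCoreOf p M : Subgroup G) : Set G) ≤ Cfsg.pCoreOf p M := by
  intro c hc
  have hcM : c ∈ M := by
    have h0 := Subgroup.centralizer_le_normalizer _ hc
    rw [isMaxPLocalSub_normalizer_pCoreOf hM] at h0
    exact h0
  have h1 := isPLocalSub_charp hloc hM.1
  have h2 : (⟨c, hcM⟩ : ↥M) ∈ Cfsg.pCore p ↥M :=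
    h1 ((mem_centralizer_pCoreOf' M ⟨c, hcM⟩).mpr hc)
  unfold Cfsg.pCoreOf
  exact ⟨⟨c, hcM⟩, h2, rfl⟩

theorem exists_isMaxPLocalSub_ge [Finite G] {H : Subgroup G} (hH : IsPLocalSub p H) :
    ∃ M, IsMaxPLocalSub p M ∧ H ≤ M := by
  obtain ⟨M, hHM, hmax⟩ :=
    Finite.exists_le_maximal (p := fun L : Subgroup G => IsPLocalSub p L) hH
  refine ⟨M, ⟨hmax.1, ?_⟩, hHM⟩
  intro L hL hML
  exact le_antisymm (hmax.2 hL hML) hML

theorem isPLocalSub_map_conj {M : Subgroup G} (hM : IsPLocalSub p M) (x : G) :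
    IsPLocalSub p (M.map (MulAut.conj x).toMonoidHom) := by
  obtain ⟨T, hT, hT1, rfl⟩ := hM
  refine ⟨T.map (MulAut.conj x).toMonoidHom, hT.map _, ?_, ?_⟩
  · intro h
    apply hT1
    exact (Subgroup.map_eq_bot_iff_of_injective _ (MulAut.conj x).injective).mp h
  · exact Subgroup.map_equiv_normalizer_eq T (MulAut.conj x)

theorem map_conj_inv_map_conj (H : Subgroup G) (x : G) :
    (H.map (MulAut.conj x).toMonoidHom).map (MulAut.conj x⁻¹).toMonoidHom = H := by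
  rw [← map_conj_mul, inv_mul_cancel, map_conj_one]

theorem map_conj_map_conj_inv (H : Subgroup G) (x : G) :
    (H.map (MulAut.conj x⁻¹).toMonoidHom).map (MulAut.conj x).toMonoidHom = H := by
  rw [← map_conj_mul, mul_inv_cancel, map_conj_one]

theorem isMaxPLocalSub_map_conj {M : Subgroup G} (hM : IsMaxPLocalSub p M) (x : G) :
    IsMaxPLocalSub p (M.map (MulAut.conj x).toMonoidHom) := by
  refine ⟨isPLocalSub_map_conj hM.1 x, ?_⟩
  intro L hL hML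
  have h1 : M ≤ L.map (MulAut.conj x⁻¹).toMonoidHom := by
    have h0 := Subgroup.map_mono (f := (MulAut.conj x⁻¹).toMonoidHom) hML
    rwa [map_conj_inv_map_conj] at h0
  have h2 := hM.2 _ (isPLocalSub_map_conj hL x⁻¹) h1
  rw [← h2, map_conj_map_conj_inv]

/-- In a group of local characteristic `p`, a maximal `p`-local `M₁` contains the normalizer of
each of its nontrivial normal subgroups. -/
theorem normalizer_le_of_isMaxPLocalSub (hloc : Cfsg.IsOfLocalCharacteristic p G)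
    {M₁ : Subgroup G} (h₁ : IsMaxPLocalSub p M₁)
    (A : Subgroup G) (hA1 : A ≠ ⊥) (hAM : A ≤ M₁)
    (hMA : M₁ ≤ Subgroup.normalizer (A : Set G)) :
    Subgroup.normalizer (A : Set G) ≤ M₁ := by
  have hQn := isMaxPLocalSub_normalizer_pCoreOf h₁
  have hAQ : A ≤ Subgroup.normalizer ((Cfsg.pCoreOf p M₁ : Subgroup G) : Set G) := by
    rw [hQn]; exact hAM
  have hB1 : A ⊓ Cfsg.pCoreOf p M₁ ≠ ⊥ := by
    intro hbot
    apply hA1
    have hAC : A ≤ Subgroup.centralizer ((Cfsg.pCoreOf p M₁ : Subgroup G) : Set G) := by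
      intro a ha
      rw [Subgroup.mem_centralizer_iff]
      intro y hy
      have hyM : y ∈ M₁ := pCoreOf_le_self M₁ hy
      have h1 : a * y * a⁻¹ * y⁻¹ ∈ A ⊓ Cfsg.pCoreOf p M₁ := by
        refine Subgroup.mem_inf.mpr ⟨?_, ?_⟩
        · have h2 : y * a⁻¹ * y⁻¹ ∈ A :=
            (Subgroup.mem_normalizer_iff.mp (hMA hyM) a⁻¹).mp (A.inv_mem ha)
          have h3 := A.mul_mem ha h2
          have h4 : a * (y * a⁻¹ * y⁻¹) = a * y * a⁻¹ * y⁻¹ := by group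
          rwa [h4] at h3
        · have h2 : a * y * a⁻¹ ∈ Cfsg.pCoreOf p M₁ :=
            (Subgroup.mem_normalizer_iff.mp (hAQ ha) y).mp hy
          exact (Cfsg.pCoreOf p M₁).mul_mem h2 ((Cfsg.pCoreOf p M₁).inv_mem hy)
      rw [hbot, Subgroup.mem_bot] at h1
      have h5 : a * y = y * a := by
        calc a * y = (a * y * a⁻¹ * y⁻¹) * (y * a) := by group
          _ = y * a := by rw [h1, one_mul]
      exact h5.symm
    rw [eq_bot_iff, ← hbot]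
    exact le_inf le_rfl (le_trans hAC (isMaxPLocalSub_centralizer_le hloc h₁))
  have hBA : A ⊓ Cfsg.pCoreOf p M₁ ≤ Cfsg.pCoreOf p A := by
    apply le_pCoreOf' inf_le_left
    · apply Cfsg.Agent.Lib.Helper4.le_normalizer_of_conj_mem
      intro s hs d hd
      obtain ⟨hdA, hdQ⟩ := Subgroup.mem_inf.mp hd
      exact Subgroup.mem_inf.mpr ⟨A.mul_mem (A.mul_mem hs hdA) (A.inv_mem hs),
        (Subgroup.mem_normalizer_iff.mp (hAQ hs) d).mp hdQ⟩
    · exact (pCoreOf_isPGroup' M₁).to_le inf_le_right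
  have hBne : Cfsg.pCoreOf p A ≠ ⊥ := fun h => hB1 (by rw [eq_bot_iff, ← h]; exact hBA)
  have hloc' : IsPLocalSub p (Subgroup.normalizer ((Cfsg.pCoreOf p A : Subgroup G) : Set G)) :=
    ⟨_, pCoreOf_isPGroup' A, hBne, rfl⟩
  have hle : Subgroup.normalizer (A : Set G) ≤
      Subgroup.normalizer ((Cfsg.pCoreOf p A : Subgroup G) : Set G) :=
    normalizer_le_normalizer_pCoreOf' A
  have heq := h₁.2 _ hloc' (le_trans hMA hle)
  exact le_trans hle (le_of_eq heq)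

theorem primitive_of_isMaxPLocalSub (hloc : Cfsg.IsOfLocalCharacteristic p G)
    {M₁ M₂ : Subgroup G} (h₁ : IsMaxPLocalSub p M₁)
    (A : Subgroup G) (hA1 : A ≠ ⊥) (hA : A ≤ M₁ ⊓ M₂)
    (hMA : M₁ ≤ Subgroup.normalizer (A : Set G)) :
    M₂ ⊓ Subgroup.normalizer (A : Set G) = M₁ ⊓ M₂ := by
  have h := normalizer_le_of_isMaxPLocalSub hloc h₁ A hA1 (le_trans hA inf_le_left) hMA
  apply le_antisymm
  · exact le_inf (le_trans inf_le_right h) inf_le_left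
  · exact le_inf inf_le_right (le_trans inf_le_left hMA)

/-- From two distinct maximal `p`-locals with `O_p(M₁) ≤ M₂` one gets two with both
containments. -/
theorem exists_pair_of_one_sided [Finite G] [Fact p.Prime]
    {M₁ M₂ : Subgroup G}
    (h₁ : IsMaxPLocalSub p M₁) (h₂ : IsMaxPLocalSub p M₂) (hne : M₁ ≠ M₂)
    (h12 : Cfsg.pCoreOf p M₁ ≤ M₂) :
    ∃ L₁ L₂ : Subgroup G, IsMaxPLocalSub p L₁ ∧ IsMaxPLocalSub p L₂ ∧ L₁ ≠ L₂ ∧
      Cfsg.pCoreOf p L₁ ≤ L₂ ∧ Cfsg.pCoreOf p L₂ ≤ L₁ := by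
  by_cases h21 : Cfsg.pCoreOf p M₂ ≤ M₁
  · exact ⟨M₁, M₂, h₁, h₂, hne, h12, h21⟩
  have hN1 := isMaxPLocalSub_normalizer_pCoreOf h₁
  have hN2 := isMaxPLocalSub_normalizer_pCoreOf h₂
  have hRp : IsPGroup p ↥(Cfsg.pCoreOf p M₂ ⊔ Cfsg.pCoreOf p M₁) :=
    (pCoreOf_isPGroup' M₂).to_sup_of_normal_left' (pCoreOf_isPGroup' M₁)
      (by rw [hN2]; exact h12)
  obtain ⟨R, hRdef⟩ : ∃ R, R = Cfsg.pCoreOf p M₂ ⊔ Cfsg.pCoreOf p M₁ := ⟨_, rfl⟩
  rw [← hRdef] at hRp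
  have hQ2R : Cfsg.pCoreOf p M₂ ≤ R := by rw [hRdef]; exact le_sup_left
  have hQ1R : Cfsg.pCoreOf p M₁ ≤ R := by rw [hRdef]; exact le_sup_right
  have hne' : R ⊓ M₁ ≠ R := by
    intro h
    apply h21
    have h0 : R ≤ M₁ := inf_eq_left.mp h
    exact le_trans hQ2R h0
  obtain ⟨x, hxR, hxN, hxn⟩ := exists_mem_normalizer_notMem R (R ⊓ M₁) hRp inf_le_left hne'
  have hxM : x ∉ M₁ := fun h => hxn (Subgroup.mem_inf.mpr ⟨hxR, h⟩)
  have hQ1R0 : Cfsg.pCoreOf p M₁ ≤ R ⊓ M₁ := le_inf hQ1R (pCoreOf_le_self M₁)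
  have hR0x : (R ⊓ M₁).map (MulAut.conj x).toMonoidHom = R ⊓ M₁ :=
    map_conj_eq_of_mem_normalizer _ x hxN
  refine ⟨M₁, M₁.map (MulAut.conj x).toMonoidHom, h₁, isMaxPLocalSub_map_conj h₁ x, ?_, ?_, ?_⟩
  · intro h
    apply hxM
    have h0 : x ∈ Subgroup.normalizer ((Cfsg.pCoreOf p M₁ : Subgroup G) : Set G) := by
      apply mem_normalizer_of_map_conj_eq'
      rw [← pCoreOf_map_conj', ← h]
    rw [hN1] at h0
    exact h0
  · calc Cfsg.pCoreOf p M₁ ≤ R ⊓ M₁ := hQ1R0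
      _ = (R ⊓ M₁).map (MulAut.conj x).toMonoidHom := hR0x.symm
      _ ≤ M₁.map (MulAut.conj x).toMonoidHom := Subgroup.map_mono inf_le_right
  · rw [pCoreOf_map_conj']
    calc (Cfsg.pCoreOf p M₁).map (MulAut.conj x).toMonoidHom
        ≤ (R ⊓ M₁).map (MulAut.conj x).toMonoidHom := Subgroup.map_mono hQ1R0
      _ = R ⊓ M₁ := hR0x
      _ ≤ M₁ := inf_le_right

/-- If a maximal `p`-local is not strongly `p`-embedded, there are two distinct maximal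
`p`-locals with `O_p(L₁) ≤ L₂`. -/
theorem exists_one_sided_of_not_strongly_embedded [Finite G] [Fact p.Prime] {M : Subgroup G}
    (hM : IsMaxPLocalSub p M) (g : G) (hg : g ∉ M)
    (hdvd : p ∣ Nat.card ↥(M ⊓ M.map (MulAut.conj g).toMonoidHom)) :
    ∃ L₁ L₂ : Subgroup G, IsMaxPLocalSub p L₁ ∧ IsMaxPLocalSub p L₂ ∧ L₁ ≠ L₂ ∧
      Cfsg.pCoreOf p L₁ ≤ L₂ := by
  classical
  have hp : p.Prime := Fact.out
  have hMg : M ≠ M.map (MulAut.conj g).toMonoidHom := by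
    intro h
    apply hg
    have h0 : g ∈ Subgroup.normalizer ((Cfsg.pCoreOf p M : Subgroup G) : Set G) := by
      apply normalizer_le_normalizer_pCoreOf' M
      apply mem_normalizer_of_map_conj_eq'
      exact h.symm
    rw [isMaxPLocalSub_normalizer_pCoreOf hM] at h0
    exact h0
  haveI : Nonempty {P : Subgroup G × Subgroup G // IsMaxPLocalSub p P.1 ∧ IsMaxPLocalSub p P.2 ∧
      P.1 ≠ P.2 ∧ p ∣ Nat.card ↥(P.1 ⊓ P.2)} :=
    ⟨⟨(M, M.map (MulAut.conj g).toMonoidHom), hM, isMaxPLocalSub_map_conj hM g, hMg, hdvd⟩⟩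
  obtain ⟨⟨⟨L₁, L₂⟩, hL₁, hL₂, hne, hd⟩, hmax⟩ := Finite.exists_max
    (fun P : {P : Subgroup G × Subgroup G // IsMaxPLocalSub p P.1 ∧ IsMaxPLocalSub p P.2 ∧
      P.1 ≠ P.2 ∧ p ∣ Nat.card ↥(P.1 ⊓ P.2)} => (Nat.card ↥(P.1.1 ⊓ P.1.2)).factorization p)
  have hmax' : ∀ (K₁ K₂ : Subgroup G), IsMaxPLocalSub p K₁ → IsMaxPLocalSub p K₂ → K₁ ≠ K₂ →
      p ∣ Nat.card ↥(K₁ ⊓ K₂) →
      (Nat.card ↥(K₁ ⊓ K₂)).factorization p ≤ (Nat.card ↥(L₁ ⊓ L₂)).factorization p :=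
    fun K₁ K₂ a b c d => hmax ⟨(K₁, K₂), a, b, c, d⟩
  obtain ⟨n, hn⟩ : ∃ n, n = (Nat.card ↥(L₁ ⊓ L₂)).factorization p := ⟨_, rfl⟩
  rw [← hn] at hmax'
  obtain ⟨S⟩ : Nonempty (Sylow p ↥(L₁ ⊓ L₂)) := inferInstance
  obtain ⟨T, hTdef⟩ : ∃ T : Subgroup G,
      T = (S : Subgroup ↥(L₁ ⊓ L₂)).map (L₁ ⊓ L₂).subtype := ⟨_, rfl⟩
  have hTp : IsPGroup p ↥T := by rw [hTdef]; exact S.isPGroup'.map _
  have hTD : T ≤ L₁ ⊓ L₂ := by rw [hTdef]; exact Subgroup.map_subtype_le _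
  have hT1 : T ≠ ⊥ := by
    rw [hTdef]
    intro h
    exact Sylow.ne_bot_of_dvd_card S hd
      ((Subgroup.map_eq_bot_iff_of_injective _ (L₁ ⊓ L₂).subtype_injective).mp h)
  have hTcard : Nat.card ↥T = p ^ n := by
    rw [hTdef, Subgroup.card_map_of_injective (L₁ ⊓ L₂).subtype_injective, hn]
    exact S.card_eq_multiplicity
  have hlocT : IsPLocalSub p (Subgroup.normalizer (T : Set G)) := ⟨T, hTp, hT1, rfl⟩
  obtain ⟨L₃, hL₃, hNL₃⟩ := exists_isMaxPLocalSub_ge hlocT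
  have key : ∀ Li : Subgroup G, IsMaxPLocalSub p Li → L₃ ≠ Li → ∀ S' : Subgroup G,
      IsPGroup p ↥S' → T ≤ S' → S' ≤ Li → T = S' := by
    intro Li hLi hne3 S' hS'p hTS' hS'Li
    by_contra hTS
    obtain ⟨s, hsS, hsN, hsT⟩ := exists_mem_normalizer_notMem S' T hS'p hTS' hTS
    have hUle : T ⊔ Subgroup.zpowers s ≤ L₃ ⊓ Li := by
      refine sup_le (le_inf (le_trans Subgroup.le_normalizer hNL₃) (le_trans hTS' hS'Li)) ?_
      rw [Subgroup.zpowers_le]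
      exact Subgroup.mem_inf.mpr ⟨hNL₃ hsN, hS'Li hsS⟩
    have hUS : T ⊔ Subgroup.zpowers s ≤ S' :=
      sup_le hTS' (by rw [Subgroup.zpowers_le]; exact hsS)
    have hUp : IsPGroup p ↥(T ⊔ Subgroup.zpowers s) := hS'p.to_le hUS
    obtain ⟨k, hk⟩ := IsPGroup.iff_card.mp hUp
    have hnk : n < k := by
      by_contra hnk
      push_neg at hnk
      have hcard : Nat.card ↥(T ⊔ Subgroup.zpowers s) ≤ Nat.card ↥T := by
        rw [hk, hTcard]; exact Nat.pow_le_pow_right hp.pos hnk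
      have heq := Subgroup.eq_of_le_of_card_ge (le_sup_left : T ≤ T ⊔ Subgroup.zpowers s) hcard
      apply hsT
      have h0 : s ∈ T ⊔ Subgroup.zpowers s :=
        (le_sup_right : Subgroup.zpowers s ≤ T ⊔ Subgroup.zpowers s) (Subgroup.mem_zpowers s)
      rw [← heq] at h0
      exact h0
    have hdvd1 : p ^ (n + 1) ∣ Nat.card ↥(L₃ ⊓ Li) := by
      refine dvd_trans ?_ (Subgroup.card_dvd_of_le hUle)
      rw [hk]; exact pow_dvd_pow p hnk
    have hdvd2 : p ∣ Nat.card ↥(L₃ ⊓ Li) :=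
      dvd_trans (dvd_pow_self p (Nat.succ_ne_zero n)) hdvd1
    have h1 := hmax' L₃ Li hL₃ hLi hne3 hdvd2
    have h2 : n + 1 ≤ (Nat.card ↥(L₃ ⊓ Li)).factorization p :=
      (hp.pow_dvd_iff_le_factorization Nat.card_pos.ne').mp hdvd1
    omega
  have hex : ∀ Li : Subgroup G, T ≤ Li → ∃ S' : Subgroup G, IsPGroup p ↥S' ∧ T ≤ S' ∧
      S' ≤ Li ∧ Cfsg.pCoreOf p Li ≤ S' := by
    intro Li hTLi
    have hTp' : IsPGroup p ↥(T.subgroupOf Li) :=
      hTp.comap_of_injective Li.subtype Li.subtype_injective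
    obtain ⟨Si, hSi⟩ := hTp'.exists_le_sylow
    refine ⟨(Si : Subgroup ↥Li).map Li.subtype, Si.isPGroup'.map _, ?_,
      Subgroup.map_subtype_le _, ?_⟩
    · intro t ht
      exact ⟨⟨t, hTLi ht⟩, hSi (Subgroup.mem_subgroupOf.mpr ht), rfl⟩
    · unfold Cfsg.pCoreOf
      exact Subgroup.map_mono (Cfsg.Agent.Lib.Helper4.pCore_le_sylow Si)
  obtain ⟨S₁, hS₁p, hTS₁, hS₁L, hQS₁⟩ := hex L₁ (le_trans hTD inf_le_left)
  obtain ⟨S₂, hS₂p, hTS₂, hS₂L, hQS₂⟩ := hex L₂ (le_trans hTD inf_le_right)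
  by_cases h31 : L₃ = L₁
  · have h32 : L₃ ≠ L₂ := fun h => hne (h31.symm.trans h)
    have hT2 := key L₂ hL₂ h32 S₂ hS₂p hTS₂ hS₂L
    refine ⟨L₂, L₁, hL₂, hL₁, hne.symm, ?_⟩
    have h0 : S₂ ≤ L₁ ⊓ L₂ := by rw [← hT2]; exact hTD
    exact le_trans hQS₂ (le_trans h0 inf_le_left)
  · have hT1' := key L₁ hL₁ h31 S₁ hS₁p hTS₁ hS₁L
    refine ⟨L₁, L₂, hL₁, hL₂, hne, ?_⟩
    have h0 : S₁ ≤ L₁ ⊓ L₂ := by rw [← hT1']; exact hTD
    exact le_trans hQS₁ (le_trans h0 inf_le_right)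

end

end Cfsg.Agent.Lib.Helper3
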