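import Mathlib
import Cfsg.Prelude.Def_Amalgam
import Cfsg.Prelude.Def_Local
import Cfsg.Agent.Lib.Helper3.PRes
import Cfsg.Agent.Lib.Helper3.PrimPair
import Cfsg.Agent.Lib.Helper4.Normalizer
import Cfsg.Agent.Lib.Helper4.PCore
import Cfsg.Agent.Lib.Helper4.Subnormal
import Cfsg.Agent.Lib.Helper2.Nilp
import Cfsg.Agent.Lib.Helper2.Fit
import Cfsg.Agent.Lib.Helper2.FStar
import Cfsg.Agent.Lib.Helper2.Layer
import Cfsg.Agent.Lib.Helper2.Layer3
import Cfsg.Agent.Lib.Helper2.Comp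

set_option autoImplicit false

namespace Cfsg.Agent.Lib.Helper3

open Cfsg.Agent.Lib.Helper2

open scoped commutatorElement

universe u

/-- An element of the Fitting subgroup killed by a power of `s` lies in `O_s`. -/
theorem mem_pCore_of_mem_fitting_of_pow {X : Type u} [Group X] [Finite X] (s : ℕ)
    [hs : Fact s.Prime] (c : X) (hc : c ∈ Cfsg.fittingSubgroup X) (a : ℕ)
    (hca : c ^ (s ^ a) = 1) : c ∈ Cfsg.pCore s X := by
  have hnil : Group.IsNilpotent ↥(Cfsg.fittingSubgroup X) := fitting_isNilpotent X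
  have hsub0 : (Subgroup.zpowers (⟨c, hc⟩ : ↥(Cfsg.fittingSubgroup X))).IsSubnormal :=
    Cfsg.Agent.Lib.Helper4.isSubnormal_of_isNilpotent _
  have hsub := hsub0.trans' (fitting_normal X).isSubnormal
  rw [MonoidHom.map_zpowers] at hsub
  have hord : orderOf c ∣ s ^ a := orderOf_dvd_of_pow_eq_one hca
  obtain ⟨k, -, hk⟩ := (Nat.dvd_prime_pow hs.out).mp hord
  have hpg : IsPGroup s ↥(Subgroup.zpowers c) :=
    IsPGroup.of_card (n := k) (by rw [Nat.card_zpowers, hk])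
  exact subnormal_pgroup_le_pCore s _ hsub hpg (Subgroup.mem_zpowers c)

/-- An element of the Fitting subgroup of order prime to `q` lies in any subgroup containing
`O_s` for all primes `s ≠ q`. -/
theorem mem_of_fitting_coprime {X : Type u} [Group X] [Finite X] (q : ℕ) (H : Subgroup X)
    (hH : ∀ s : ℕ, [Fact s.Prime] → s ≠ q → Cfsg.pCore s X ≤ H) (n : ℕ) :
    ∀ c : X, c ∈ Cfsg.fittingSubgroup X → orderOf c = n → n.Coprime q → c ∈ H := by
  induction n using Nat.strong_induction_on with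
  | _ n ih =>
    intro c hc hn hcop
    by_cases h1 : n = 1
    · rw [h1, orderOf_eq_one_iff] at hn
      rw [hn]; exact H.one_mem
    have hn0 : n ≠ 0 := by rw [← hn]; exact (orderOf_pos c).ne'
    have hsp : (n.minFac).Prime := Nat.minFac_prime h1
    have : Fact (n.minFac).Prime := ⟨hsp⟩
    have hsn : n.minFac ∣ n := Nat.minFac_dvd n
    have hsq : n.minFac ≠ q := by
      intro h
      have h2 : n.minFac ∣ Nat.gcd n q := Nat.dvd_gcd hsn (h ▸ dvd_rfl)
      rw [hcop.gcd_eq_one] at h2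
      exact hsp.one_lt.ne' (Nat.dvd_one.mp h2)
    obtain ⟨a, t, hst, hnt⟩ := Nat.exists_eq_pow_mul_and_not_dvd hn0 n.minFac hsp.ne_one
    have ha : a ≠ 0 := by
      rintro rfl
      rw [pow_zero, one_mul] at hnt
      exact hst (hnt ▸ hsn)
    have ht0 : t ≠ 0 := by
      rintro rfl
      rw [mul_zero] at hnt
      exact hn0 hnt
    have hcn : c ^ n = 1 := by rw [← hn]; exact pow_orderOf_eq_one c
    have hct : c ^ t ∈ H := by
      apply hH n.minFac hsq
      apply mem_pCore_of_mem_fitting_of_pow n.minFac (c ^ t) (pow_mem hc t) a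
      rw [← pow_mul, mul_comm, ← hnt, hcn]
    have hcs : c ^ (n.minFac ^ a) ∈ H := by
      have hpow : (c ^ (n.minFac ^ a)) ^ t = 1 := by rw [← pow_mul, ← hnt, hcn]
      have hdvd : orderOf (c ^ (n.minFac ^ a)) ∣ t := orderOf_dvd_of_pow_eq_one hpow
      have htn : t ∣ n := Dvd.intro_left (n.minFac ^ a) hnt.symm
      have hlt : t < n := by
        have h2 : 2 ≤ n.minFac ^ a := by
          calc 2 ≤ n.minFac := hsp.two_le
            _ = n.minFac ^ 1 := (pow_one _).symm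
            _ ≤ n.minFac ^ a := Nat.pow_le_pow_right hsp.pos (Nat.one_le_iff_ne_zero.mpr ha)
        have ht1 : 1 ≤ t := Nat.one_le_iff_ne_zero.mpr ht0
        nlinarith
      exact ih (orderOf (c ^ (n.minFac ^ a)))
        (lt_of_le_of_lt (Nat.le_of_dvd (Nat.pos_of_ne_zero ht0) hdvd) hlt)
        (c ^ (n.minFac ^ a)) (pow_mem hc _) rfl
        (Nat.Coprime.coprime_dvd_left (dvd_trans hdvd htn) hcop)
    have hcop' : Nat.Coprime t (n.minFac ^ a) :=
      Nat.Coprime.pow_right a ((Nat.Prime.coprime_iff_not_dvd hsp).mpr hst).symm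
    have hbez := Int.gcd_eq_gcd_ab (t : ℤ) ((n.minFac ^ a : ℕ) : ℤ)
    have hg : ((Int.gcd (t : ℤ) ((n.minFac ^ a : ℕ) : ℤ) : ℕ) : ℤ) = 1 := by
      rw [Int.gcd_natCast_natCast, hcop'.gcd_eq_one]; rfl
    rw [hg] at hbez
    have hceq : c = (c ^ t) ^ (Int.gcdA (t : ℤ) ((n.minFac ^ a : ℕ) : ℤ)) *
        (c ^ (n.minFac ^ a)) ^ (Int.gcdB (t : ℤ) ((n.minFac ^ a : ℕ) : ℤ)) := by
      rw [← zpow_natCast c t, ← zpow_natCast c (n.minFac ^ a), ← zpow_mul, ← zpow_mul,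
        ← zpow_add, ← hbez, zpow_one]
    rw [hceq]
    exact H.mul_mem (H.zpow_mem hct _) (H.zpow_mem hcs _)

theorem commutator_commute_of_right {X : Type*} [Group X] (S : Subgroup X) [hS : S.Normal]
    (u v : X) (hv : ∀ y ∈ S, v * y = y * v) :
    ∀ y ∈ S, (u * v * u⁻¹ * v⁻¹) * y = y * (u * v * u⁻¹ * v⁻¹) := by
  intro y hy
  have hvinv : v⁻¹ * y = y * v⁻¹ := by
    have h0 := hv y hy
    calc v⁻¹ * y = v⁻¹ * (y * v) * v⁻¹ := by group
      _ = v⁻¹ * (v * y) * v⁻¹ := by rw [h0]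
      _ = y * v⁻¹ := by group
  have hy1 : u⁻¹ * y * u ∈ S := by
    have h0 := hS.conj_mem y hy u⁻¹
    simpa using h0
  have hv1 := hv _ hy1
  calc (u * v * u⁻¹ * v⁻¹) * y = u * v * u⁻¹ * (v⁻¹ * y) := by group
    _ = u * v * u⁻¹ * (y * v⁻¹) := by rw [hvinv]
    _ = u * (v * (u⁻¹ * y * u)) * u⁻¹ * v⁻¹ := by group
    _ = u * ((u⁻¹ * y * u) * v) * u⁻¹ * v⁻¹ := by rw [hv1]
    _ = y * (u * v * u⁻¹ * v⁻¹) := by group

/-- In a finite group with trivial layer, a `p`-element centralizing `O_s` for all `s ≠ p`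
commutes with a `q`-element centralizing `O_s` for all `s ≠ q` (`p ≠ q`). -/
theorem commute_of_p_q_elements {X : Type u} [Group X] [Finite X] (hlayer : Cfsg.layer X = ⊥)
    (p q : ℕ) [hp : Fact p.Prime] [hq : Fact q.Prime] (hpq : p ≠ q) (u v : X)
    (e b : ℕ) (hue : u ^ (p ^ e) = 1) (hvb : v ^ (q ^ b) = 1)
    (hus : ∀ s : ℕ, [Fact s.Prime] → s ≠ p → ∀ y ∈ Cfsg.pCore s X, u * y = y * u)
    (hvs : ∀ s : ℕ, [Fact s.Prime] → s ≠ q → ∀ y ∈ Cfsg.pCore s X, v * y = y * v) :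
    u * v = v * u := by
  obtain ⟨c, hcdef⟩ : ∃ c, c = u * v * u⁻¹ * v⁻¹ := ⟨_, rfl⟩
  have hc_s : ∀ s : ℕ, [Fact s.Prime] → ∀ y ∈ Cfsg.pCore s X, c * y = y * c := by
    intro s _ y hy
    have : (Cfsg.pCore s X).Normal := Cfsg.Agent.Lib.Helper4.pCore_normal s X
    by_cases hsq : s = q
    · have hsp : s ≠ p := fun h => hpq (h.symm.trans hsq)
      have h0 := commutator_commute_of_right (Cfsg.pCore s X) v u (hus s hsp) y hy
      have hcinv : c⁻¹ = v * u * v⁻¹ * u⁻¹ := by rw [hcdef]; group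
      rw [← hcinv] at h0
      have h1 : Commute c⁻¹ y := h0
      have h2 : Commute c y := by
        have h3 := h1.inv_left
        rwa [inv_inv] at h3
      exact h2.eq
    · rw [hcdef]
      exact commutator_commute_of_right (Cfsg.pCore s X) u v (hvs s hsq) y hy
  have hF : Cfsg.fittingSubgroup X ≤ Subgroup.centralizer ({c} : Set X) := by
    apply subnormal_nilpotent_le _ (fitting_normal X).isSubnormal (fitting_isNilpotent X)
    intro s _ y hy
    rw [Subgroup.mem_centralizer_singleton_iff]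
    exact (hc_s s y hy).symm
  have hcZ : ∀ f ∈ Cfsg.fittingSubgroup X, f * c = c * f := fun f hf => by
    have h0 := hF hf
    rwa [Subgroup.mem_centralizer_singleton_iff] at h0
  have hgF : Cfsg.generalizedFittingSubgroup X = Cfsg.fittingSubgroup X := by
    unfold Cfsg.generalizedFittingSubgroup
    rw [hlayer, bot_sup_eq]
  have hcF : c ∈ Cfsg.fittingSubgroup X := by
    have h1 : c ∈ Subgroup.centralizer (Cfsg.generalizedFittingSubgroup X : Set X) := by
      rw [hgF, Subgroup.mem_centralizer_iff]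
      exact hcZ
    have h2 := centralizer_genFitting_le X h1
    rw [hgF] at h2
    exact h2
  have hFn : (Cfsg.fittingSubgroup X).Normal := fitting_normal X
  obtain ⟨Z, hZdef⟩ : ∃ Z : Subgroup X, Z = Cfsg.fittingSubgroup X ⊓
      Subgroup.centralizer (Cfsg.fittingSubgroup X : Set X) := ⟨_, rfl⟩
  have hZn : Z.Normal := by rw [hZdef]; infer_instance
  have hZcomm : ∀ z₁ ∈ Z, ∀ z₂ ∈ Z, z₁ * z₂ = z₂ * z₁ := by
    intro z₁ h1 z₂ h2
    rw [hZdef] at h1 h2
    exact (Subgroup.mem_centralizer_iff.mp (Subgroup.mem_inf.mp h2).2) z₁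
      (Subgroup.mem_inf.mp h1).1
  have hcZ' : c ∈ Z := by
    rw [hZdef]
    refine Subgroup.mem_inf.mpr ⟨hcF, ?_⟩
    rw [Subgroup.mem_centralizer_iff]
    exact hcZ
  have hn0 : orderOf c ≠ 0 := (orderOf_pos c).ne'
  obtain ⟨a, t, hqt, hnt⟩ := Nat.exists_eq_pow_mul_and_not_dvd hn0 q hq.out.ne_one
  obtain ⟨w, hwdef⟩ : ∃ w, w = c ^ (q ^ a) := ⟨_, rfl⟩
  have hwt : w ^ t = 1 := by rw [hwdef, ← pow_mul, ← hnt, pow_orderOf_eq_one]
  have hwF : w ∈ Cfsg.fittingSubgroup X := by rw [hwdef]; exact pow_mem hcF _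
  have hqt' : Nat.Coprime t q := ((Nat.Prime.coprime_iff_not_dvd hq.out).mpr hqt).symm
  have hwv : w * v = v * w := by
    have h1 : w ∈ Subgroup.centralizer ({v} : Set X) := by
      apply mem_of_fitting_coprime q (Subgroup.centralizer ({v} : Set X)) ?_ (orderOf w) w hwF rfl
        (Nat.Coprime.coprime_dvd_left (orderOf_dvd_of_pow_eq_one hwt) hqt')
      intro s _ hs y hy
      rw [Subgroup.mem_centralizer_singleton_iff]
      exact (hvs s hs y hy).symm
    rwa [Subgroup.mem_centralizer_singleton_iff] at h1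
  have hind : ∀ k : ℕ, u * v ^ k * u⁻¹ * (v ^ k)⁻¹ ∈ Z ∧
      (u * v ^ k * u⁻¹ * (v ^ k)⁻¹) ^ (q ^ a) = w ^ k := by
    intro k
    induction k with
    | zero => simp [Z.one_mem]
    | succ k ih =>
      obtain ⟨ih1, ih2⟩ := ih
      have hstep : u * v ^ (k + 1) * u⁻¹ * (v ^ (k + 1))⁻¹ =
          (u * v ^ k * u⁻¹ * (v ^ k)⁻¹) * (v ^ k * c * (v ^ k)⁻¹) := by
        rw [hcdef, pow_succ]; group
      have hconj : v ^ k * c * (v ^ k)⁻¹ ∈ Z := hZn.conj_mem c hcZ' (v ^ k)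
      have hcomm : Commute (u * v ^ k * u⁻¹ * (v ^ k)⁻¹) (v ^ k * c * (v ^ k)⁻¹) :=
        hZcomm _ ih1 _ hconj
      refine ⟨by rw [hstep]; exact Z.mul_mem ih1 hconj, ?_⟩
      rw [hstep, hcomm.mul_pow, ih2, conj_pow, ← hwdef]
      have hwvk : v ^ k * w * (v ^ k)⁻¹ = w := by
        have h0 : Commute (v ^ k) w := Commute.pow_left (show Commute v w from hwv.symm) k
        rw [h0.eq, mul_inv_cancel_right]
      rw [hwvk, pow_succ]
  have hwq : w ^ (q ^ b) = 1 := by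
    have h1 := (hind (q ^ b)).2
    rw [hvb] at h1
    simpa using h1.symm
  have hw1 : w = 1 := by
    have h1 := pow_gcd_eq_one.mpr ⟨hwq, hwt⟩
    have h2 : Nat.gcd (q ^ b) t = 1 :=
      Nat.Coprime.pow_left b ((Nat.Prime.coprime_iff_not_dvd hq.out).mpr hqt)
    rwa [h2, pow_one] at h1
  have hcqa : c ^ (q ^ a) = 1 := by rw [← hwdef]; exact hw1
  have hcq : c ∈ Cfsg.pCore q X := mem_pCore_of_mem_fitting_of_pow q c hcF a hcqa
  have huc : u * c = c * u := hus q (Ne.symm hpq) c hcq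
  have hvu : v * u * v⁻¹ = c⁻¹ * u := by rw [hcdef]; group
  have hcp : c ^ (p ^ e) = 1 := by
    have h1 : (c⁻¹ * u) ^ (p ^ e) = 1 := by rw [← hvu, conj_pow, hue]; group
    have hcomm : Commute c⁻¹ u := (show Commute c u from huc.symm).inv_left
    rw [hcomm.mul_pow, hue, mul_one, inv_pow, inv_eq_one] at h1
    exact h1
  have hc1 : c = 1 := by
    have h1 := pow_gcd_eq_one.mpr ⟨hcp, hcqa⟩
    have h2 : Nat.gcd (p ^ e) (q ^ a) = 1 :=
      Nat.Coprime.pow e a ((Nat.coprime_primes hp.out hq.out).mpr hpq)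
    rwa [h2, pow_one] at h1
  rw [hc1] at hcdef
  calc u * v = (u * v * u⁻¹ * v⁻¹) * (v * u) := by group
    _ = v * u := by rw [← hcdef, one_mul]

theorem genFitting_le_pCore_of {X : Type u} [Group X] [Finite X] (hlayer : Cfsg.layer X = ⊥)
    (p : ℕ) [Fact p.Prime] (h : ∀ s : ℕ, [Fact s.Prime] → s ≠ p → Cfsg.pCore s X = ⊥) :
    Cfsg.generalizedFittingSubgroup X ≤ Cfsg.pCore p X := by
  unfold Cfsg.generalizedFittingSubgroup
  rw [hlayer, bot_sup_eq]
  apply subnormal_nilpotent_le _ (fitting_normal X).isSubnormal (fitting_isNilpotent X)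
  intro s _
  by_cases hs : s = p
  · rw [hs]
  · rw [h s hs]; exact bot_le

section Pair

variable {G : Type u} [Group G] [Finite G]

theorem eq_bot_of_genFittingOf_eq_bot (M : Subgroup G)
    (h : Cfsg.generalizedFittingSubgroup ↥M = ⊥) : M = ⊥ := by
  rw [eq_bot_iff]
  intro x hx
  have h1 : (⟨x, hx⟩ : ↥M) ∈
      Subgroup.centralizer (Cfsg.generalizedFittingSubgroup ↥M : Set ↥M) := by
    rw [h, Subgroup.mem_centralizer_iff]
    intro y hy
    rw [SetLike.mem_coe, Subgroup.mem_bot] at hy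
    rw [hy, one_mul, mul_one]
  have h2 := centralizer_genFitting_le ↥M h1
  rw [h, Subgroup.mem_bot] at h2
  exact Subgroup.mem_bot.mpr (congrArg Subtype.val h2)

theorem pCoreOf_le_genFittingOf (s : ℕ) [Fact s.Prime] (M : Subgroup G) :
    Cfsg.pCoreOf s M ≤ (Cfsg.generalizedFittingSubgroup ↥M).map M.subtype := by
  unfold Cfsg.pCoreOf
  apply Subgroup.map_mono
  unfold Cfsg.generalizedFittingSubgroup
  exact le_trans (pCore_le_fitting s ↥M) le_sup_right

theorem pCoreOf_commute (M N : Subgroup G) (r s : ℕ) [Fact r.Prime] [Fact s.Prime] (hrs : r ≠ s)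
    (h1 : Cfsg.pCoreOf r M ≤ N) (h2 : Cfsg.pCoreOf s N ≤ M) :
    ∀ a ∈ Cfsg.pCoreOf r M, ∀ b ∈ Cfsg.pCoreOf s N, a * b = b * a := by
  intro a ha b hb
  have hNn : N ≤ Subgroup.normalizer ((Cfsg.pCoreOf s N : Subgroup G) : Set G) :=
    le_trans Subgroup.le_normalizer (normalizer_le_normalizer_pCoreOf' N)
  have hMn : M ≤ Subgroup.normalizer ((Cfsg.pCoreOf r M : Subgroup G) : Set G) :=
    le_trans Subgroup.le_normalizer (normalizer_le_normalizer_pCoreOf' M)
  have hc1 : a * b * a⁻¹ * b⁻¹ ∈ Cfsg.pCoreOf r M := by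
    have h3 : b * a⁻¹ * b⁻¹ ∈ Cfsg.pCoreOf r M :=
      (Subgroup.mem_normalizer_iff.mp (hMn (h2 hb)) a⁻¹).mp ((Cfsg.pCoreOf r M).inv_mem ha)
    have h4 := (Cfsg.pCoreOf r M).mul_mem ha h3
    have h5 : a * (b * a⁻¹ * b⁻¹) = a * b * a⁻¹ * b⁻¹ := by group
    rwa [h5] at h4
  have hc2 : a * b * a⁻¹ * b⁻¹ ∈ Cfsg.pCoreOf s N := by
    have h3 : a * b * a⁻¹ ∈ Cfsg.pCoreOf s N :=
      (Subgroup.mem_normalizer_iff.mp (hNn (h1 ha)) b).mp hb
    exact (Cfsg.pCoreOf s N).mul_mem h3 ((Cfsg.pCoreOf s N).inv_mem hb)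
  have hdisj := IsPGroup.disjoint_of_ne r s hrs _ _ (pCoreOf_isPGroup' (p := r) M)
    (pCoreOf_isPGroup' (p := s) N)
  have h6 : a * b * a⁻¹ * b⁻¹ = 1 := (Subgroup.disjoint_def.mp hdisj) hc1 hc2
  calc a * b = (a * b * a⁻¹ * b⁻¹) * (b * a) := by group
    _ = b * a := by rw [h6, one_mul]

/-- The key step of Bender's theorem: if `O_p(M) ≠ 1` is not normalized by more of `N` than
`M ∩ N`, then `O_q(M) ≤ O_q(N)` for every prime `q ≠ p`. -/
theorem pCoreOf_le_pCoreOf_of_pair (M N : Subgroup G) (hlayerN : Cfsg.layer ↥N = ⊥)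
    (p q : ℕ) [Fact p.Prime] [Fact q.Prime] (hpq : p ≠ q)
    (hPM : ∀ s : ℕ, [Fact s.Prime] → Cfsg.pCoreOf s M ≤ N)
    (hPN : ∀ s : ℕ, [Fact s.Prime] → Cfsg.pCoreOf s N ≤ M)
    (hprim : N ⊓ Subgroup.normalizer ((Cfsg.pCoreOf p M : Subgroup G) : Set G) ≤ M) :
    Cfsg.pCoreOf q M ≤ Cfsg.pCoreOf q N := by
  have hcomm : ∀ r s : ℕ, [Fact r.Prime] → [Fact s.Prime] → r ≠ s →
      ∀ a ∈ Cfsg.pCoreOf r M, ∀ b ∈ Cfsg.pCoreOf s N, a * b = b * a :=
    fun r s _ _ hrs => pCoreOf_commute M N r s hrs (hPM r) (hPN s)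
  obtain ⟨Y0, hY0⟩ : ∃ Y0 : Subgroup ↥N, Y0 = Subgroup.normalClosure
      (((Cfsg.pCoreOf q M).subgroupOf N : Subgroup ↥N) : Set ↥N) := ⟨_, rfl⟩
  have hY0n : Y0.Normal := by rw [hY0]; exact Subgroup.normalClosure_normal
  have hY0c : ∀ g ∈ Y0, ∀ x ∈ Cfsg.pCoreOf p M, x * (g : G) = (g : G) * x := by
    have hle : Y0 ≤ (Subgroup.centralizer
        ((Cfsg.pCoreOf p M : Subgroup G) : Set G)).subgroupOf N := by
      rw [hY0, Subgroup.normalClosure, Subgroup.closure_le]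
      intro g hg
      obtain ⟨b, hb, hbg⟩ := Group.mem_conjugatesOfSet_iff.mp hg
      obtain ⟨m, hm⟩ := isConj_iff.mp hbg
      rw [SetLike.mem_coe, Subgroup.mem_subgroupOf, Subgroup.mem_centralizer_iff]
      intro x hx
      have hbM : (b : G) ∈ Cfsg.pCoreOf q M := Subgroup.mem_subgroupOf.mp hb
      obtain ⟨e, he⟩ := (pCoreOf_isPGroup' (p := p) M) ⟨x, hx⟩
      obtain ⟨k, hk⟩ := (pCoreOf_isPGroup' (p := q) M) ⟨(b : G), hbM⟩
      have hxe : (⟨x, hPM p hx⟩ : ↥N) ^ (p ^ e) = 1 := by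
        apply Subtype.ext
        have h0 := congrArg Subtype.val he
        simpa using h0
      have hbk : b ^ (q ^ k) = 1 := by
        apply Subtype.ext
        have h0 := congrArg Subtype.val hk
        simpa using h0
      have hgk : g ^ (q ^ k) = 1 := by rw [← hm, conj_pow, hbk]; group
      have key := commute_of_p_q_elements hlayerN p q hpq (⟨x, hPM p hx⟩ : ↥N) g e k hxe hgk
        ?_ ?_
      · exact congrArg Subtype.val key
      · intro s _ hs y hy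
        apply Subtype.ext
        exact hcomm p s (Ne.symm hs) x hx (y : G) ⟨y, hy, rfl⟩
      · intro s _ hs y hy
        have hy' : m⁻¹ * y * m ∈ Cfsg.pCore s ↥N := by
          have h0 := (Cfsg.Agent.Lib.Helper4.pCore_normal s ↥N).conj_mem y hy m⁻¹
          simpa using h0
        have h0 : b * (m⁻¹ * y * m) = (m⁻¹ * y * m) * b := by
          apply Subtype.ext
          exact hcomm q s (Ne.symm hs) (b : G) hbM _ ⟨_, hy', rfl⟩
        rw [← hm]
        calc m * b * m⁻¹ * y = m * (b * (m⁻¹ * y * m)) * m⁻¹ := by group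
          _ = m * ((m⁻¹ * y * m) * b) * m⁻¹ := by rw [h0]
          _ = y * (m * b * m⁻¹) := by group
    intro g hg x hx
    have h0 := hle hg
    rw [Subgroup.mem_subgroupOf, Subgroup.mem_centralizer_iff] at h0
    exact h0 x hx
  obtain ⟨Y, hY⟩ : ∃ Y : Subgroup G, Y = Y0.map N.subtype := ⟨_, rfl⟩
  have hYN : Y ≤ N := by rw [hY]; exact Subgroup.map_subtype_le _
  have hYM : Y ≤ M := by
    intro g hg
    apply hprim
    refine Subgroup.mem_inf.mpr ⟨hYN hg, ?_⟩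
    apply Subgroup.centralizer_le_normalizer
    rw [Subgroup.mem_centralizer_iff]
    rw [hY] at hg
    obtain ⟨g', hg', rfl⟩ := hg
    exact hY0c g' hg'
  have hQY : Cfsg.pCoreOf q M ≤ Y := by
    intro b hb
    rw [hY]
    refine ⟨⟨b, hPM q hb⟩, ?_, rfl⟩
    rw [hY0]
    exact Subgroup.subset_normalClosure (Subgroup.mem_subgroupOf.mpr hb)
  have hMn : M ≤ Subgroup.normalizer ((Cfsg.pCoreOf q M : Subgroup G) : Set G) :=
    le_trans Subgroup.le_normalizer (normalizer_le_normalizer_pCoreOf' M)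
  have h1 : Cfsg.pCoreOf q M ≤ Cfsg.pCoreOf q Y :=
    le_pCoreOf' hQY (le_trans hYM hMn) (pCoreOf_isPGroup' M)
  have hNY : N ≤ Subgroup.normalizer (Y : Set G) := by
    apply Cfsg.Agent.Lib.Helper4.le_normalizer_of_conj_mem
    intro s hs d hd
    rw [hY] at hd ⊢
    obtain ⟨d', hd', rfl⟩ := hd
    exact ⟨⟨s, hs⟩ * d' * ⟨s, hs⟩⁻¹, hY0n.conj_mem d' hd' ⟨s, hs⟩, rfl⟩
  have h2 : Cfsg.pCoreOf q Y ≤ Cfsg.pCoreOf q N :=
    le_pCoreOf' (le_trans (pCoreOf_le_self Y) hYN)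
      (le_trans hNY (normalizer_le_normalizer_pCoreOf' Y)) (pCoreOf_isPGroup' Y)
  exact le_trans h1 h2

end Pair

section LayerPair

variable {G : Type u} [Group G] [Finite G]

/-- A component of `M` centralizes `O_s(N)` when `E(M) ≤ N` and `O_s(N) ≤ M`. -/
theorem component_commute_pCoreOf (M N : Subgroup G)
    (hEM : (Cfsg.layer ↥M).map M.subtype ≤ N) (s : ℕ) [Fact s.Prime]
    (hBM : Cfsg.pCoreOf s N ≤ M) (K : Subgroup ↥M) (hK : Cfsg.IsComponent K) :
    ∀ k ∈ K, ∀ b ∈ Cfsg.pCoreOf s N, (k : G) * b = b * (k : G) := by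
  have hNn : N ≤ Subgroup.normalizer ((Cfsg.pCoreOf s N : Subgroup G) : Set G) :=
    le_trans Subgroup.le_normalizer (normalizer_le_normalizer_pCoreOf' N)
  have hLn : (Cfsg.layer ↥M).Normal := layer_normal ↥M
  obtain ⟨B, hBdef⟩ : ∃ B : Subgroup ↥M, B = (Cfsg.pCoreOf s N).subgroupOf M := ⟨_, rfl⟩
  have hBp : IsPGroup s ↥B := by
    rw [hBdef]
    exact (pCoreOf_isPGroup' (p := s) N).comap_of_injective M.subtype M.subtype_injective
  have hconjB : ∀ e ∈ Cfsg.layer ↥M, ∀ b ∈ B, e * b * e⁻¹ ∈ B := by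
    intro e he b hb
    rw [hBdef] at hb ⊢
    rw [Subgroup.mem_subgroupOf] at hb ⊢
    have heN : (e : G) ∈ N := hEM ⟨e, he, rfl⟩
    exact (Subgroup.mem_normalizer_iff.mp (hNn heN) (b : G)).mp hb
  obtain ⟨Z, hZdef⟩ : ∃ Z : Subgroup ↥M, Z = Cfsg.layer ↥M ⊓ B := ⟨_, rfl⟩
  have hZle : Z ≤ Cfsg.layer ↥M := by rw [hZdef]; exact inf_le_left
  have hZsub : Z.IsSubnormal := by
    refine Subgroup.IsSubnormal.step Z (Cfsg.layer ↥M) hZle hLn.isSubnormal ?_
    rw [Subgroup.normal_subgroupOf_iff_le_normalizer hZle]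
    apply Cfsg.Agent.Lib.Helper4.le_normalizer_of_conj_mem
    intro e he z hz
    rw [hZdef] at hz ⊢
    obtain ⟨hz1, hz2⟩ := Subgroup.mem_inf.mp hz
    exact Subgroup.mem_inf.mpr ⟨(Cfsg.layer ↥M).mul_mem ((Cfsg.layer ↥M).mul_mem he hz1)
      ((Cfsg.layer ↥M).inv_mem he), hconjB e he z hz2⟩
  have hZnil : Group.IsNilpotent ↥Z := by
    have hZp : IsPGroup s ↥Z := hBp.to_le (by rw [hZdef]; exact inf_le_right)
    exact hZp.isNilpotent
  have hZF : Z ≤ Cfsg.fittingSubgroup ↥M := subnormal_nilpotent_le_fitting Z hZsub hZnil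
  have hcentral : ∀ z ∈ Z, ∀ e ∈ Cfsg.layer ↥M, e * z = z * e :=
    fun z hz e he => layer_fitting_commute e z he (hZF hz)
  have hKL : K ≤ Cfsg.layer ↥M := component_le_layer K hK
  have h1 : ⁅K, B⁆ ≤ Subgroup.centralizer (K : Set ↥M) := by
    rw [Subgroup.commutator_le]
    intro k hk b hb
    have hmem : ⁅k, b⁆ ∈ Z := by
      rw [hZdef, commutatorElement_def]
      refine Subgroup.mem_inf.mpr ⟨?_, ?_⟩
      · have h2 : b * k⁻¹ * b⁻¹ ∈ Cfsg.layer ↥M :=
          hLn.conj_mem _ ((Cfsg.layer ↥M).inv_mem (hKL hk)) b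
        have h3 := (Cfsg.layer ↥M).mul_mem (hKL hk) h2
        have h4 : k * (b * k⁻¹ * b⁻¹) = k * b * k⁻¹ * b⁻¹ := by group
        rwa [h4] at h3
      · exact B.mul_mem (hconjB k (hKL hk) b hb) (B.inv_mem hb)
    rw [Subgroup.mem_centralizer_iff]
    intro h hh
    exact hcentral _ hmem h (hKL hh)
  have h2 : ⁅⁅K, B⁆, K⁆ = ⊥ := Subgroup.commutator_eq_bot_iff_le_centralizer.mpr h1
  have h3 : ⁅⁅B, K⁆, K⁆ = ⊥ := by rw [Subgroup.commutator_comm B K]; exact h2
  have h4 : ⁅⁅K, K⁆, B⁆ = ⊥ := Subgroup.commutator_commutator_eq_bot_of_rotate h2 h3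
  have hperf : ⁅K, K⁆ = K := Subgroup.isPerfect_iff.mp hK.2.1
  rw [hperf, Subgroup.commutator_eq_bot_iff_le_centralizer] at h4
  intro k hk b hb
  have hbM : b ∈ M := hBM hb
  have hbB : (⟨b, hbM⟩ : ↥M) ∈ B := by
    rw [hBdef, Subgroup.mem_subgroupOf]; exact hb
  have h5 := (Subgroup.mem_centralizer_iff.mp (h4 hk)) ⟨b, hbM⟩ hbB
  exact (congrArg Subtype.val h5).symm

/-- Under `F*(M) ≤ N` and `F*(N) ≤ M`, every component of `M` lies in `E(N)`. -/
theorem component_map_le_layerOf (M N : Subgroup G)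
    (hFM : (Cfsg.generalizedFittingSubgroup ↥M).map M.subtype ≤ N)
    (hFN : (Cfsg.generalizedFittingSubgroup ↥N).map N.subtype ≤ M)
    (K : Subgroup ↥M) (hK : Cfsg.IsComponent K) :
    K.map M.subtype ≤ (Cfsg.layer ↥N).map N.subtype := by
  have hLF : ∀ (X : Subgroup G), Cfsg.layer ↥X ≤ Cfsg.generalizedFittingSubgroup ↥X := fun X => by
    unfold Cfsg.generalizedFittingSubgroup; exact le_sup_left
  have hEM : (Cfsg.layer ↥M).map M.subtype ≤ N := le_trans (Subgroup.map_mono (hLF M)) hFM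
  have hEN : (Cfsg.layer ↥N).map N.subtype ≤ M := le_trans (Subgroup.map_mono (hLF N)) hFN
  have hKL : K ≤ Cfsg.layer ↥M := component_le_layer K hK
  have hKN : ∀ k ∈ K, (k : G) ∈ N := fun k hk => hEM ⟨k, hKL hk, rfl⟩
  have hBs : ∀ s : ℕ, [Fact s.Prime] → Cfsg.pCoreOf s N ≤ M :=
    fun s _ => le_trans (pCoreOf_le_genFittingOf s N) hFN
  have hKF : ∀ k (hk : k ∈ K), ∀ f ∈ Cfsg.fittingSubgroup ↥N,
      (⟨(k : G), hKN k hk⟩ : ↥N) * f = f * ⟨(k : G), hKN k hk⟩ := by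
    intro k hk f hf
    have hle : Cfsg.fittingSubgroup ↥N ≤
        Subgroup.centralizer ({(⟨(k : G), hKN k hk⟩ : ↥N)} : Set ↥N) := by
      apply subnormal_nilpotent_le _ (fitting_normal ↥N).isSubnormal (fitting_isNilpotent ↥N)
      intro s _ y hy
      rw [Subgroup.mem_centralizer_singleton_iff]
      apply Subtype.ext
      exact (component_commute_pCoreOf M N hEM s (hBs s) K hK k hk (y : G) ⟨y, hy, rfl⟩).symm
    have h0 := hle hf
    rw [Subgroup.mem_centralizer_singleton_iff] at h0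
    exact h0.symm
  obtain ⟨Γ, hΓ⟩ : ∃ Γ : Subgroup ↥M, Γ = N.subgroupOf M := ⟨_, rfl⟩
  have hKΓ : K ≤ Γ := by
    intro k hk
    rw [hΓ, Subgroup.mem_subgroupOf]
    exact hKN k hk
  have hΓmem : ∀ x : ↥M, x ∈ Γ → (x : G) ∈ N := by
    intro x hx
    rw [hΓ, Subgroup.mem_subgroupOf] at hx
    exact hx
  have hcomp : Cfsg.IsComponent (K.subgroupOf Γ) := isComponent_subgroupOf K Γ hKΓ hK
  obtain ⟨H, hH⟩ : ∃ H : Subgroup ↥Γ,
      H = (((Cfsg.layer ↥N).map N.subtype).subgroupOf M).subgroupOf Γ := ⟨_, rfl⟩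
  have hmemH : ∀ γ : ↥Γ, γ ∈ H ↔ ((γ : ↥M) : G) ∈ (Cfsg.layer ↥N).map N.subtype := by
    intro γ
    rw [hH, Subgroup.mem_subgroupOf, Subgroup.mem_subgroupOf]
  have hHn : H.Normal := by
    constructor
    intro h hh γ
    rw [hmemH] at hh ⊢
    obtain ⟨h', hh', he⟩ := hh
    have hγN : ((γ : ↥M) : G) ∈ N := hΓmem γ γ.2
    refine ⟨⟨((γ : ↥M) : G), hγN⟩ * h' * ⟨((γ : ↥M) : G), hγN⟩⁻¹,
      (layer_normal ↥N).conj_mem h' hh' _, ?_⟩
    show ((γ : ↥M) : G) * (h' : G) * ((γ : ↥M) : G)⁻¹ = (((γ * h * γ⁻¹ : ↥Γ) : ↥M) : G)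
    rw [show (h' : G) = ((h : ↥M) : G) from he]
    rfl
  rcases component_le_or_centralizes (K.subgroupOf Γ) H hcomp hHn.isSubnormal with hle | hcen
  · rintro _ ⟨k, hk, rfl⟩
    have h0 : (⟨k, hKΓ hk⟩ : ↥Γ) ∈ K.subgroupOf Γ := Subgroup.mem_subgroupOf.mpr hk
    exact (hmemH _).mp (hle h0)
  · exfalso
    apply component_not_le_centralizer_self K hK
    have hkcent : ∀ k (hk : k ∈ K), (⟨(k : G), hKN k hk⟩ : ↥N) ∈
        Subgroup.centralizer (Cfsg.generalizedFittingSubgroup ↥N : Set ↥N) := by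
      intro k hk
      have hle : Cfsg.generalizedFittingSubgroup ↥N ≤
          Subgroup.centralizer ({(⟨(k : G), hKN k hk⟩ : ↥N)} : Set ↥N) := by
        unfold Cfsg.generalizedFittingSubgroup
        refine sup_le ?_ ?_
        · intro e he
          rw [Subgroup.mem_centralizer_singleton_iff]
          have heM : (e : G) ∈ M := hEN ⟨e, he, rfl⟩
          have heΓ : (⟨(e : G), heM⟩ : ↥M) ∈ Γ := by
            rw [hΓ, Subgroup.mem_subgroupOf]; exact e.2
          have heH : (⟨⟨(e : G), heM⟩, heΓ⟩ : ↥Γ) ∈ H := by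
            rw [hmemH]; exact ⟨e, he, rfl⟩
          have hkΓ : (⟨k, hKΓ hk⟩ : ↥Γ) ∈ K.subgroupOf Γ := Subgroup.mem_subgroupOf.mpr hk
          have h0 := (Subgroup.mem_centralizer_iff.mp (hcen hkΓ)) _ heH
          apply Subtype.ext
          have h1 : (e : G) * (k : G) = (k : G) * (e : G) :=
            congrArg (fun γ : ↥Γ => ((γ : ↥M) : G)) h0
          exact h1
        · intro f hf
          rw [Subgroup.mem_centralizer_singleton_iff]
          exact (hKF k hk f hf).symm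
      rw [Subgroup.mem_centralizer_iff]
      intro f hf
      have h0 := hle hf
      rw [Subgroup.mem_centralizer_singleton_iff] at h0
      exact h0
    intro k₁ hk₁
    rw [Subgroup.mem_centralizer_iff]
    intro k₂ hk₂
    have h1 := centralizer_genFitting_le ↥N (hkcent k₂ hk₂)
    have h2 := (Subgroup.mem_centralizer_iff.mp (hkcent k₁ hk₁)) _ h1
    apply Subtype.ext
    have h3 : (k₂ : G) * (k₁ : G) = (k₁ : G) * (k₂ : G) := congrArg Subtype.val h2
    exact h3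

theorem layerOf_le_layerOf (M N : Subgroup G)
    (hFM : (Cfsg.generalizedFittingSubgroup ↥M).map M.subtype ≤ N)
    (hFN : (Cfsg.generalizedFittingSubgroup ↥N).map N.subtype ≤ M) :
    (Cfsg.layer ↥M).map M.subtype ≤ (Cfsg.layer ↥N).map N.subtype := by
  rw [Subgroup.map_le_iff_le_comap]
  show sSup {K : Subgroup ↥M | Cfsg.IsComponent K} ≤ _
  refine sSup_le ?_
  intro K hK
  rw [← Subgroup.map_le_iff_le_comap]
  exact component_map_le_layerOf M N hFM hFN K hK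

/-- Under `F*(M) ≤ N`, `F*(N) ≤ M`, if no nontrivial subgroup is normalized by both `M` and `N`
then `E(M) = 1`. -/
theorem layer_eq_bot_of_pair (M N : Subgroup G)
    (hFM : (Cfsg.generalizedFittingSubgroup ↥M).map M.subtype ≤ N)
    (hFN : (Cfsg.generalizedFittingSubgroup ↥N).map N.subtype ≤ M)
    (hstar : ∀ A : Subgroup G, A ≠ ⊥ → A ≤ M ⊓ N → M ≤ Subgroup.normalizer (A : Set G) →
      N ≤ Subgroup.normalizer (A : Set G) → False) :
    Cfsg.layer ↥M = ⊥ := by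
  by_contra hne
  have heq : (Cfsg.layer ↥M).map M.subtype = (Cfsg.layer ↥N).map N.subtype :=
    le_antisymm (layerOf_le_layerOf M N hFM hFN) (layerOf_le_layerOf N M hFN hFM)
  have hnormM : ∀ X : Subgroup G, X ≤ Subgroup.normalizer
      (((Cfsg.layer ↥X).map X.subtype : Subgroup G) : Set G) := by
    intro X
    apply Cfsg.Agent.Lib.Helper4.le_normalizer_of_conj_mem
    rintro s hs _ ⟨d, hd, rfl⟩
    exact ⟨⟨s, hs⟩ * d * ⟨s, hs⟩⁻¹, (layer_normal ↥X).conj_mem d hd ⟨s, hs⟩, rfl⟩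
  apply hstar ((Cfsg.layer ↥M).map M.subtype)
  · intro h
    exact hne ((Subgroup.map_eq_bot_iff_of_injective _ M.subtype_injective).mp h)
  · exact le_inf (Subgroup.map_subtype_le _) (by rw [heq]; exact Subgroup.map_subtype_le _)
  · exact hnormM M
  · rw [heq]; exact hnormM N

end LayerPair

end Cfsg.Agent.Lib.Helper3
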