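import Mathlib
import Cfsg.Prelude.Def_Local
import Cfsg.Agent.Lib.Helper2.PComp
import Cfsg.Agent.Lib.Helper3.ZJ
import Cfsg.Agent.Lib.Helper3.Frat
import Cfsg.Agent.Lib.Helper3.PPrimeCore
import Cfsg.Agent.Lib.Helper4.PCore

set_option autoImplicit false

namespace Cfsg.Agent.Lib.Helper3

universe u

open scoped commutatorElement

theorem s3076_relIndex_comap_mk {Z : Type*} [Group Z] (C : Subgroup Z) [C.Normal]
    (O : Subgroup (Z ⧸ C)) :
    C.relIndex (O.comap (QuotientGroup.mk' C)) = Nat.card ↥O := by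
  have e1 : (⊥ : Subgroup (Z ⧸ C)).comap (QuotientGroup.mk' C) = C := by
    rw [MonoidHom.comap_bot, QuotientGroup.ker_mk']
  calc C.relIndex (O.comap (QuotientGroup.mk' C))
      = ((⊥ : Subgroup (Z ⧸ C)).comap (QuotientGroup.mk' C)).relIndex
          (O.comap (QuotientGroup.mk' C)) := by rw [e1]
    _ = (⊥ : Subgroup (Z ⧸ C)).relIndex
          ((O.comap (QuotientGroup.mk' C)).map (QuotientGroup.mk' C)) :=
        Subgroup.relIndex_comap _ _ _
    _ = (⊥ : Subgroup (Z ⧸ C)).relIndex O := by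
        rw [Subgroup.map_comap_eq_self_of_surjective (QuotientGroup.mk'_surjective C)]
    _ = Nat.card ↥O := Subgroup.relIndex_bot_left _

theorem s3076_le_comap {X : Type*} [Group X] {p : ℕ} (C : Subgroup X) [C.Normal]
    (T : Subgroup X) [hT : T.Normal] (hTp : ∀ t ∈ T, ∃ k : ℕ, t ^ p ^ k ∈ C) :
    T ≤ (Cfsg.pCore p (X ⧸ C)).comap (QuotientGroup.mk' C) := by
  have hmapn : (T.map (QuotientGroup.mk' C)).Normal :=
    hT.map _ (QuotientGroup.mk'_surjective C)
  have hmapp : IsPGroup p ↥(T.map (QuotientGroup.mk' C)) := by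
    rintro ⟨_, ⟨t, ht, rfl⟩⟩
    obtain ⟨k, hk⟩ := hTp t ht
    refine ⟨k, Subtype.ext ?_⟩
    show ((QuotientGroup.mk' C) t) ^ p ^ k = 1
    rw [← map_pow]
    exact (QuotientGroup.eq_one_iff _).mpr hk
  exact Subgroup.map_le_iff_le_comap.mp (Cfsg.Agent.Lib.Helper4.le_pCore hmapn hmapp)

theorem s3076_pow_mem {X : Type*} [Group X] {p : ℕ} (C : Subgroup X) [C.Normal] :
    ∀ n ∈ (Cfsg.pCore p (X ⧸ C)).comap (QuotientGroup.mk' C), ∃ k : ℕ, n ^ p ^ k ∈ C := by
  intro n hn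
  rw [Subgroup.mem_comap] at hn
  obtain ⟨k, hk⟩ := Cfsg.Agent.Lib.Helper4.pCore_isPGroup p (X ⧸ C) ⟨_, hn⟩
  refine ⟨k, ?_⟩
  have h1 : ((QuotientGroup.mk' C) n) ^ p ^ k = 1 := congrArg Subtype.val hk
  rw [← map_pow] at h1
  exact (QuotientGroup.eq_one_iff _).mp h1

theorem s3076_ker_le {X : Type*} [Group X] {p : ℕ} (C : Subgroup X) [C.Normal] :
    C ≤ (Cfsg.pCore p (X ⧸ C)).comap (QuotientGroup.mk' C) := by
  intro c hc
  rw [Subgroup.mem_comap]
  have : (QuotientGroup.mk' C) c = 1 := (QuotientGroup.eq_one_iff c).mpr hc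
  rw [this]; exact one_mem _

theorem s3076_le_of_pgroup {X : Type*} [Group X] [Finite X] {p : ℕ} [Fact p.Prime]
    (H T N : Subgroup X) (hHT : H ≤ T) (hTN : T ≤ N) (hTp : IsPGroup p ↥T)
    (hidx : ¬ p ∣ H.relIndex N) : T ≤ H := by
  rw [← Subgroup.relIndex_eq_one]
  have h1 := Subgroup.relIndex_mul_relIndex H T N hHT hTN
  obtain ⟨t, ht⟩ := IsPGroup.iff_card.mp hTp
  have h2 := zj_card_mul_relIndex H T hHT
  have h3 : H.relIndex T ∣ p ^ t := by rw [← ht, ← h2]; exact dvd_mul_left _ _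
  obtain ⟨j, _, hj⟩ := (Nat.dvd_prime_pow Fact.out).mp h3
  rcases Nat.eq_zero_or_pos j with hj0 | hjpos
  · rw [hj, hj0, pow_zero]
  · exfalso
    apply hidx
    rw [← h1, hj]
    exact dvd_mul_of_dvd_left (dvd_pow_self p hjpos.ne') _

theorem s3076_burnside {X : Type u} [Group X] [Finite X] {p : ℕ} [Fact p.Prime]
    (H C : Subgroup X) [hCn : C.Normal] (hHp : IsPGroup p ↥H)
    (hcent : ∀ c ∈ C, ∀ h ∈ H, h * c = c * h)
    (hmax : ∀ T : Subgroup X, IsPGroup p ↥T → T ≤ C → H ⊓ C ≤ T → T ≤ H) :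
    ∃ D : Subgroup X, D.Normal ∧ (Nat.card ↥D).Coprime p ∧ C = (H ⊓ C) ⊔ D := by
  have hZp : IsPGroup p ↥((H ⊓ C).subgroupOf C) :=
    IsPGroup.comap_subtype (hHp.to_le inf_le_left)
  have hZc : (H ⊓ C).subgroupOf C ≤ Subgroup.center ↥C := by
    intro z hz
    rw [Subgroup.mem_subgroupOf] at hz
    rw [Subgroup.mem_center_iff]
    intro g
    exact Subtype.ext (hcent g.1 g.2 z.1 (Subgroup.mem_inf.mp hz).1).symm
  have hmax' : ∀ T : Subgroup ↥C, IsPGroup p ↥T → (H ⊓ C).subgroupOf C ≤ T →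
      T = (H ⊓ C).subgroupOf C := by
    intro T hTp hZT
    apply le_antisymm _ hZT
    intro t ht
    rw [Subgroup.mem_subgroupOf]
    have h1 : T.map C.subtype ≤ H := by
      apply hmax _ (hTp.map _) (Subgroup.map_subtype_le T)
      have := Subgroup.map_mono (f := C.subtype) hZT
      rwa [Subgroup.map_subgroupOf_eq_of_le inf_le_right] at this
    exact Subgroup.mem_inf.mpr ⟨h1 (Subgroup.mem_map_of_mem _ ht), t.2⟩
  obtain ⟨_, h2⟩ := central_sylow_pPrimeCore ((H ⊓ C).subgroupOf C) hZp hZc hmax'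
  haveI hchar : (Cfsg.pPrimeCore p ↥C).Characteristic :=
    Cfsg.Agent.Lib.Helper2.pPrimeCore_characteristic' p ↥C
  refine ⟨(Cfsg.pPrimeCore p ↥C).map C.subtype, ConjAct.normal_of_characteristic_of_normal,
    ?_, ?_⟩
  · rw [Subgroup.card_map_of_injective C.subtype_injective]
    exact pPrimeCore_coprime Fact.out ↥C
  · have h3 := congrArg (Subgroup.map C.subtype) h2
    rw [Subgroup.map_sup, Subgroup.map_subgroupOf_eq_of_le inf_le_right,
      ← MonoidHom.range_eq_map, Subgroup.range_subtype] at h3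
    rw [sup_comm]; exact h3.symm

theorem s3076_main {X : Type u} [Group X] [Finite X] {p : ℕ} [Fact p.Prime]
    (H C P : Subgroup X) [hHn : H.Normal] [hCn : C.Normal] (hHp : IsPGroup p ↥H)
    (hcent : ∀ c ∈ C, ∀ h ∈ H, h * c = c * h)
    (hfull : ∀ x : X, (∀ h ∈ H, h * x = x * h) → x ∈ C)
    (hPp : IsPGroup p ↥P) (hPidx : ¬ p ∣ P.index) (hHP : H ≤ P) :
    (H ≤ (Cfsg.pCore p (X ⧸ C)).comap (QuotientGroup.mk' C) ∧
      ¬ p ∣ H.relIndex ((Cfsg.pCore p (X ⧸ C)).comap (QuotientGroup.mk' C))) ↔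
    (P ⊓ C ≤ H ∧ Cfsg.pPrimePCore p X = H ⊔ C) := by
  have hp : p.Prime := Fact.out
  obtain ⟨N, hN⟩ : ∃ N : Subgroup X,
      N = (Cfsg.pCore p (X ⧸ C)).comap (QuotientGroup.mk' C) := ⟨_, rfl⟩
  rw [← hN]
  have hCN : C ≤ N := by rw [hN]; exact s3076_ker_le C
  have hHpow : ∀ (C₁ : Subgroup X), ∀ t ∈ H, ∃ k : ℕ, t ^ p ^ k ∈ C₁ := by
    intro C₁ t ht
    obtain ⟨k, hk⟩ := hHp ⟨t, ht⟩
    have hk' : t ^ p ^ k = 1 := congrArg Subtype.val hk
    exact ⟨k, by rw [hk']; exact one_mem _⟩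
  have hHN : H ≤ N := by rw [hN]; exact s3076_le_comap C H (hHpow C)
  have hNpow : ∀ n ∈ N, ∃ k : ℕ, n ^ p ^ k ∈ C := by rw [hN]; exact s3076_pow_mem C
  have hNn : N.Normal := by
    rw [hN]; exact (Cfsg.Agent.Lib.Helper4.pCore_normal p _).comap _
  obtain ⟨a, ha⟩ : ∃ a : ℕ, C.relIndex N = p ^ a := by
    obtain ⟨a, ha⟩ := IsPGroup.iff_card.mp (Cfsg.Agent.Lib.Helper4.pCore_isPGroup p (X ⧸ C))
    exact ⟨a, by rw [hN, s3076_relIndex_comap_mk]; exact ha⟩
  have hOcop : (Nat.card ↥(Cfsg.pPrimeCore p X)).Coprime p := pPrimeCore_coprime hp X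
  have hOn : (Cfsg.pPrimeCore p X).Normal := pPrimeCore_normal p X
  have hOC : Cfsg.pPrimeCore p X ≤ C := by
    intro o ho
    apply hfull
    intro h hh
    obtain ⟨i, hi⟩ := IsPGroup.iff_card.mp hHp
    have hdisj : H ⊓ Cfsg.pPrimeCore p X = ⊥ :=
      disjoint_iff.mp (Subgroup.disjoint_of_coprime_natCard
        (by rw [hi]; exact (Nat.Coprime.pow_right i hOcop).symm))
    have hc1 : h * o * h⁻¹ * o⁻¹ ∈ H ⊓ Cfsg.pPrimeCore p X := by
      refine Subgroup.mem_inf.mpr ⟨?_, ?_⟩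
      · have e : h * o * h⁻¹ * o⁻¹ = h * (o * h⁻¹ * o⁻¹) := by group
        rw [e]; exact H.mul_mem hh (hHn.conj_mem _ (H.inv_mem hh) o)
      · exact (Cfsg.pPrimeCore p X).mul_mem (hOn.conj_mem o ho h)
          ((Cfsg.pPrimeCore p X).inv_mem ho)
    rw [hdisj, Subgroup.mem_bot] at hc1
    calc h * o = (h * o * h⁻¹ * o⁻¹) * o * h := by group
      _ = o * h := by rw [hc1, one_mul]
  haveI hKn : (Cfsg.pPrimePCore p X).Normal := pPrimePCore_normal p X
  have hKpow : ∀ k ∈ Cfsg.pPrimePCore p X, ∃ j : ℕ, k ^ p ^ j ∈ Cfsg.pPrimeCore p X :=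
    s3076_pow_mem (Cfsg.pPrimeCore p X)
  have hKN : Cfsg.pPrimePCore p X ≤ N := by
    rw [hN]
    apply s3076_le_comap C (Cfsg.pPrimePCore p X)
    intro t ht
    obtain ⟨j, hj⟩ := hKpow t ht
    exact ⟨j, hOC hj⟩
  have hkey : (∀ T : Subgroup X, IsPGroup p ↥T → T ≤ C → H ⊓ C ≤ T → T ≤ H) →
      N ≤ Cfsg.pPrimePCore p X := by
    intro hmaxB
    obtain ⟨D, hDn, hDcop, hCD⟩ := s3076_burnside H C hHp hcent hmaxB
    have hDO : D ≤ Cfsg.pPrimeCore p X := le_pPrimeCore hDn hDcop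
    have hDC : D ≤ C := le_sup_right.trans hCD.ge
    haveI := hNn
    haveI := hDn
    apply s3076_le_comap (Cfsg.pPrimeCore p X) N
    intro n hn
    obtain ⟨k, hk⟩ := hNpow n hn
    have hk2 : n ^ p ^ k ∈ (H ⊓ C) ⊔ D := hCD.le hk
    rw [← SetLike.mem_coe, Subgroup.mul_normal, Set.mem_mul] at hk2
    obtain ⟨z, hz, d, hd, hzd⟩ := hk2
    obtain ⟨m, hm⟩ := hHp ⟨z, (Subgroup.mem_inf.mp hz).1⟩
    have hm' : z ^ p ^ m = 1 := congrArg Subtype.val hm
    have hcomm : Commute z d :=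
      (hcent d (hDC hd) z (Subgroup.mem_inf.mp hz).1 : z * d = d * z)
    refine ⟨k + m, ?_⟩
    rw [pow_add, pow_mul, ← hzd, hcomm.mul_pow, hm', one_mul]
    exact hDO (D.pow_mem hd _)
  constructor
  · rintro ⟨_, hidx⟩
    have hmaxB : ∀ T : Subgroup X, IsPGroup p ↥T → T ≤ C → H ⊓ C ≤ T → T ≤ H := by
      intro T hTp hTC _
      have h1 : H ⊔ T ≤ H := s3076_le_of_pgroup H (H ⊔ T) N le_sup_left
        (sup_le hHN (hTC.trans hCN)) (IsPGroup.to_sup_of_normal_left hHp hTp) hidx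
      exact le_sup_right.trans h1
    have hNK := hkey hmaxB
    have hKeq : Cfsg.pPrimePCore p X = N := le_antisymm hKN hNK
    refine ⟨hmaxB (P ⊓ C) (hPp.to_le inf_le_left) inf_le_right (inf_le_inf_right C hHP), ?_⟩
    rw [hKeq]
    apply le_antisymm _ (sup_le hHN hCN)
    rw [← Subgroup.relIndex_eq_one]
    have h1 : (H ⊔ C).relIndex N ∣ H.relIndex N := Subgroup.relIndex_dvd_of_le_left N le_sup_left
    have h2 : (H ⊔ C).relIndex N ∣ C.relIndex N := Subgroup.relIndex_dvd_of_le_left N le_sup_right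
    rw [ha] at h2
    obtain ⟨j, _, hj⟩ := (Nat.dvd_prime_pow hp).mp h2
    rcases Nat.eq_zero_or_pos j with hj0 | hjpos
    · rw [hj, hj0, pow_zero]
    · exfalso
      apply hidx
      exact (hj ▸ dvd_pow_self p hjpos.ne').trans h1
  · rintro ⟨hPC, hK⟩
    have hPCeq : P ⊓ C = H ⊓ C :=
      le_antisymm (le_inf hPC inf_le_right) (inf_le_inf_right C hHP)
    have hidxC : ¬ p ∣ (P ⊓ C).relIndex C := by
      rw [Subgroup.inf_relIndex_right]
      intro h
      exact hPidx (h.trans (zj_relIndex_normal_dvd_index P C))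
    have hmaxB : ∀ T : Subgroup X, IsPGroup p ↥T → T ≤ C → H ⊓ C ≤ T → T ≤ H := by
      intro T hTp hTC hZT
      have h1 : T ≤ P ⊓ C := s3076_le_of_pgroup (P ⊓ C) T C (hPCeq.le.trans hZT) hTC hTp hidxC
      exact h1.trans hPC
    have hNK := hkey hmaxB
    have hNeq : N = H ⊔ C := by rw [← hK]; exact le_antisymm hNK hKN
    refine ⟨hHN, ?_⟩
    rw [hNeq, Subgroup.relIndex_sup_left, ← Subgroup.inf_relIndex_right, ← hPCeq]
    exact hidxC

theorem s3076_final {G : Type u} [Group G] [Finite G] {p : ℕ} [Fact p.Prime]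
    (P : Sylow p G) (H : Subgroup G) (hHP : H ≤ (P : Subgroup G))
    (hSyl : ¬ p ∣ ((P : Subgroup G) ⊓ Subgroup.normalizer (H : Set G)).relIndex
      (Subgroup.normalizer (H : Set G)))
    [hC : ((Subgroup.centralizer (H : Set G)).subgroupOf
      (Subgroup.normalizer (H : Set G))).Normal] :
    (H ≤ ((Cfsg.pCore p (↥(Subgroup.normalizer (H : Set G)) ⧸
              (Subgroup.centralizer (H : Set G)).subgroupOf (Subgroup.normalizer (H : Set G)))).comap
            (QuotientGroup.mk' _)).map (Subgroup.normalizer (H : Set G)).subtype ∧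
      ¬ p ∣ H.relIndex (((Cfsg.pCore p (↥(Subgroup.normalizer (H : Set G)) ⧸
              (Subgroup.centralizer (H : Set G)).subgroupOf (Subgroup.normalizer (H : Set G)))).comap
            (QuotientGroup.mk' _)).map (Subgroup.normalizer (H : Set G)).subtype)) ↔
    ((P : Subgroup G) ⊓ Subgroup.centralizer (H : Set G) ≤ H ∧
      (Cfsg.pPrimePCore p ↥(Subgroup.normalizer (H : Set G))).map
          (Subgroup.normalizer (H : Set G)).subtype =
        H ⊔ Subgroup.centralizer (H : Set G)) := by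
  have hHM : H ≤ Subgroup.normalizer (H : Set G) := Subgroup.le_normalizer
  have hCM : Subgroup.centralizer (H : Set G) ≤ Subgroup.normalizer (H : Set G) :=
    Subgroup.centralizer_le_normalizer _
  haveI hH'n : (H.subgroupOf (Subgroup.normalizer (H : Set G))).Normal :=
    Subgroup.normal_in_normalizer
  have hH'p : IsPGroup p ↥(H.subgroupOf (Subgroup.normalizer (H : Set G))) :=
    IsPGroup.comap_subtype (P.isPGroup'.to_le hHP)
  have hP'p : IsPGroup p ↥((P : Subgroup G).subgroupOf (Subgroup.normalizer (H : Set G))) :=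
    IsPGroup.comap_subtype P.isPGroup'
  have hP'idx : ¬ p ∣ ((P : Subgroup G).subgroupOf (Subgroup.normalizer (H : Set G))).index := by
    rw [Subgroup.inf_relIndex_right] at hSyl
    exact hSyl
  have hmain := s3076_main (H.subgroupOf (Subgroup.normalizer (H : Set G)))
    ((Subgroup.centralizer (H : Set G)).subgroupOf (Subgroup.normalizer (H : Set G)))
    ((P : Subgroup G).subgroupOf (Subgroup.normalizer (H : Set G))) hH'p
    (by
      intro c hc h hh
      rw [Subgroup.mem_subgroupOf] at hc hh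
      exact Subtype.ext (Subgroup.mem_centralizer_iff.mp hc h.1 hh))
    (by
      intro x hx
      rw [Subgroup.mem_subgroupOf, Subgroup.mem_centralizer_iff]
      intro h hh
      exact congrArg Subtype.val (hx ⟨h, hHM hh⟩ (Subgroup.mem_subgroupOf.mpr hh)))
    hP'p hP'idx
    (by
      intro x hx
      rw [Subgroup.mem_subgroupOf] at hx ⊢
      exact hHP hx)
  have e1 : (H.subgroupOf (Subgroup.normalizer (H : Set G))).map
      (Subgroup.normalizer (H : Set G)).subtype = H := Subgroup.map_subgroupOf_eq_of_le hHM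
  have e2 : ((Subgroup.centralizer (H : Set G)).subgroupOf
      (Subgroup.normalizer (H : Set G))).map (Subgroup.normalizer (H : Set G)).subtype
        = Subgroup.centralizer (H : Set G) := Subgroup.map_subgroupOf_eq_of_le hCM
  have hinj := (Subgroup.normalizer (H : Set G)).subtype_injective
  obtain ⟨N', hN'⟩ : ∃ N' : Subgroup ↥(Subgroup.normalizer (H : Set G)),
      N' = (Cfsg.pCore p (↥(Subgroup.normalizer (H : Set G)) ⧸
        (Subgroup.centralizer (H : Set G)).subgroupOf (Subgroup.normalizer (H : Set G)))).comap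
          (QuotientGroup.mk' _) := ⟨_, rfl⟩
  rw [← hN'] at hmain ⊢
  have t1 : H ≤ N'.map (Subgroup.normalizer (H : Set G)).subtype ↔
      H.subgroupOf (Subgroup.normalizer (H : Set G)) ≤ N' := by
    rw [← Subgroup.map_le_map_iff_of_injective hinj, e1]
  have t2 : H.relIndex (N'.map (Subgroup.normalizer (H : Set G)).subtype) =
      (H.subgroupOf (Subgroup.normalizer (H : Set G))).relIndex N' := by
    rw [← Subgroup.relIndex_map_map_of_injective _ N' hinj, e1]
  have t3 : (P : Subgroup G) ⊓ Subgroup.centralizer (H : Set G) ≤ H ↔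
      (P : Subgroup G).subgroupOf (Subgroup.normalizer (H : Set G)) ⊓
        (Subgroup.centralizer (H : Set G)).subgroupOf (Subgroup.normalizer (H : Set G))
        ≤ H.subgroupOf (Subgroup.normalizer (H : Set G)) := by
    constructor
    · intro h x hx
      rw [Subgroup.mem_subgroupOf]
      obtain ⟨hx1, hx2⟩ := Subgroup.mem_inf.mp hx
      rw [Subgroup.mem_subgroupOf] at hx1 hx2
      exact h (Subgroup.mem_inf.mpr ⟨hx1, hx2⟩)
    · intro h x hx
      obtain ⟨hx1, hx2⟩ := Subgroup.mem_inf.mp hx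
      have h1 := h (Subgroup.mem_inf.mpr
        ⟨(Subgroup.mem_subgroupOf.mpr hx1 : (⟨x, hCM hx2⟩ :
            ↥(Subgroup.normalizer (H : Set G))) ∈ _),
          (Subgroup.mem_subgroupOf.mpr hx2 : (⟨x, hCM hx2⟩ :
            ↥(Subgroup.normalizer (H : Set G))) ∈ _)⟩)
      rw [Subgroup.mem_subgroupOf] at h1
      exact h1
  have t4 : (Cfsg.pPrimePCore p ↥(Subgroup.normalizer (H : Set G))).map
        (Subgroup.normalizer (H : Set G)).subtype = H ⊔ Subgroup.centralizer (H : Set G) ↔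
      Cfsg.pPrimePCore p ↥(Subgroup.normalizer (H : Set G)) =
        H.subgroupOf (Subgroup.normalizer (H : Set G)) ⊔
          (Subgroup.centralizer (H : Set G)).subgroupOf (Subgroup.normalizer (H : Set G)) := by
    constructor
    · intro h
      apply Subgroup.map_injective hinj
      rw [h, Subgroup.map_sup, e1, e2]
    · intro h
      rw [h, Subgroup.map_sup, e1, e2]
  rw [t1, t2, t3, t4]
  exact hmain

end Cfsg.Agent.Lib.Helper3
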