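import Mathlib

set_option maxHeartbeats 1000000

namespace Cfsg.Agent.Lib.Helper3

/-- Averaging a cocycle: if `α` fixes `T` pointwise, `α x * x⁻¹` always lies in an abelian normal
subgroup `Z` whose order is prime to the index of `T`, then `α` is inner. -/
theorem inner_of_cocycle {G : Type*} [Group G] [Finite G] (Z T : Subgroup G) [Z.Normal]
    (hZcomm : ∀ a ∈ Z, ∀ b ∈ Z, a * b = b * a) (hcop : (Nat.card Z).Coprime T.index)
    (α : MulAut G) (hfixT : ∀ x ∈ T, α x = x) (hZ : ∀ x : G, α x * x⁻¹ ∈ Z) :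
    ∃ g : G, ∀ x : G, α x = g * x * g⁻¹ := by
  classical
  have := Fintype.ofFinite (G ⧸ T)
  let _ : CommGroup ↥Z :=
    { (inferInstance : Group ↥Z) with
      mul_comm := fun a b => Subtype.ext (hZcomm a a.2 b b.2) }
  let f : G → ↥Z := fun g => ⟨α g * g⁻¹, hZ g⟩
  have hfT : ∀ g t : G, t ∈ T → f (g * t) = f g := by
    intro g t ht
    apply Subtype.ext
    show α (g * t) * (g * t)⁻¹ = α g * g⁻¹
    rw [map_mul, hfixT t ht]; group
  have hfmul : ∀ x g : G, MulAut.conjNormal x (f g) = (f x)⁻¹ * f (x * g) := by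
    intro x g
    apply Subtype.ext
    rw [MulAut.conjNormal_apply]
    show x * (α g * g⁻¹) * x⁻¹ = (α x * x⁻¹)⁻¹ * (α (x * g) * (x * g)⁻¹)
    rw [map_mul]; group
  obtain ⟨u, hu⟩ : ∃ u : ↥Z, u = ∏ q : G ⧸ T, f q.out := ⟨_, rfl⟩
  obtain ⟨m, hm⟩ : ∃ m : ℕ, m = Fintype.card (G ⧸ T) := ⟨_, rfl⟩
  have hconj : ∀ x : G, MulAut.conjNormal x u = ((f x)⁻¹) ^ m * u := by
    intro x
    rw [hu, map_prod]
    have h1 : ∀ q : G ⧸ T, MulAut.conjNormal x (f q.out) = (f x)⁻¹ * f ((x • q).out) := by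
      intro q
      rw [hfmul]
      congr 1
      have h2 : (x * q.out)⁻¹ * (x • q).out ∈ T := by
        rw [← QuotientGroup.eq, QuotientGroup.out_eq']
        conv_rhs => rw [← QuotientGroup.out_eq' q]
        rfl
      have h3 := hfT (x * q.out) _ h2
      rw [← h3]
      congr 1
      group
    rw [Finset.prod_congr rfl (fun q _ => h1 q), Finset.prod_mul_distrib, Finset.prod_const,
      Finset.card_univ, ← hm]
    congr 1
    exact Equiv.prod_comp (MulAction.toPerm x) (fun q : G ⧸ T => f q.out)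
  have hmidx : m = T.index := by rw [hm, Subgroup.index_eq_card, Nat.card_eq_fintype_card]
  obtain ⟨n, hn⟩ : ∃ n : ℕ, ∀ z : ↥Z, z ^ (m * n) = z := by
    rcases Nat.lt_or_ge 1 (Nat.card Z) with h1 | h1
    · have hc : Nat.Coprime m (Nat.card Z) := by rw [hmidx]; exact hcop.symm
      obtain ⟨n, -, hn⟩ := Nat.exists_mul_mod_eq_one_of_coprime hc h1
      refine ⟨n, fun z => ?_⟩
      rw [← pow_mod_natCard, hn, pow_one]
    · refine ⟨0, fun z => ?_⟩
      have h2 : Nat.card Z = 1 := le_antisymm h1 Nat.card_pos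
      have hsub : Subsingleton ↥Z := (Nat.card_eq_one_iff_unique.mp h2).1
      rw [mul_zero, pow_zero]; exact Subsingleton.elim _ _
  refine ⟨((u ^ n : ↥Z) : G), fun x => ?_⟩
  have h1 : MulAut.conjNormal x (u ^ n) = (f x)⁻¹ * u ^ n := by
    rw [map_pow, hconj, mul_pow, ← pow_mul, hn]
  have h2 := congrArg (fun z : ↥Z => (z : G)) h1
  simp only [MulAut.conjNormal_apply, Subgroup.coe_mul, Subgroup.coe_inv] at h2
  obtain ⟨v, hv⟩ : ∃ v : G, v = ((u ^ n : ↥Z) : G) := ⟨_, rfl⟩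
  rw [← hv] at h2 ⊢
  have h3 : x * v * x⁻¹ = (α x * x⁻¹)⁻¹ * v := h2
  symm
  calc v * x * v⁻¹ = ((α x * x⁻¹) * ((α x * x⁻¹)⁻¹ * v)) * x * v⁻¹ := by group
    _ = ((α x * x⁻¹) * (x * v * x⁻¹)) * x * v⁻¹ := by rw [h3]
    _ = α x := by group

end Cfsg.Agent.Lib.Helper3
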