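import Mathlib
import Cfsg.Agent.Lib.Helper2.PConstrInv
import Cfsg.Agent.Lib.Helper2.PSolvConstr
import Cfsg.Agent.Lib.Helper2.PLocal
import Cfsg.Agent.Lib.Helper5.CoprimeAB
import Cfsg.Agent.Lib.Helper3.PPrimeCore

/-! Local subgroups of `p`-constrained groups are `p`-constrained. -/

set_option autoImplicit false

universe u

namespace Cfsg.Agent.Lib.Helper3

open Cfsg

/-- If `O_p(X / O_{p'}(X))` contains its centralizer, then `X` is `p`-constrained. -/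
theorem isPConstrained_of_centralizer_pCore_le {X : Type u} [Group X] [Finite X] (p : ℕ)
    [Fact p.Prime]
    (hcent : Subgroup.centralizer
        ((Cfsg.pCore p (X ⧸ Cfsg.pPrimeCore p X) : Subgroup _) : Set _) ≤
        Cfsg.pCore p (X ⧸ Cfsg.pPrimeCore p X)) : Cfsg.IsPConstrained p X := by
  intro P' c hc
  have hPimg := Cfsg.Agent.Lib.Helper2.sylow_pPrimePCore_map p P'
  show QuotientGroup.mk' (Cfsg.pPrimeCore p X) c ∈ Cfsg.pCore p (X ⧸ Cfsg.pPrimeCore p X)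
  apply hcent
  rw [Subgroup.mem_centralizer_iff]
  intro y hy
  rw [← hPimg] at hy
  obtain ⟨x, hx, rfl⟩ := hy
  rw [Subgroup.mem_centralizer_iff] at hc
  rw [← map_mul, ← map_mul, hc x hx]

theorem eq_one_of_isPGroup_of_coprime_order {X : Type*} [Group X] {p : ℕ} (Q : Subgroup X)
    (hQ : IsPGroup p ↥Q) (x : X) (hx : x ∈ Q) (hc : (orderOf x).Coprime p) : x = 1 := by
  obtain ⟨k, hk⟩ := hQ ⟨x, hx⟩
  have hk' : x ^ p ^ k = 1 := congrArg Subtype.val hk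
  have h1 : orderOf x ∣ p ^ k := orderOf_dvd_of_pow_eq_one hk'
  have h2 : orderOf x = 1 := (Nat.Coprime.pow_right k hc).eq_one_of_dvd h1
  exact orderOf_eq_one_iff.mp h2

/-- Centralizers of `p`-subgroups modulo a normal `p'`-subgroup are images of centralizers. -/
theorem exists_centralizer_lift {G : Type*} [Group G] [Finite G] (p : ℕ) [Fact p.Prime]
    (K : Subgroup G) [K.Normal] (hK : (Nat.card ↥K).Coprime p) (P : Subgroup G)
    (hP : IsPGroup p ↥P) (c : G)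
    (hc : ∀ x ∈ P, QuotientGroup.mk' K x * QuotientGroup.mk' K c =
      QuotientGroup.mk' K c * QuotientGroup.mk' K x) :
    ∃ c' ∈ Subgroup.centralizer (P : Set G), QuotientGroup.mk' K c' = QuotientGroup.mk' K c := by
  have hcN : QuotientGroup.mk' K c ∈ Subgroup.normalizer
      ((P.map (QuotientGroup.mk' K) : Subgroup (G ⧸ K)) : Set (G ⧸ K)) := by
    apply Subgroup.centralizer_le_normalizer
    rw [Subgroup.mem_centralizer_iff]
    rintro _ ⟨x, hx, rfl⟩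
    exact hc x hx
  obtain ⟨n, hn, hy⟩ := Cfsg.Agent.Lib.Helper2.exists_mem_normalizer_of_quotient p K hK P hP c hcN
  have hn1 : QuotientGroup.mk' K n = 1 := (QuotientGroup.eq_one_iff n).mpr hn
  have hyc : QuotientGroup.mk' K (n⁻¹ * c) = QuotientGroup.mk' K c := by
    rw [map_mul, map_inv, hn1, inv_one, one_mul]
  refine ⟨n⁻¹ * c, ?_, hyc⟩
  rw [Subgroup.mem_centralizer_iff]
  intro x hx
  have hconj : (n⁻¹ * c) * x * (n⁻¹ * c)⁻¹ ∈ P := (Subgroup.mem_normalizer_iff.mp hy x).mp hx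
  have hmem : (n⁻¹ * c) * x * (n⁻¹ * c)⁻¹ * x⁻¹ ∈ P :=
    Subgroup.mul_mem _ hconj (Subgroup.inv_mem _ hx)
  have hO : (n⁻¹ * c) * x * (n⁻¹ * c)⁻¹ * x⁻¹ ∈ K := by
    rw [← QuotientGroup.ker_mk' K, MonoidHom.mem_ker]
    rw [map_mul, map_mul, map_mul, map_inv, map_inv, hyc, ← hc x hx]
    group
  obtain ⟨k, hk⟩ := hP ⟨_, hmem⟩
  have hk' : ((n⁻¹ * c) * x * (n⁻¹ * c)⁻¹ * x⁻¹) ^ (p ^ k) = 1 := congrArg Subtype.val hk
  have h1 := Cfsg.Agent.Lib.Helper2.eq_one_of_mem_of_pow_prime_pow p _ hK _ hO k hk'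
  calc x * (n⁻¹ * c) = ((n⁻¹ * c) * x * (n⁻¹ * c)⁻¹ * x⁻¹)⁻¹ * ((n⁻¹ * c) * x) := by group
    _ = (n⁻¹ * c) * x := by rw [h1, inv_one, one_mul]

/-- A normal subgroup that is a `p`-group modulo `N` maps into `O_p(X / N)`. -/
theorem mk_mem_pCore_of_normal_pow {X : Type*} [Group X] {p : ℕ} (N : Subgroup X) [N.Normal]
    (M : Subgroup X) (hM : M.Normal) (hpow : ∀ x ∈ M, ∃ k : ℕ, x ^ p ^ k ∈ N) (x : X)
    (hx : x ∈ M) : QuotientGroup.mk' N x ∈ Cfsg.pCore p (X ⧸ N) := by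
  have h1 : (M.map (QuotientGroup.mk' N)).Normal := hM.map _ (QuotientGroup.mk'_surjective N)
  have h2 : IsPGroup p ↥(M.map (QuotientGroup.mk' N)) := by
    rintro ⟨_, y, hy, rfl⟩
    obtain ⟨k, hk⟩ := hpow y hy
    refine ⟨k, Subtype.ext ?_⟩
    show (QuotientGroup.mk' N y) ^ p ^ k = 1
    have h3 : QuotientGroup.mk' N (y ^ p ^ k) = 1 := (QuotientGroup.eq_one_iff _).mpr hk
    rw [← map_pow]; exact h3
  exact (le_sSup (show M.map (QuotientGroup.mk' N) ∈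
    {N' : Subgroup (X ⧸ N) | N'.Normal ∧ IsPGroup p ↥N'} from ⟨h1, h2⟩)) ⟨x, hx, rfl⟩

/-- In a `p`-constrained group, a subgroup `H` between `C_G(P)` and `N_G(P)` (`P` a `p`-subgroup)
that contains `P` or centralizes `P` is `p`-constrained. -/
theorem isPConstrained_local {G : Type u} [Group G] [Finite G] {p : ℕ} [Fact p.Prime]
    (hG : Cfsg.IsPConstrained p G) (P H : Subgroup G) (hP : IsPGroup p ↥P)
    (hCH : Subgroup.centralizer (P : Set G) ≤ H) (hHN : H ≤ Subgroup.normalizer (P : Set G))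
    (hor : P ≤ H ∨ H ≤ Subgroup.centralizer (P : Set G)) : Cfsg.IsPConstrained p ↥H := by
  have hp : p.Prime := Fact.out
  apply isPConstrained_of_centralizer_pCore_le
  have hKn : (Cfsg.pPrimeCore p G).Normal := pPrimeCore_normal p G
  have hKc : (Nat.card ↥(Cfsg.pPrimeCore p G)).Coprime p := pPrimeCore_coprime hp G
  have hQ := Cfsg.Agent.Lib.Helper2.pConstrained_centralizer_pCore_le p hG
  have hQp : IsPGroup p ↥(Cfsg.pCore p (G ⧸ Cfsg.pPrimeCore p G)) :=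
    Cfsg.Agent.Lib.Helper2.pCore_isPGroup' p _
  have hQn : (Cfsg.pCore p (G ⧸ Cfsg.pPrimeCore p G)).Normal := Cfsg.pCore_normal p _
  have hKHn : (Cfsg.pPrimeCore p ↥H).Normal := pPrimeCore_normal p ↥H
  have hKHc : (Nat.card ↥(Cfsg.pPrimeCore p ↥H)).Coprime p := pPrimeCore_coprime hp ↥H
  obtain ⟨φ, hφ⟩ : ∃ φ : ↥H →* G ⧸ Cfsg.pPrimeCore p G,
      φ = (QuotientGroup.mk' (Cfsg.pPrimeCore p G)).comp H.subtype := ⟨_, rfl⟩
  have hφv : ∀ h : ↥H, φ h = QuotientGroup.mk' (Cfsg.pPrimeCore p G) (h : G) := fun h => by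
    rw [hφ]; rfl
  -- the kernel of `φ` lies in `O_{p'}(H)`
  have hker : ∀ h : ↥H, φ h = 1 → h ∈ Cfsg.pPrimeCore p ↥H := by
    intro h hh
    rw [hφv] at hh
    have h1 : (h : G) ∈ Cfsg.pPrimeCore p G := (QuotientGroup.eq_one_iff _).mp hh
    have h2 : ((Cfsg.pPrimeCore p G).subgroupOf H).Normal := inferInstance
    have h3 : (Nat.card ↥((Cfsg.pPrimeCore p G).subgroupOf H)).Coprime p := by
      rw [← Subgroup.card_map_of_injective H.subtype_injective, Subgroup.subgroupOf_map_subtype]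
      exact Nat.Coprime.coprime_dvd_left (Subgroup.card_dvd_of_le inf_le_left) hKc
    exact le_pPrimeCore h2 h3 (Subgroup.mem_subgroupOf.mpr h1)
  have hord : ∀ w ∈ Cfsg.pPrimeCore p ↥H, (orderOf (φ w)).Coprime p := by
    intro w hw
    have h2 : orderOf (φ w) ∣ orderOf w := orderOf_map_dvd φ w
    have h3 : orderOf w ∣ Nat.card ↥(Cfsg.pPrimeCore p ↥H) := by
      have := orderOf_dvd_natCard (⟨w, hw⟩ : ↥(Cfsg.pPrimeCore p ↥H))
      rwa [Subgroup.orderOf_mk] at this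
    exact Nat.Coprime.coprime_dvd_left (h2.trans h3) hKHc
  -- `O_{p'}(H)` centralizes `P`
  have hKHP : ∀ x ∈ Cfsg.pPrimeCore p ↥H, ∀ a ∈ P, (x : G) * a = a * (x : G) := by
    intro x hx a ha
    rcases hor with hPH | hHC
    · have h1 : (⟨a, hPH ha⟩ : ↥H) * x⁻¹ * (⟨a, hPH ha⟩ : ↥H)⁻¹ ∈ Cfsg.pPrimeCore p ↥H :=
        hKHn.conj_mem _ (inv_mem hx) _
      have h2 : x * ((⟨a, hPH ha⟩ : ↥H) * x⁻¹ * (⟨a, hPH ha⟩ : ↥H)⁻¹) ∈ Cfsg.pPrimeCore p ↥H :=
        mul_mem hx h1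
      have h3 : (x : G) * a * (x : G)⁻¹ ∈ P := (Subgroup.mem_normalizer_iff.mp (hHN x.2) a).mp ha
      have h4 : (x : G) * a * (x : G)⁻¹ * a⁻¹ ∈ P := mul_mem h3 (inv_mem ha)
      obtain ⟨k, hk⟩ := hP ⟨_, h4⟩
      have hk' : ((x : G) * a * (x : G)⁻¹ * a⁻¹) ^ p ^ k = 1 := congrArg Subtype.val hk
      have hval : ((x * ((⟨a, hPH ha⟩ : ↥H) * x⁻¹ * (⟨a, hPH ha⟩ : ↥H)⁻¹) : ↥H) : G) =
          (x : G) * a * (x : G)⁻¹ * a⁻¹ := by
        show (x : G) * (a * (x : G)⁻¹ * a⁻¹) = _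
        group
      have hk'' : (x * ((⟨a, hPH ha⟩ : ↥H) * x⁻¹ * (⟨a, hPH ha⟩ : ↥H)⁻¹)) ^ p ^ k = 1 := by
        apply Subtype.ext
        rw [Subgroup.coe_pow, hval]; exact hk'
      have h5 := Cfsg.Agent.Lib.Helper2.eq_one_of_mem_of_pow_prime_pow p _ hKHc _ h2 k hk''
      have h6 : (x : G) * a * (x : G)⁻¹ * a⁻¹ = 1 := by
        rw [← hval]; exact congrArg Subtype.val h5
      calc (x : G) * a = ((x : G) * a * (x : G)⁻¹ * a⁻¹) * (a * (x : G)) := by group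
        _ = a * (x : G) := by rw [h6, one_mul]
    · exact (Subgroup.mem_centralizer_iff.mp (hHC x.2) a ha).symm
  have hlift : ∀ e ∈ Cfsg.pCore p (G ⧸ Cfsg.pPrimeCore p G),
      (∀ b ∈ P.map (QuotientGroup.mk' (Cfsg.pPrimeCore p G)), b * e = e * b) →
      ∃ h : ↥H, φ h = e := by
    intro e he hb
    obtain ⟨c, rfl⟩ := QuotientGroup.mk'_surjective _ e
    obtain ⟨c', hc', hcc⟩ := exists_centralizer_lift p (Cfsg.pPrimeCore p G) hKc P hP c
      (fun x hx => hb _ ⟨x, hx, rfl⟩)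
    exact ⟨⟨c', hCH hc'⟩, by rw [hφv]; exact hcc⟩
  -- the `A × B` lemma
  have hAB : ∀ z : ↥H, (orderOf (φ z)).Coprime p →
      (∀ a ∈ P, φ z * QuotientGroup.mk' (Cfsg.pPrimeCore p G) a =
        QuotientGroup.mk' (Cfsg.pPrimeCore p G) a * φ z) →
      (∀ h : ↥H, φ h ∈ Cfsg.pCore p (G ⧸ Cfsg.pPrimeCore p G) → φ z * φ h * (φ z)⁻¹ = φ h) →
      φ z = 1 := by
    intro z hz hza hzh
    have h1 := Cfsg.Agent.Lib.Helper5.thompson_AB5 (Cfsg.pCore p (G ⧸ Cfsg.pPrimeCore p G))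
      (P.map (QuotientGroup.mk' (Cfsg.pPrimeCore p G))) hQp (hP.map _)
      (by rw [Subgroup.normalizer_eq_top (Cfsg.pCore p (G ⧸ Cfsg.pPrimeCore p G))]; exact le_top)
      (φ z)
      (by
        rw [Subgroup.normalizer_eq_top (Cfsg.pCore p (G ⧸ Cfsg.pPrimeCore p G))]
        exact Subgroup.mem_top _)
      (by rintro _ ⟨a, ha, rfl⟩; exact hza a ha) hz
      (by
        intro e he hb
        obtain ⟨h, rfl⟩ := hlift e he hb
        exact hzh h he)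
    have h2 : φ z ∈ Subgroup.centralizer
        ((Cfsg.pCore p (G ⧸ Cfsg.pPrimeCore p G) : Subgroup _) : Set _) := by
      rw [Subgroup.mem_centralizer_iff]
      intro e he
      have h3 := h1 e he
      calc e * φ z = (φ z * e * (φ z)⁻¹) * φ z := by rw [h3]
        _ = φ z * e := by group
    exact eq_one_of_isPGroup_of_coprime_order _ hQp _ (hQ h2) hz
  -- `O_{p'}(H) ≤ O_{p'}(G)`
  have hKHφ : ∀ x ∈ Cfsg.pPrimeCore p ↥H, φ x = 1 := by
    intro x hx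
    apply hAB x (hord x hx)
    · intro a ha
      rw [hφv, ← map_mul, ← map_mul, hKHP x hx a ha]
    · intro h hh
      have h1 : x * h * x⁻¹ * h⁻¹ ∈ Cfsg.pPrimeCore p ↥H := by
        have h0 : x * h * x⁻¹ * h⁻¹ = x * (h * x⁻¹ * h⁻¹) := by group
        rw [h0]; exact mul_mem hx (hKHn.conj_mem _ (inv_mem hx) _)
      have h2 : φ (x * h * x⁻¹ * h⁻¹) ∈ Cfsg.pCore p (G ⧸ Cfsg.pPrimeCore p G) := by
        rw [map_mul, map_mul, map_mul, map_inv, map_inv]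
        exact mul_mem (hQn.conj_mem _ hh _) (inv_mem hh)
      have h3 := eq_one_of_isPGroup_of_coprime_order _ hQp _ h2 (hord _ h1)
      rw [map_mul, map_mul, map_mul, map_inv, map_inv] at h3
      exact mul_inv_eq_one.mp h3
  -- elements of `H` mapping into `O_p(G / O_{p'}(G))` map into `O_p(H / O_{p'}(H))`
  have hMH : ∀ h : ↥H, φ h ∈ Cfsg.pCore p (G ⧸ Cfsg.pPrimeCore p G) →
      QuotientGroup.mk' (Cfsg.pPrimeCore p ↥H) h ∈ Cfsg.pCore p (↥H ⧸ Cfsg.pPrimeCore p ↥H) := by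
    intro h hh
    refine mk_mem_pCore_of_normal_pow (Cfsg.pPrimeCore p ↥H)
      ((Cfsg.pCore p (G ⧸ Cfsg.pPrimeCore p G)).comap φ) (hQn.comap φ) ?_ h hh
    intro x hx
    obtain ⟨k, hk⟩ := hQp ⟨φ x, hx⟩
    have hk' : (φ x) ^ p ^ k = 1 := congrArg Subtype.val hk
    exact ⟨k, hker _ (by rw [map_pow]; exact hk')⟩
  have hYn : (Subgroup.centralizer
      ((Cfsg.pCore p (↥H ⧸ Cfsg.pPrimeCore p ↥H) : Subgroup (↥H ⧸ Cfsg.pPrimeCore p ↥H)) :
        Set (↥H ⧸ Cfsg.pPrimeCore p ↥H))).Normal :=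
    Subgroup.normal_centralizer (H := Cfsg.pCore p (↥H ⧸ Cfsg.pPrimeCore p ↥H))
  have hYp : IsPGroup p ↥(Subgroup.centralizer
      ((Cfsg.pCore p (↥H ⧸ Cfsg.pPrimeCore p ↥H) : Subgroup (↥H ⧸ Cfsg.pPrimeCore p ↥H)) :
        Set (↥H ⧸ Cfsg.pPrimeCore p ↥H))) := by
    rintro ⟨yb, hyb⟩
    obtain ⟨k, m, hm, hkm⟩ : ∃ k m, ¬ p ∣ m ∧ orderOf yb = p ^ k * m :=
      Nat.exists_eq_pow_mul_and_not_dvd (orderOf_pos yb).ne' p hp.ne_one
    refine ⟨k, Subtype.ext ?_⟩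
    show yb ^ p ^ k = 1
    obtain ⟨y, rfl⟩ := QuotientGroup.mk'_surjective _ yb
    have hzm : (y ^ p ^ k) ^ m ∈ Cfsg.pPrimeCore p ↥H := by
      rw [← pow_mul, ← hkm]
      apply (QuotientGroup.eq_one_iff _).mp
      have h0 : (QuotientGroup.mk' (Cfsg.pPrimeCore p ↥H) y) ^
          orderOf (QuotientGroup.mk' (Cfsg.pPrimeCore p ↥H) y) = 1 := pow_orderOf_eq_one _
      rw [← map_pow] at h0
      exact h0
    have hzc : QuotientGroup.mk' (Cfsg.pPrimeCore p ↥H) (y ^ p ^ k) ∈ Subgroup.centralizer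
        ((Cfsg.pCore p (↥H ⧸ Cfsg.pPrimeCore p ↥H) : Subgroup (↥H ⧸ Cfsg.pPrimeCore p ↥H)) :
        Set (↥H ⧸ Cfsg.pPrimeCore p ↥H)) := by
      rw [map_pow]; exact pow_mem hyb _
    have hcomm : ∀ h : ↥H, QuotientGroup.mk' (Cfsg.pPrimeCore p ↥H) h ∈
        Cfsg.pCore p (↥H ⧸ Cfsg.pPrimeCore p ↥H) →
        φ (y ^ p ^ k) * φ h * (φ (y ^ p ^ k))⁻¹ = φ h := by
      intro h hh
      have h1 := Subgroup.mem_centralizer_iff.mp hzc _ hh
      have h2 : (y ^ p ^ k) * h * (y ^ p ^ k)⁻¹ * h⁻¹ ∈ Cfsg.pPrimeCore p ↥H := by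
        apply (QuotientGroup.eq_one_iff _).mp
        have h0 : QuotientGroup.mk' (Cfsg.pPrimeCore p ↥H)
            ((y ^ p ^ k) * h * (y ^ p ^ k)⁻¹ * h⁻¹) = 1 := by
          rw [map_mul, map_mul, map_mul, map_inv, map_inv, ← h1]; group
        exact h0
      have h3 := hKHφ _ h2
      rw [map_mul, map_mul, map_mul, map_inv, map_inv] at h3
      exact mul_inv_eq_one.mp h3
    have hz1 : φ (y ^ p ^ k) = 1 := by
      apply hAB
      · have h0 : (φ (y ^ p ^ k)) ^ m = 1 := by rw [← map_pow]; exact hKHφ _ hzm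
        exact Nat.Coprime.coprime_dvd_left (orderOf_dvd_of_pow_eq_one h0)
          ((Nat.Prime.coprime_iff_not_dvd hp).mpr hm).symm
      · intro a ha
        rcases hor with hPH | hHC
        · have h1 : QuotientGroup.mk' (Cfsg.pPrimeCore p ↥H) ⟨a, hPH ha⟩ ∈
              Cfsg.pCore p (↥H ⧸ Cfsg.pPrimeCore p ↥H) := by
            refine mk_mem_pCore_of_normal_pow (Cfsg.pPrimeCore p ↥H) (P.subgroupOf H)
              ((Subgroup.normal_subgroupOf_iff_le_normalizer hPH).mpr hHN) ?_ _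
              (Subgroup.mem_subgroupOf.mpr ha)
            intro x hx
            obtain ⟨k', hk'⟩ := hP ⟨(x : G), Subgroup.mem_subgroupOf.mp hx⟩
            have hk'' : (x : G) ^ p ^ k' = 1 := congrArg Subtype.val hk'
            refine ⟨k', ?_⟩
            have h0 : x ^ p ^ k' = 1 := by
              apply Subtype.ext
              rw [Subgroup.coe_pow]; exact hk''
            rw [h0]; exact one_mem _
          have h2 := hcomm ⟨a, hPH ha⟩ h1
          have h3 : φ ⟨a, hPH ha⟩ = QuotientGroup.mk' (Cfsg.pPrimeCore p G) a := hφv _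
          rw [h3] at h2
          calc φ (y ^ p ^ k) * QuotientGroup.mk' (Cfsg.pPrimeCore p G) a
              = (φ (y ^ p ^ k) * QuotientGroup.mk' (Cfsg.pPrimeCore p G) a *
                  (φ (y ^ p ^ k))⁻¹) * φ (y ^ p ^ k) := by group
            _ = QuotientGroup.mk' (Cfsg.pPrimeCore p G) a * φ (y ^ p ^ k) := by rw [h2]
        · rw [hφv, ← map_mul, ← map_mul]
          congr 1
          exact (Subgroup.mem_centralizer_iff.mp (hHC (y ^ p ^ k).2) a ha).symm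
      · intro h hh
        exact hcomm h (hMH h hh)
    have h4 : QuotientGroup.mk' (Cfsg.pPrimeCore p ↥H) (y ^ p ^ k) = 1 :=
      (QuotientGroup.eq_one_iff _).mpr (hker _ hz1)
    rw [← map_pow]; exact h4
  exact le_sSup (show Subgroup.centralizer
      ((Cfsg.pCore p (↥H ⧸ Cfsg.pPrimeCore p ↥H) : Subgroup (↥H ⧸ Cfsg.pPrimeCore p ↥H)) :
        Set (↥H ⧸ Cfsg.pPrimeCore p ↥H)) ∈
    {N' : Subgroup (↥H ⧸ Cfsg.pPrimeCore p ↥H) | N'.Normal ∧ IsPGroup p ↥N'} from ⟨hYn, hYp⟩)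

end Cfsg.Agent.Lib.Helper3
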