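import Mathlib
import Cfsg.Agent.Lib.Helper3.PConstrLocal
import Cfsg.Agent.Lib.Helper2.ExtLayer2

/-! `p`-constraint along injective homomorphisms onto local subgroups, and from `C(T)` to `N(T)`. -/

set_option autoImplicit false

universe u v

namespace Cfsg.Agent.Lib.Helper3

open Cfsg

/-- In a `p`-constrained group `X`, a group `Y` embedded by `f` with image between `C_X(P)` and
`N_X(P)` (`P` a `p`-subgroup) that contains `P` or centralizes `P` is `p`-constrained. -/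
theorem isPConstrained_of_hom {X : Type u} {Y : Type v} [Group X] [Finite X] [Group Y] [Finite Y]
    {p : ℕ} [Fact p.Prime] (hX : Cfsg.IsPConstrained p X) (f : Y →* X)
    (hf : Function.Injective f) (P : Subgroup X) (hP : IsPGroup p ↥P)
    (hCH : Subgroup.centralizer (P : Set X) ≤ f.range)
    (hHN : f.range ≤ Subgroup.normalizer (P : Set X))
    (hor : P ≤ f.range ∨ f.range ≤ Subgroup.centralizer (P : Set X)) :
    Cfsg.IsPConstrained p Y := by
  have hp : p.Prime := Fact.out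
  apply isPConstrained_of_centralizer_pCore_le
  have hKn : (Cfsg.pPrimeCore p X).Normal := pPrimeCore_normal p X
  have hKc : (Nat.card ↥(Cfsg.pPrimeCore p X)).Coprime p := pPrimeCore_coprime hp X
  have hQ := Cfsg.Agent.Lib.Helper2.pConstrained_centralizer_pCore_le p hX
  have hQp : IsPGroup p ↥(Cfsg.pCore p (X ⧸ Cfsg.pPrimeCore p X)) :=
    Cfsg.Agent.Lib.Helper2.pCore_isPGroup' p _
  have hQn : (Cfsg.pCore p (X ⧸ Cfsg.pPrimeCore p X)).Normal := Cfsg.pCore_normal p _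
  have hKHn : (Cfsg.pPrimeCore p Y).Normal := pPrimeCore_normal p Y
  have hKHc : (Nat.card ↥(Cfsg.pPrimeCore p Y)).Coprime p := pPrimeCore_coprime hp Y
  obtain ⟨φ, hφ⟩ : ∃ φ : Y →* X ⧸ Cfsg.pPrimeCore p X,
      φ = (QuotientGroup.mk' (Cfsg.pPrimeCore p X)).comp f := ⟨_, rfl⟩
  have hφv : ∀ h : Y, φ h = QuotientGroup.mk' (Cfsg.pPrimeCore p X) (f h) := fun h => by
    rw [hφ]; rfl
  have hrn : ∀ y : Y, f y ∈ Subgroup.normalizer (P : Set X) := fun y => hHN ⟨y, rfl⟩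
  -- the kernel of `φ` lies in `O_{p'}(Y)`
  have hker : ∀ h : Y, φ h = 1 → h ∈ Cfsg.pPrimeCore p Y := by
    intro h hh
    rw [hφv] at hh
    have h1 : f h ∈ Cfsg.pPrimeCore p X := (QuotientGroup.eq_one_iff _).mp hh
    have h2 : ((Cfsg.pPrimeCore p X).comap f).Normal := hKn.comap f
    have h3 : (Nat.card ↥((Cfsg.pPrimeCore p X).comap f)).Coprime p := by
      rw [← Subgroup.card_map_of_injective hf]
      exact Nat.Coprime.coprime_dvd_left (Subgroup.card_dvd_of_le (Subgroup.map_comap_le _ _)) hKc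
    exact le_pPrimeCore h2 h3 (Subgroup.mem_comap.mpr h1)
  have hord : ∀ w ∈ Cfsg.pPrimeCore p Y, (orderOf (φ w)).Coprime p := by
    intro w hw
    have h2 : orderOf (φ w) ∣ orderOf w := orderOf_map_dvd φ w
    have h3 : orderOf w ∣ Nat.card ↥(Cfsg.pPrimeCore p Y) := by
      have := orderOf_dvd_natCard (⟨w, hw⟩ : ↥(Cfsg.pPrimeCore p Y))
      rwa [Subgroup.orderOf_mk] at this
    exact Nat.Coprime.coprime_dvd_left (h2.trans h3) hKHc
  -- `O_{p'}(Y)` centralizes `P`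
  have hKHP : ∀ x ∈ Cfsg.pPrimeCore p Y, ∀ a ∈ P, f x * a = a * f x := by
    intro x hx a ha
    rcases hor with hPH | hHC
    · obtain ⟨a', rfl⟩ := hPH ha
      have h1 : a' * x⁻¹ * a'⁻¹ ∈ Cfsg.pPrimeCore p Y := hKHn.conj_mem _ (inv_mem hx) _
      have h2 : x * (a' * x⁻¹ * a'⁻¹) ∈ Cfsg.pPrimeCore p Y := mul_mem hx h1
      have h3 : f x * f a' * (f x)⁻¹ ∈ P := (Subgroup.mem_normalizer_iff.mp (hrn x) (f a')).mp ha
      have h4 : f x * f a' * (f x)⁻¹ * (f a')⁻¹ ∈ P := mul_mem h3 (inv_mem ha)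
      obtain ⟨k, hk⟩ := hP ⟨_, h4⟩
      have hk' : (f x * f a' * (f x)⁻¹ * (f a')⁻¹) ^ p ^ k = 1 := congrArg Subtype.val hk
      have hval : f (x * (a' * x⁻¹ * a'⁻¹)) = f x * f a' * (f x)⁻¹ * (f a')⁻¹ := by
        rw [map_mul, map_mul, map_mul, map_inv, map_inv]; group
      have hk'' : (x * (a' * x⁻¹ * a'⁻¹)) ^ p ^ k = 1 := by
        apply hf
        rw [map_pow, hval, map_one]; exact hk'
      have h5 := Cfsg.Agent.Lib.Helper2.eq_one_of_mem_of_pow_prime_pow p _ hKHc _ h2 k hk''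
      have h6 : f x * f a' * (f x)⁻¹ * (f a')⁻¹ = 1 := by rw [← hval, h5, map_one]
      calc f x * f a' = (f x * f a' * (f x)⁻¹ * (f a')⁻¹) * (f a' * f x) := by group
        _ = f a' * f x := by rw [h6, one_mul]
    · exact (Subgroup.mem_centralizer_iff.mp (hHC ⟨x, rfl⟩) a ha).symm
  have hlift : ∀ e ∈ Cfsg.pCore p (X ⧸ Cfsg.pPrimeCore p X),
      (∀ b ∈ P.map (QuotientGroup.mk' (Cfsg.pPrimeCore p X)), b * e = e * b) →
      ∃ h : Y, φ h = e := by
    intro e he hb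
    obtain ⟨c, rfl⟩ := QuotientGroup.mk'_surjective _ e
    obtain ⟨c', hc', hcc⟩ := exists_centralizer_lift p (Cfsg.pPrimeCore p X) hKc P hP c
      (fun x hx => hb _ ⟨x, hx, rfl⟩)
    obtain ⟨h, rfl⟩ := hCH hc'
    exact ⟨h, by rw [hφv]; exact hcc⟩
  -- the `A × B` lemma
  have hAB : ∀ z : Y, (orderOf (φ z)).Coprime p →
      (∀ a ∈ P, φ z * QuotientGroup.mk' (Cfsg.pPrimeCore p X) a =
        QuotientGroup.mk' (Cfsg.pPrimeCore p X) a * φ z) →
      (∀ h : Y, φ h ∈ Cfsg.pCore p (X ⧸ Cfsg.pPrimeCore p X) → φ z * φ h * (φ z)⁻¹ = φ h) →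
      φ z = 1 := by
    intro z hz hza hzh
    have h1 := Cfsg.Agent.Lib.Helper5.thompson_AB5 (Cfsg.pCore p (X ⧸ Cfsg.pPrimeCore p X))
      (P.map (QuotientGroup.mk' (Cfsg.pPrimeCore p X))) hQp (hP.map _)
      (by rw [Subgroup.normalizer_eq_top (Cfsg.pCore p (X ⧸ Cfsg.pPrimeCore p X))]; exact le_top)
      (φ z)
      (by
        rw [Subgroup.normalizer_eq_top (Cfsg.pCore p (X ⧸ Cfsg.pPrimeCore p X))]
        exact Subgroup.mem_top _)
      (by rintro _ ⟨a, ha, rfl⟩; exact hza a ha) hz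
      (by
        intro e he hb
        obtain ⟨h, rfl⟩ := hlift e he hb
        exact hzh h he)
    have h2 : φ z ∈ Subgroup.centralizer
        ((Cfsg.pCore p (X ⧸ Cfsg.pPrimeCore p X) : Subgroup (X ⧸ Cfsg.pPrimeCore p X)) :
          Set (X ⧸ Cfsg.pPrimeCore p X)) := by
      rw [Subgroup.mem_centralizer_iff]
      intro e he
      have h3 := h1 e he
      calc e * φ z = (φ z * e * (φ z)⁻¹) * φ z := by rw [h3]
        _ = φ z * e := by group
    exact eq_one_of_isPGroup_of_coprime_order _ hQp _ (hQ h2) hz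
  -- `O_{p'}(Y)` maps into `O_{p'}(X)`
  have hKHφ : ∀ x ∈ Cfsg.pPrimeCore p Y, φ x = 1 := by
    intro x hx
    apply hAB x (hord x hx)
    · intro a ha
      rw [hφv, ← map_mul, ← map_mul, hKHP x hx a ha]
    · intro h hh
      have h1 : x * h * x⁻¹ * h⁻¹ ∈ Cfsg.pPrimeCore p Y := by
        have h0 : x * h * x⁻¹ * h⁻¹ = x * (h * x⁻¹ * h⁻¹) := by group
        rw [h0]; exact mul_mem hx (hKHn.conj_mem _ (inv_mem hx) _)
      have h2 : φ (x * h * x⁻¹ * h⁻¹) ∈ Cfsg.pCore p (X ⧸ Cfsg.pPrimeCore p X) := by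
        rw [map_mul, map_mul, map_mul, map_inv, map_inv]
        exact mul_mem (hQn.conj_mem _ hh _) (inv_mem hh)
      have h3 := eq_one_of_isPGroup_of_coprime_order _ hQp _ h2 (hord _ h1)
      rw [map_mul, map_mul, map_mul, map_inv, map_inv] at h3
      exact mul_inv_eq_one.mp h3
  have hMH : ∀ h : Y, φ h ∈ Cfsg.pCore p (X ⧸ Cfsg.pPrimeCore p X) →
      QuotientGroup.mk' (Cfsg.pPrimeCore p Y) h ∈ Cfsg.pCore p (Y ⧸ Cfsg.pPrimeCore p Y) := by
    intro h hh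
    refine mk_mem_pCore_of_normal_pow (Cfsg.pPrimeCore p Y)
      ((Cfsg.pCore p (X ⧸ Cfsg.pPrimeCore p X)).comap φ) (hQn.comap φ) ?_ h hh
    intro x hx
    obtain ⟨k, hk⟩ := hQp ⟨φ x, hx⟩
    have hk' : (φ x) ^ p ^ k = 1 := congrArg Subtype.val hk
    exact ⟨k, hker _ (by rw [map_pow]; exact hk')⟩
  have hYn : (Subgroup.centralizer
      ((Cfsg.pCore p (Y ⧸ Cfsg.pPrimeCore p Y) : Subgroup (Y ⧸ Cfsg.pPrimeCore p Y)) :
        Set (Y ⧸ Cfsg.pPrimeCore p Y))).Normal :=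
    Subgroup.normal_centralizer (H := Cfsg.pCore p (Y ⧸ Cfsg.pPrimeCore p Y))
  have hYp : IsPGroup p ↥(Subgroup.centralizer
      ((Cfsg.pCore p (Y ⧸ Cfsg.pPrimeCore p Y) : Subgroup (Y ⧸ Cfsg.pPrimeCore p Y)) :
        Set (Y ⧸ Cfsg.pPrimeCore p Y))) := by
    rintro ⟨yb, hyb⟩
    obtain ⟨k, m, hm, hkm⟩ : ∃ k m, ¬ p ∣ m ∧ orderOf yb = p ^ k * m :=
      Nat.exists_eq_pow_mul_and_not_dvd (orderOf_pos yb).ne' p hp.ne_one
    refine ⟨k, Subtype.ext ?_⟩
    show yb ^ p ^ k = 1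
    obtain ⟨y, rfl⟩ := QuotientGroup.mk'_surjective _ yb
    have hzm : (y ^ p ^ k) ^ m ∈ Cfsg.pPrimeCore p Y := by
      rw [← pow_mul, ← hkm]
      apply (QuotientGroup.eq_one_iff _).mp
      have h0 : (QuotientGroup.mk' (Cfsg.pPrimeCore p Y) y) ^
          orderOf (QuotientGroup.mk' (Cfsg.pPrimeCore p Y) y) = 1 := pow_orderOf_eq_one _
      rw [← map_pow] at h0
      exact h0
    have hzc : QuotientGroup.mk' (Cfsg.pPrimeCore p Y) (y ^ p ^ k) ∈ Subgroup.centralizer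
        ((Cfsg.pCore p (Y ⧸ Cfsg.pPrimeCore p Y) : Subgroup (Y ⧸ Cfsg.pPrimeCore p Y)) :
          Set (Y ⧸ Cfsg.pPrimeCore p Y)) := by
      rw [map_pow]; exact pow_mem hyb _
    have hcomm : ∀ h : Y, QuotientGroup.mk' (Cfsg.pPrimeCore p Y) h ∈
        Cfsg.pCore p (Y ⧸ Cfsg.pPrimeCore p Y) →
        φ (y ^ p ^ k) * φ h * (φ (y ^ p ^ k))⁻¹ = φ h := by
      intro h hh
      have h1 := Subgroup.mem_centralizer_iff.mp hzc _ hh
      have h2 : (y ^ p ^ k) * h * (y ^ p ^ k)⁻¹ * h⁻¹ ∈ Cfsg.pPrimeCore p Y := by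
        apply (QuotientGroup.eq_one_iff _).mp
        have h0 : QuotientGroup.mk' (Cfsg.pPrimeCore p Y)
            ((y ^ p ^ k) * h * (y ^ p ^ k)⁻¹ * h⁻¹) = 1 := by
          rw [map_mul, map_mul, map_mul, map_inv, map_inv, ← h1]; group
        exact h0
      have h3 := hKHφ _ h2
      rw [map_mul, map_mul, map_mul, map_inv, map_inv] at h3
      exact mul_inv_eq_one.mp h3
    have hz1 : φ (y ^ p ^ k) = 1 := by
      apply hAB
      · have h0 : (φ (y ^ p ^ k)) ^ m = 1 := by rw [← map_pow]; exact hKHφ _ hzm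
        exact Nat.Coprime.coprime_dvd_left (orderOf_dvd_of_pow_eq_one h0)
          ((Nat.Prime.coprime_iff_not_dvd hp).mpr hm).symm
      · intro a ha
        rcases hor with hPH | hHC
        · obtain ⟨a', rfl⟩ := hPH ha
          have h1 : QuotientGroup.mk' (Cfsg.pPrimeCore p Y) a' ∈
              Cfsg.pCore p (Y ⧸ Cfsg.pPrimeCore p Y) := by
            refine mk_mem_pCore_of_normal_pow (Cfsg.pPrimeCore p Y) (P.comap f) ?_ ?_ _
              (Subgroup.mem_comap.mpr ha)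
            · constructor
              intro n hn g
              rw [Subgroup.mem_comap] at hn ⊢
              rw [map_mul, map_mul, map_inv]
              exact (Subgroup.mem_normalizer_iff.mp (hrn g) _).mp hn
            · intro x hx
              obtain ⟨k', hk'⟩ := hP ⟨f x, Subgroup.mem_comap.mp hx⟩
              have hk'' : (f x) ^ p ^ k' = 1 := congrArg Subtype.val hk'
              refine ⟨k', ?_⟩
              have h0 : x ^ p ^ k' = 1 := by
                apply hf; rw [map_pow, map_one]; exact hk''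
              rw [h0]; exact one_mem _
          have h2 := hcomm a' h1
          rw [hφv a'] at h2
          calc φ (y ^ p ^ k) * QuotientGroup.mk' (Cfsg.pPrimeCore p X) (f a')
              = (φ (y ^ p ^ k) * QuotientGroup.mk' (Cfsg.pPrimeCore p X) (f a') *
                  (φ (y ^ p ^ k))⁻¹) * φ (y ^ p ^ k) := by group
            _ = QuotientGroup.mk' (Cfsg.pPrimeCore p X) (f a') * φ (y ^ p ^ k) := by rw [h2]
        · rw [hφv, ← map_mul, ← map_mul]
          congr 1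
          exact (Subgroup.mem_centralizer_iff.mp (hHC ⟨y ^ p ^ k, rfl⟩) a ha).symm
      · intro h hh
        exact hcomm h (hMH h hh)
    have h4 : QuotientGroup.mk' (Cfsg.pPrimeCore p Y) (y ^ p ^ k) = 1 :=
      (QuotientGroup.eq_one_iff _).mpr (hker _ hz1)
    rw [← map_pow]; exact h4
  exact le_sSup (show Subgroup.centralizer
      ((Cfsg.pCore p (Y ⧸ Cfsg.pPrimeCore p Y) : Subgroup (Y ⧸ Cfsg.pPrimeCore p Y)) :
        Set (Y ⧸ Cfsg.pPrimeCore p Y)) ∈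
    {N' : Subgroup (Y ⧸ Cfsg.pPrimeCore p Y) | N'.Normal ∧ IsPGroup p ↥N'} from ⟨hYn, hYp⟩)

/-- `p`-constraint is invariant under isomorphism. -/
theorem isPConstrained_of_mulEquiv {X : Type u} {Y : Type v} [Group X] [Finite X] [Group Y]
    [Finite Y] {p : ℕ} [Fact p.Prime] (hX : Cfsg.IsPConstrained p X) (e : Y ≃* X) :
    Cfsg.IsPConstrained p Y := by
  have hr : e.toMonoidHom.range = ⊤ := MonoidHom.range_eq_top.mpr e.surjective
  refine isPConstrained_of_hom hX e.toMonoidHom e.injective ⊥ IsPGroup.of_bot ?_ ?_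
    (Or.inl bot_le)
  · rw [hr]; exact le_top
  · rw [hr, Subgroup.normalizer_eq_top (⊥ : Subgroup X)]

/-- If `T` is a normal `p`-subgroup of `N` and `C_N(T)` is `p`-constrained, then so is `N`. -/
theorem isPConstrained_of_centralizer_normal {N : Type u} [Group N] [Finite N] {p : ℕ}
    [Fact p.Prime] (T : Subgroup N) [hTn : T.Normal] (hT : IsPGroup p ↥T)
    (hC : Cfsg.IsPConstrained p ↥(Subgroup.centralizer (T : Set N))) :
    Cfsg.IsPConstrained p N := by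
  have hp : p.Prime := Fact.out
  apply isPConstrained_of_centralizer_pCore_le
  have hCn0 : (Subgroup.centralizer (T : Set N)).Normal := Subgroup.normal_centralizer (H := T)
  obtain ⟨C, hCdef⟩ : ∃ C : Subgroup N, C = Subgroup.centralizer (T : Set N) := ⟨_, rfl⟩
  rw [← hCdef] at hC hCn0
  have hKn : (Cfsg.pPrimeCore p N).Normal := pPrimeCore_normal p N
  have hKc : (Nat.card ↥(Cfsg.pPrimeCore p N)).Coprime p := pPrimeCore_coprime hp N
  have hKCn : (Cfsg.pPrimeCore p ↥C).Normal := pPrimeCore_normal p ↥C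
  have hKCc : (Nat.card ↥(Cfsg.pPrimeCore p ↥C)).Coprime p := pPrimeCore_coprime hp ↥C
  have hQC := Cfsg.Agent.Lib.Helper2.pConstrained_centralizer_pCore_le p hC
  have hQCp : IsPGroup p ↥(Cfsg.pCore p (↥C ⧸ Cfsg.pPrimeCore p ↥C)) :=
    Cfsg.Agent.Lib.Helper2.pCore_isPGroup' p _
  have hQp : IsPGroup p ↥(Cfsg.pCore p (N ⧸ Cfsg.pPrimeCore p N)) :=
    Cfsg.Agent.Lib.Helper2.pCore_isPGroup' p _
  -- `O_{p'}(C) ≤ O_{p'}(N)`
  have hKC_le : ∀ c : ↥C, c ∈ Cfsg.pPrimeCore p ↥C → (c : N) ∈ Cfsg.pPrimeCore p N := by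
    intro c hc
    have h1 : ((Cfsg.pPrimeCore p ↥C).map C.subtype).Normal := by
      constructor
      rintro _ ⟨d, hd, rfl⟩ n
      refine ⟨MulAut.conjNormal n d, ?_, MulAut.conjNormal_apply n d⟩
      have h2 := Cfsg.Agent.Lib.Helper2.pPrimeCore_map_mulEquiv p (MulAut.conjNormal (H := C) n)
      rw [SetLike.mem_coe, ← h2]
      exact ⟨d, hd, rfl⟩
    have h3 : (Nat.card ↥((Cfsg.pPrimeCore p ↥C).map C.subtype)).Coprime p := by
      rw [Subgroup.card_map_of_injective C.subtype_injective]; exact hKCc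
    exact le_pPrimeCore h1 h3 ⟨c, hc, rfl⟩
  -- `O_{p'}(N) ∩ C ≤ O_{p'}(C)`
  have hKN_C : ∀ c : ↥C, (c : N) ∈ Cfsg.pPrimeCore p N → c ∈ Cfsg.pPrimeCore p ↥C := by
    intro c hc
    have h2 : ((Cfsg.pPrimeCore p N).subgroupOf C).Normal := inferInstance
    have h3 : (Nat.card ↥((Cfsg.pPrimeCore p N).subgroupOf C)).Coprime p := by
      rw [← Subgroup.card_map_of_injective C.subtype_injective, Subgroup.subgroupOf_map_subtype]
      exact Nat.Coprime.coprime_dvd_left (Subgroup.card_dvd_of_le inf_le_left) hKc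
    exact le_pPrimeCore h2 h3 (Subgroup.mem_subgroupOf.mpr hc)
  -- `O_{p',p}(C)` maps into `O_p(N / O_{p'}(N))`
  have hD : ∀ d : ↥C, QuotientGroup.mk' (Cfsg.pPrimeCore p ↥C) d ∈
        Cfsg.pCore p (↥C ⧸ Cfsg.pPrimeCore p ↥C) →
      QuotientGroup.mk' (Cfsg.pPrimeCore p N) (d : N) ∈
        Cfsg.pCore p (N ⧸ Cfsg.pPrimeCore p N) := by
    intro d hd
    obtain ⟨D, hDdef⟩ : ∃ D : Subgroup ↥C, D = (Cfsg.pCore p (↥C ⧸ Cfsg.pPrimeCore p ↥C)).comap
        (QuotientGroup.mk' (Cfsg.pPrimeCore p ↥C)) := ⟨_, rfl⟩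
    have hDpow : ∀ x ∈ D, ∃ k : ℕ, x ^ p ^ k ∈ Cfsg.pPrimeCore p ↥C := by
      intro x hx
      rw [hDdef, Subgroup.mem_comap] at hx
      obtain ⟨k, hk⟩ := hQCp ⟨_, hx⟩
      have hk' : (QuotientGroup.mk' (Cfsg.pPrimeCore p ↥C) x) ^ p ^ k = 1 :=
        congrArg Subtype.val hk
      rw [← map_pow] at hk'
      exact ⟨k, (QuotientGroup.eq_one_iff _).mp hk'⟩
    have hDn : D.Normal := by rw [hDdef]; exact (Cfsg.pCore_normal p _).comap _
    have hDchar : ∀ n : N, ∀ x ∈ D, MulAut.conjNormal n x ∈ D := by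
      intro n x hx
      rw [hDdef, Subgroup.mem_comap]
      refine mk_mem_pCore_of_normal_pow (Cfsg.pPrimeCore p ↥C)
        (D.map (MulAut.conjNormal (H := C) n).toMonoidHom)
        (hDn.map _ (MulEquiv.surjective _)) ?_ _ ⟨x, hx, rfl⟩
      rintro _ ⟨x₀, hx₀, rfl⟩
      obtain ⟨k, hk⟩ := hDpow x₀ hx₀
      refine ⟨k, ?_⟩
      have h2 := Cfsg.Agent.Lib.Helper2.pPrimeCore_map_mulEquiv p (MulAut.conjNormal (H := C) n)
      rw [← map_pow, ← h2]
      exact ⟨_, hk, rfl⟩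
    refine mk_mem_pCore_of_normal_pow (Cfsg.pPrimeCore p N) (D.map C.subtype) ?_ ?_ (d : N)
      ⟨d, by rw [hDdef]; exact hd, rfl⟩
    · constructor
      rintro _ ⟨x, hx, rfl⟩ n
      exact ⟨MulAut.conjNormal n x, hDchar n x hx, MulAut.conjNormal_apply n x⟩
    · rintro _ ⟨x, hx, rfl⟩
      obtain ⟨k, hk⟩ := hDpow x hx
      refine ⟨k, ?_⟩
      have h7 := hKC_le _ hk
      rw [Subgroup.coe_pow] at h7
      exact h7
  have hYn : (Subgroup.centralizer
      ((Cfsg.pCore p (N ⧸ Cfsg.pPrimeCore p N) : Subgroup (N ⧸ Cfsg.pPrimeCore p N)) :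
        Set (N ⧸ Cfsg.pPrimeCore p N))).Normal :=
    Subgroup.normal_centralizer (H := Cfsg.pCore p (N ⧸ Cfsg.pPrimeCore p N))
  intro yb hyb
  obtain ⟨y, rfl⟩ := QuotientGroup.mk'_surjective _ yb
  have hTQ : ∀ t ∈ T, QuotientGroup.mk' (Cfsg.pPrimeCore p N) t ∈
      Cfsg.pCore p (N ⧸ Cfsg.pPrimeCore p N) := by
    intro t ht
    refine mk_mem_pCore_of_normal_pow (Cfsg.pPrimeCore p N) T hTn ?_ t ht
    intro x hx
    obtain ⟨k, hk⟩ := hT ⟨x, hx⟩
    have hk' : x ^ p ^ k = 1 := congrArg Subtype.val hk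
    exact ⟨k, by rw [hk']; exact one_mem _⟩
  obtain ⟨c, hc, hcy⟩ := exists_centralizer_lift p (Cfsg.pPrimeCore p N) hKc T hT y
    (fun t ht => Subgroup.mem_centralizer_iff.mp hyb _ (hTQ t ht))
  rw [← hcy]
  have hcb : QuotientGroup.mk' (Cfsg.pPrimeCore p N) c ∈ Subgroup.centralizer
      ((Cfsg.pCore p (N ⧸ Cfsg.pPrimeCore p N) : Subgroup (N ⧸ Cfsg.pPrimeCore p N)) :
        Set (N ⧸ Cfsg.pPrimeCore p N)) := by rw [hcy]; exact hyb
  refine mk_mem_pCore_of_normal_pow (Cfsg.pPrimeCore p N)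
    (C ⊓ (Subgroup.centralizer
      ((Cfsg.pCore p (N ⧸ Cfsg.pPrimeCore p N) : Subgroup (N ⧸ Cfsg.pPrimeCore p N)) :
        Set (N ⧸ Cfsg.pPrimeCore p N))).comap (QuotientGroup.mk' (Cfsg.pPrimeCore p N)))
    (Subgroup.normal_inf_normal _ _) ?_ c ⟨by rw [hCdef]; exact hc, hcb⟩
  intro x hx
  obtain ⟨hxC, hxb⟩ := Subgroup.mem_inf.mp hx
  rw [Subgroup.mem_comap] at hxb
  have h1 : QuotientGroup.mk' (Cfsg.pPrimeCore p ↥C) ⟨x, hxC⟩ ∈ Subgroup.centralizer
      ((Cfsg.pCore p (↥C ⧸ Cfsg.pPrimeCore p ↥C) : Subgroup (↥C ⧸ Cfsg.pPrimeCore p ↥C)) :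
        Set (↥C ⧸ Cfsg.pPrimeCore p ↥C)) := by
    rw [Subgroup.mem_centralizer_iff]
    intro db hdb
    obtain ⟨d, rfl⟩ := QuotientGroup.mk'_surjective _ db
    have h2 := hD d hdb
    have h3 := Subgroup.mem_centralizer_iff.mp hxb _ h2
    have h4 : ((d : N) * x)⁻¹ * (x * (d : N)) ∈ Cfsg.pPrimeCore p N := by
      apply (QuotientGroup.eq_one_iff _).mp
      have h40 : QuotientGroup.mk' (Cfsg.pPrimeCore p N) (((d : N) * x)⁻¹ * (x * (d : N))) = 1 := by
        rw [map_mul, map_inv, map_mul, map_mul, h3]; group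
      exact h40
    have h5 : (d * ⟨x, hxC⟩)⁻¹ * (⟨x, hxC⟩ * d) ∈ Cfsg.pPrimeCore p ↥C := hKN_C _ h4
    have h6 : QuotientGroup.mk' (Cfsg.pPrimeCore p ↥C) ((d * ⟨x, hxC⟩)⁻¹ * (⟨x, hxC⟩ * d)) = 1 :=
      (QuotientGroup.eq_one_iff _).mpr h5
    rw [map_mul, map_inv, map_mul, map_mul] at h6
    exact inv_mul_eq_one.mp h6
  obtain ⟨k, hk⟩ := hQCp ⟨_, hQC h1⟩
  have hk' : (QuotientGroup.mk' (Cfsg.pPrimeCore p ↥C) ⟨x, hxC⟩) ^ p ^ k = 1 :=
    congrArg Subtype.val hk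
  rw [← map_pow] at hk'
  have h7 := hKC_le _ ((QuotientGroup.eq_one_iff _).mp hk')
  rw [Subgroup.coe_pow] at h7
  exact ⟨k, h7⟩

end Cfsg.Agent.Lib.Helper3
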