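import Mathlib

set_option autoImplicit false

namespace Cfsg.Agent.Lib.Helper3

universe u v

/-- The subgroup generated by the `p`-elements of `H`. -/
def s4182E {G : Type u} [Group G] (p : ℕ) (H : Subgroup G) : Subgroup G :=
  Subgroup.closure {g : G | g ∈ H ∧ ∃ k : ℕ, orderOf g = p ^ k}

theorem s4182E_le {G : Type u} [Group G] (p : ℕ) (H : Subgroup G) : s4182E p H ≤ H := by
  unfold s4182E
  rw [Subgroup.closure_le]
  intro g hg
  exact hg.1

theorem s4182E_mono {G : Type u} [Group G] (p : ℕ) {H H' : Subgroup G} (h : H ≤ H') :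
    s4182E p H ≤ s4182E p H' := by
  unfold s4182E
  apply Subgroup.closure_mono
  intro g hg
  exact ⟨h hg.1, hg.2⟩

theorem s4182_mem_E {G : Type u} [Group G] (p : ℕ) {H : Subgroup G} {g : G} (hg : g ∈ H)
    (hp : ∃ k : ℕ, orderOf g = p ^ k) : g ∈ s4182E p H :=
  Subgroup.subset_closure ⟨hg, hp⟩

theorem s4182E_idem {G : Type u} [Group G] (p : ℕ) (H : Subgroup G) :
    s4182E p (s4182E p H) = s4182E p H := by
  apply le_antisymm (s4182E_le p _)
  have h : ∀ g, g ∈ {g : G | g ∈ H ∧ ∃ k : ℕ, orderOf g = p ^ k} →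
      g ∈ s4182E p (s4182E p H) :=
    fun g hg => s4182_mem_E p (s4182_mem_E p hg.1 hg.2) hg.2
  exact (Subgroup.closure_le _).mpr h

theorem s4182E_map {G : Type u} [Group G] (p : ℕ) (f : G →* G) (hf : Function.Injective f)
    (H : Subgroup G) : s4182E p (H.map f) = (s4182E p H).map f := by
  unfold s4182E
  rw [MonoidHom.map_closure]
  congr 1
  ext x
  simp only [Set.mem_ofPred_eq, Set.mem_image, Subgroup.mem_map]
  constructor
  · rintro ⟨⟨h, hh, rfl⟩, k, hk⟩
    exact ⟨h, ⟨hh, k, by rw [← hk]; exact (orderOf_injective f hf h).symm⟩, rfl⟩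
  · rintro ⟨h, ⟨hh, k, hk⟩, rfl⟩
    exact ⟨⟨h, hh, rfl⟩, k, by rw [← hk]; exact orderOf_injective f hf h⟩

theorem s4182_internal {G : Type u} [Group G] (p : ℕ) (D : Subgroup G) (h : s4182E p D = D) :
    Subgroup.closure {x : ↥D | ∃ k : ℕ, orderOf x = p ^ k} = ⊤ := by
  rw [eq_top_iff]
  intro x _
  have hx : (x : G) ∈ s4182E p D := by rw [h]; exact x.2
  have hle : s4182E p D ≤
      (Subgroup.closure {x : ↥D | ∃ k : ℕ, orderOf x = p ^ k}).map D.subtype := by
    unfold s4182E
    rw [Subgroup.closure_le]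
    intro g hg
    obtain ⟨hgD, k, hk⟩ := hg
    exact ⟨⟨g, hgD⟩, Subgroup.subset_closure ⟨k, by rw [← hk]; exact Subgroup.orderOf_mk g hgD⟩, rfl⟩
  obtain ⟨y, hy, hyx⟩ := hle hx
  have hyx' : y = x := Subtype.ext hyx
  rw [← hyx']
  exact hy

/-- A `p`-group is not the union of at most `p` proper subgroups. -/
theorem s4182_pgroup {P : Type u} [Group P] [Finite P] (p : ℕ) [Fact p.Prime] (hP : IsPGroup p P)
    {ι : Type v} [Fintype ι] (K : ι → Subgroup P) (hK : ∀ i, K i ≠ ⊤)
    (hcov : ∀ g : P, ∃ i, g ∈ K i) : p + 1 ≤ Fintype.card ι := by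
  classical
  have hp := (Fact.out : p.Prime)
  haveI := Fintype.ofFinite P
  by_contra hcon
  have hn : Fintype.card ι ≤ p := by omega
  have h1 : ∀ i, Nat.card (K i) * p ≤ Nat.card P := by
    intro i
    obtain ⟨k, hk⟩ := hP.index (K i)
    have hidx : (K i).index ≠ 1 := by
      rw [Ne, Subgroup.index_eq_one]; exact hK i
    have hk0 : k ≠ 0 := by
      rintro rfl
      rw [pow_zero] at hk
      exact hidx hk
    have hdvd : p ∣ (K i).index := by
      rw [hk]; exact dvd_pow_self p hk0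
    have hle : p ≤ (K i).index :=
      Nat.le_of_dvd (Nat.pos_of_ne_zero Subgroup.index_ne_zero_of_finite) hdvd
    calc Nat.card (K i) * p ≤ Nat.card (K i) * (K i).index := Nat.mul_le_mul_left _ hle
      _ = Nat.card P := (K i).card_mul_index
  have h2 : Nat.card P - 1 ≤ ∑ i, (Nat.card (K i) - 1) := by
    have hsub : (Finset.univ.erase (1 : P)) ⊆ Finset.univ.biUnion
        (fun i => (Finset.univ.filter (fun g => g ∈ K i)).erase 1) := by
      intro g hg
      rw [Finset.mem_erase] at hg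
      obtain ⟨i, hi⟩ := hcov g
      rw [Finset.mem_biUnion]
      exact ⟨i, Finset.mem_univ _, Finset.mem_erase.mpr ⟨hg.1,
        Finset.mem_filter.mpr ⟨Finset.mem_univ _, hi⟩⟩⟩
    have hc := Finset.card_le_card hsub
    rw [Finset.card_erase_of_mem (Finset.mem_univ _), Finset.card_univ] at hc
    rw [Nat.card_eq_fintype_card]
    refine le_trans hc (Finset.card_biUnion_le.trans ?_)
    refine Finset.sum_le_sum (fun i _ => ?_)
    have hmem : (1 : P) ∈ Finset.univ.filter (fun g => g ∈ K i) :=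
      Finset.mem_filter.mpr ⟨Finset.mem_univ _, one_mem _⟩
    rw [Finset.card_erase_of_mem hmem]
    have hcard : Nat.card (K i) = (Finset.univ.filter (fun g => g ∈ K i)).card :=
      Nat.subtype_card _ (fun x => by simp)
    rw [hcard]
  obtain ⟨i₀, _⟩ := hcov 1
  have hpN : p ≤ Nat.card P := by
    have := h1 i₀
    have hpos : 0 < Nat.card (K i₀) := Nat.card_pos
    nlinarith
  have h3 : (Nat.card P - 1) * p ≤ ∑ i : ι, (Nat.card (K i) - 1) * p := by
    rw [← Finset.sum_mul]
    exact Nat.mul_le_mul_right _ h2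
  have h4 : ∑ i : ι, (Nat.card (K i) - 1) * p ≤ ∑ _i : ι, (Nat.card P - p) := by
    refine Finset.sum_le_sum (fun i _ => ?_)
    rw [Nat.sub_mul, one_mul]
    exact Nat.sub_le_sub_right (h1 i) p
  rw [Finset.sum_const, Finset.card_univ, smul_eq_mul] at h4
  have h5 : Fintype.card ι * (Nat.card P - p) ≤ p * (Nat.card P - p) :=
    Nat.mul_le_mul_right _ hn
  have h6 : p * (Nat.card P - 1) ≤ p * (Nat.card P - p) := by
    rw [mul_comm p (Nat.card P - 1)]
    exact h3.trans (h4.trans h5)
  have h7 := Nat.le_of_mul_le_mul_left h6 hp.pos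
  have := hp.two_le
  omega

theorem s4182_conj_mem {G : Type u} [Group G] (M : Subgroup G) (a b : G)
    (h : M.map (MulAut.conj a).toMonoidHom = M.map (MulAut.conj b).toMonoidHom) (x : G)
    (hx : x ∈ M) : a⁻¹ * b * x * (a⁻¹ * b)⁻¹ ∈ M := by
  have h1 : b * x * b⁻¹ ∈ M.map (MulAut.conj b).toMonoidHom :=
    ⟨x, hx, by simp [MulAut.conj_apply]⟩
  rw [← h] at h1
  obtain ⟨y, hy, hyx⟩ := h1
  have hyx' : a * y * a⁻¹ = b * x * b⁻¹ := by simpa [MulAut.conj_apply] using hyx
  have h2 : a⁻¹ * b * x * (a⁻¹ * b)⁻¹ = y := by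
    have e1 : a⁻¹ * b * x * (a⁻¹ * b)⁻¹ = a⁻¹ * (b * x * b⁻¹) * a := by group
    rw [e1, ← hyx']
    group
  rw [h2]
  exact hy

theorem s4182_normalizes {G : Type u} [Group G] (p : ℕ) [Fact p.Prime] (M : Subgroup G) (g : G)
    (k : ℕ) (hk : orderOf g = p ^ k) (s t : ℕ) (hst : s < t) (ht : t < p)
    (h : M.map (MulAut.conj (g ^ s)).toMonoidHom = M.map (MulAut.conj (g ^ t)).toMonoidHom) :
    g ∈ Subgroup.normalizer (M : Set G) := by
  have hp := (Fact.out : p.Prime)
  have hc : (g ^ s)⁻¹ * g ^ t = g ^ (t - s) := by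
    have e : g ^ t = g ^ s * g ^ (t - s) := by
      rw [← pow_add]; congr 1; omega
    rw [e, inv_mul_cancel_left]
  have hc' : (g ^ t)⁻¹ * g ^ s = (g ^ (t - s))⁻¹ := by
    rw [← hc]; group
  have hcN : g ^ (t - s) ∈ Subgroup.normalizer (M : Set G) := by
    rw [Subgroup.mem_normalizer_iff]
    intro x
    constructor
    · intro hx
      have := s4182_conj_mem M (g ^ s) (g ^ t) h x hx
      rwa [hc] at this
    · intro hx
      have := s4182_conj_mem M (g ^ t) (g ^ s) h.symm _ hx
      rw [hc'] at this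
      have e : (g ^ (t - s))⁻¹ * (g ^ (t - s) * x * (g ^ (t - s))⁻¹) * ((g ^ (t - s))⁻¹)⁻¹ = x := by
        group
      rwa [e] at this
  have hd0 : t - s ≠ 0 := by omega
  have hdp : t - s < p := by omega
  have hcop : Nat.gcd (t - s) (p ^ k) = 1 :=
    Nat.Coprime.pow_right k (Nat.coprime_of_lt_prime hd0 hdp hp).symm
  have hb := Nat.gcd_eq_gcd_ab (t - s) (p ^ k)
  rw [hcop] at hb
  have hgo : g ^ (p ^ k) = 1 := by rw [← hk]; exact pow_orderOf_eq_one g
  have h1 : g ^ (((t - s : ℕ) : ℤ) * Nat.gcdA (t - s) (p ^ k) +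
      ((p ^ k : ℕ) : ℤ) * Nat.gcdB (t - s) (p ^ k)) = g := by
    rw [← hb]; simp
  rw [zpow_add, zpow_mul, zpow_mul, zpow_natCast, zpow_natCast, hgo, one_zpow, mul_one] at h1
  rw [← h1]
  exact zpow_mem hcN _

theorem s4182_main (p : ℕ) [Fact p.Prime] {ι : Type v} [Fintype ι] :
    ∀ (m : ℕ) (G : Type u) [Group G] [Finite G], Nat.card G = m →
      Subgroup.closure {g : G | ∃ k : ℕ, orderOf g = p ^ k} = ⊤ →
      ∀ (K : ι → Subgroup G), (∀ i, K i ≠ ⊤) →
      (∀ g : G, (∃ k : ℕ, orderOf g = p ^ k) → ∃ i, g ∈ K i) → p + 1 ≤ Fintype.card ι := by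
  intro m
  induction m using Nat.strong_induction_on with
  | _ m ih =>
  intro G _ _ hcard hgen K hK hcov
  classical
  have hp := (Fact.out : p.Prime)
  by_contra hcon
  have hA : ∀ D : Subgroup G, D ≠ ⊤ → s4182E p D = D → ∃ i, D ≤ K i := by
    intro D hD hDE
    by_contra hno
    push_neg at hno
    apply hcon
    have hlt : Nat.card D < m := by
      rw [← hcard]
      exact lt_of_le_of_ne (Subgroup.card_le_card_group D)
        (fun h => hD (Subgroup.eq_top_of_card_eq D h))
    refine ih (Nat.card D) hlt D rfl (s4182_internal p D hDE) (fun i => (K i).subgroupOf D) ?_ ?_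
    · intro i h
      exact hno i (Subgroup.subgroupOf_eq_top.mp h)
    · intro x hx
      obtain ⟨k, hk⟩ := hx
      obtain ⟨i, hi⟩ := hcov (x : G) ⟨k, by rw [← hk]; exact Subgroup.orderOf_coe x⟩
      exact ⟨i, Subgroup.mem_subgroupOf.mpr hi⟩
  obtain ⟨P⟩ := (inferInstance : Nonempty (Sylow p G))
  have hPel : ∀ x : G, x ∈ (P : Subgroup G) → ∃ k : ℕ, orderOf x = p ^ k := by
    intro x hx
    obtain ⟨k, hk⟩ := (IsPGroup.iff_orderOf.mp P.isPGroup') ⟨x, hx⟩
    exact ⟨k, by rw [← hk]; exact (Subgroup.orderOf_mk x hx).symm⟩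
  have hPE : s4182E p (P : Subgroup G) = P := by
    apply le_antisymm (s4182E_le p _)
    intro x hx
    exact s4182_mem_E p hx (hPel x hx)
  by_cases hPtop : (P : Subgroup G) = ⊤
  · have hG : IsPGroup p G := by
      apply IsPGroup.iff_orderOf.mpr
      intro x
      exact hPel x (by rw [hPtop]; trivial)
    exact hcon (s4182_pgroup p hG K hK (fun x => hcov x (IsPGroup.iff_orderOf.mp hG x)))
  · have hPidx : ¬ p ∣ (P : Subgroup G).index := P.not_dvd_index
    haveI : Nonempty {D : Subgroup G // D ≠ ⊤ ∧ s4182E p D = D ∧ ¬ p ∣ D.index} :=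
      ⟨⟨P, hPtop, hPE, hPidx⟩⟩
    obtain ⟨⟨M, hMtop, hME, hMidx⟩, hMmax⟩ := Finite.exists_max
      (fun D : {D : Subgroup G // D ≠ ⊤ ∧ s4182E p D = D ∧ ¬ p ∣ D.index} =>
        Nat.card (D.1 : Subgroup G))
    have hmax : ∀ D : Subgroup G, D ≠ ⊤ → s4182E p D = D → ¬ p ∣ D.index →
        Nat.card D ≤ Nat.card M :=
      fun D h1 h2 h3 => hMmax ⟨D, h1, h2, h3⟩
    have hex : ∃ g : G, (∃ k : ℕ, orderOf g = p ^ k) ∧ g ∉ M := by
      by_contra hno
      push_neg at hno
      apply hMtop
      rw [eq_top_iff, ← hgen, Subgroup.closure_le]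
      intro g hg
      exact hno g hg
    obtain ⟨g, ⟨k, hk⟩, hgM⟩ := hex
    have hconj : ∀ t : ℕ, ∃ i, s4182E p (K i) = M.map (MulAut.conj (g ^ t)).toMonoidHom := by
      intro t
      have hφinj : Function.Injective (MulAut.conj (g ^ t)).toMonoidHom :=
        (MulAut.conj (g ^ t)).injective
      have hcardMt : Nat.card (M.map (MulAut.conj (g ^ t)).toMonoidHom) = Nat.card M :=
        Subgroup.card_map_of_injective hφinj
      have hEt : s4182E p (M.map (MulAut.conj (g ^ t)).toMonoidHom) =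
          M.map (MulAut.conj (g ^ t)).toMonoidHom := by
        rw [s4182E_map p _ hφinj, hME]
      have hMt_top : M.map (MulAut.conj (g ^ t)).toMonoidHom ≠ ⊤ := by
        intro h
        apply hMtop
        apply Subgroup.eq_top_of_card_eq
        rw [← hcardMt, h, Subgroup.card_top]
      obtain ⟨i, hi⟩ := hA _ hMt_top hEt
      refine ⟨i, ?_⟩
      have hle : M.map (MulAut.conj (g ^ t)).toMonoidHom ≤ s4182E p (K i) :=
        hEt.symm.le.trans (s4182E_mono p hi)
      have hKtop : s4182E p (K i) ≠ ⊤ := by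
        intro h
        apply hK i
        rw [eq_top_iff, ← h]
        exact s4182E_le p (K i)
      have hidx : ¬ p ∣ (s4182E p (K i)).index := by
        intro hdvd
        apply hMidx
        have h1 : (s4182E p (K i)).index ∣ (M.map (MulAut.conj (g ^ t)).toMonoidHom).index :=
          Subgroup.index_dvd_of_le hle
        have h2 : (M.map (MulAut.conj (g ^ t)).toMonoidHom).index = M.index := by
          have e1 := (M.map (MulAut.conj (g ^ t)).toMonoidHom).card_mul_index
          have e2 := M.card_mul_index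
          rw [hcardMt] at e1
          exact Nat.eq_of_mul_eq_mul_left Nat.card_pos (e1.trans e2.symm)
        rw [← h2]
        exact dvd_trans hdvd h1
      have hc := hmax _ hKtop (s4182E_idem p (K i)) hidx
      exact (Subgroup.eq_of_le_of_card_ge hle (by rw [hcardMt]; exact hc)).symm
    choose f hf2 using hconj
    obtain ⟨j, hj⟩ := hcov g ⟨k, hk⟩
    have hjf : ∀ t : ℕ, f t ≠ j := by
      intro t ht
      have h1 : g ∈ M.map (MulAut.conj (g ^ t)).toMonoidHom := by
        rw [← hf2 t, ht]; exact s4182_mem_E p hj ⟨k, hk⟩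
      obtain ⟨h, hh, hhg⟩ := h1
      have hhg' : g ^ t * h * (g ^ t)⁻¹ = g := hhg
      have e : h = (g ^ t)⁻¹ * g * g ^ t := by
        calc h = (g ^ t)⁻¹ * (g ^ t * h * (g ^ t)⁻¹) * g ^ t := by group
          _ = (g ^ t)⁻¹ * g * g ^ t := by rw [hhg']
      have e2 : (g ^ t)⁻¹ * g * g ^ t = g := by
        rw [mul_assoc, ← pow_mul_comm', inv_mul_cancel_left]
      rw [e2] at e
      exact hgM (e ▸ hh)
    have hinj : Function.Injective (fun t : Fin p => f t.1) := by
      intro s t hst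
      by_contra hne
      have hne' : s.1 ≠ t.1 := fun h => hne (Fin.ext h)
      have hst' : f s.1 = f t.1 := hst
      have hmap : M.map (MulAut.conj (g ^ s.1)).toMonoidHom =
          M.map (MulAut.conj (g ^ t.1)).toMonoidHom := by
        rw [← hf2 s.1, ← hf2 t.1, hst']
      have hgN : g ∈ Subgroup.normalizer (M : Set G) := by
        rcases lt_or_gt_of_ne hne' with h | h
        · exact s4182_normalizes p M g k hk s.1 t.1 h t.2 hmap
        · exact s4182_normalizes p M g k hk t.1 s.1 h s.2 hmap.symm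
      have hDE : s4182E p (M ⊔ Subgroup.zpowers g) = M ⊔ Subgroup.zpowers g := by
        apply le_antisymm (s4182E_le p _)
        rw [sup_le_iff]
        constructor
        · exact hME.symm.le.trans (s4182E_mono p le_sup_left)
        · rw [Subgroup.zpowers_le]
          exact s4182_mem_E p (Subgroup.mem_sup_right (Subgroup.mem_zpowers g)) ⟨k, hk⟩
      have hDtop : M ⊔ Subgroup.zpowers g = ⊤ := by
        by_contra hD
        have hidx : ¬ p ∣ (M ⊔ Subgroup.zpowers g).index :=
          fun hd => hMidx (dvd_trans hd (Subgroup.index_dvd_of_le le_sup_left))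
        have hc := hmax _ hD hDE hidx
        have hMD : M = M ⊔ Subgroup.zpowers g := Subgroup.eq_of_le_of_card_ge le_sup_left hc
        apply hgM
        rw [hMD]
        exact Subgroup.mem_sup_right (Subgroup.mem_zpowers g)
      have hMnormal : M.Normal := by
        rw [← Subgroup.normalizer_eq_top_iff, eq_top_iff, ← hDtop, sup_le_iff]
        exact ⟨Subgroup.le_normalizer, by rw [Subgroup.zpowers_le]; exact hgN⟩
      apply hgM
      have h1 : orderOf (QuotientGroup.mk' M g) ∣ M.index := by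
        rw [Subgroup.index_eq_card]; exact orderOf_dvd_natCard _
      have h2 : orderOf (QuotientGroup.mk' M g) ∣ p ^ k := by
        rw [← hk]; exact orderOf_map_dvd _ g
      have hcop : Nat.Coprime M.index (p ^ k) :=
        Nat.Coprime.pow_right k ((Nat.Prime.coprime_iff_not_dvd hp).mpr hMidx).symm
      have h3 : orderOf (QuotientGroup.mk' M g) = 1 := Nat.eq_one_of_dvd_coprimes hcop h1 h2
      rw [orderOf_eq_one_iff] at h3
      exact (QuotientGroup.eq_one_iff g).mp h3
    apply hcon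
    have hnot : j ∉ Finset.univ.image (fun t : Fin p => f t.1) := by
      rw [Finset.mem_image]
      rintro ⟨t, _, ht⟩
      exact hjf t.1 ht
    have h1 : (insert j (Finset.univ.image (fun t : Fin p => f t.1))).card = p + 1 := by
      rw [Finset.card_insert_of_notMem hnot, Finset.card_image_of_injective _ hinj,
        Finset.card_univ, Fintype.card_fin]
    rw [← h1]
    exact Finset.card_le_univ _

theorem s4182_final {G : Type u} [Group G] [Finite G] (p : ℕ) [Fact p.Prime]
    (hgen : Subgroup.closure {g : G | ∃ k : ℕ, orderOf g = p ^ k} = ⊤)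
    {ι : Type v} [Fintype ι] (K : ι → Subgroup G) (hK : ∀ i, K i ≠ ⊤)
    (hcov : ∀ g : G, (∃ k : ℕ, orderOf g = p ^ k) → ∃ i, g ∈ K i) :
    p + 1 ≤ Fintype.card ι :=
  s4182_main p (Nat.card G) G rfl hgen K hK hcov

end Cfsg.Agent.Lib.Helper3
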