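import Mathlib
import Cfsg.Agent.Lib.Helper3.Goldschmidt
import Cfsg.Agent.Lib.Helper3.ZJQuot
import Cfsg.Agent.Lib.Helper3.NPC
import Cfsg.Agent.Lib.Lead.PNilp2

/-! A Frobenius-type normal `p`-complement criterion relative to a strongly closed subgroup. -/

set_option autoImplicit false

universe u

namespace Cfsg.Agent.Lib.Helper3

open Cfsg

/-- The stabilizer in `N_G(T)` of the chain `T ≥ W ≥ 1`. -/
def scChainStab {G : Type*} [Group G] (T W : Subgroup G) : Subgroup G where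
  carrier := {n | n ∈ Subgroup.normalizer (T : Set G) ∧ (∀ w ∈ W, n * w * n⁻¹ = w) ∧
    ∀ t ∈ T, n * t * n⁻¹ * t⁻¹ ∈ W}
  one_mem' := ⟨one_mem _, fun w _ => by group, fun t _ => by
    have : (1 : G) * t * 1⁻¹ * t⁻¹ = 1 := by group
    rw [this]; exact one_mem _⟩
  mul_mem' := by
    rintro a b ⟨haN, haW, haT⟩ ⟨hbN, hbW, hbT⟩
    refine ⟨mul_mem haN hbN, fun w hw => ?_, fun t ht => ?_⟩
    · calc a * b * w * (a * b)⁻¹ = a * (b * w * b⁻¹) * a⁻¹ := by group
        _ = w := by rw [hbW w hw, haW w hw]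
    · have h1 := hbT t ht
      have h2 := haT t ht
      have h3 : a * b * t * (a * b)⁻¹ * t⁻¹ =
          (a * (b * t * b⁻¹ * t⁻¹) * a⁻¹) * (a * t * a⁻¹ * t⁻¹) := by group
      rw [h3, haW _ h1]
      exact mul_mem h1 h2
  inv_mem' := by
    rintro a ⟨haN, haW, haT⟩
    refine ⟨inv_mem haN, fun w hw => ?_, fun t ht => ?_⟩
    · calc a⁻¹ * w * a⁻¹⁻¹ = a⁻¹ * (a * w * a⁻¹) * a⁻¹⁻¹ := by rw [haW w hw]
        _ = w := by group
    · have ht' : a⁻¹ * t * a ∈ T := by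
        have := (Subgroup.mem_normalizer_iff.mp (inv_mem haN) t).mp ht
        rwa [inv_inv] at this
      have h1 := haT _ ht'
      have h2 : a * (a⁻¹ * t * a) * a⁻¹ * (a⁻¹ * t * a)⁻¹ = t * (a⁻¹ * t * a)⁻¹ := by group
      rw [h2] at h1
      have h3 : a⁻¹ * t * a⁻¹⁻¹ * t⁻¹ = (t * (a⁻¹ * t * a)⁻¹)⁻¹ := by group
      rw [h3]; exact inv_mem h1

theorem mem_scChainStab {G : Type*} [Group G] (T W : Subgroup G) (n : G) :
    n ∈ scChainStab T W ↔ n ∈ Subgroup.normalizer (T : Set G) ∧ (∀ w ∈ W, n * w * n⁻¹ = w) ∧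
      ∀ t ∈ T, n * t * n⁻¹ * t⁻¹ ∈ W := Iff.rfl

theorem scChainStab_le_normalizer {G : Type*} [Group G] (T W : Subgroup G) :
    scChainStab T W ≤ Subgroup.normalizer (T : Set G) := fun _ hn => hn.1

/-- The chain stabilizer is normalized by `N_G(T) ∩ N_G(W)`. -/
theorem le_normalizer_scChainStab {G : Type*} [Group G] (T W : Subgroup G)
    (hNW : Subgroup.normalizer (T : Set G) ≤ Subgroup.normalizer (W : Set G)) :
    Subgroup.normalizer (T : Set G) ≤ Subgroup.normalizer (scChainStab T W : Set G) := by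
  have key : ∀ g ∈ Subgroup.normalizer (T : Set G), ∀ n ∈ scChainStab T W,
      g * n * g⁻¹ ∈ scChainStab T W := by
    intro g hg n hn
    obtain ⟨hnN, hnW, hnT⟩ := hn
    have hgW := hNW hg
    have hgi : g⁻¹ ∈ Subgroup.normalizer (T : Set G) := inv_mem hg
    have hgiW : g⁻¹ ∈ Subgroup.normalizer (W : Set G) := inv_mem hgW
    refine ⟨mul_mem (mul_mem hg hnN) (inv_mem hg), fun w hw => ?_, fun t ht => ?_⟩
    · have hw' : g⁻¹ * w * g ∈ W := by
        have := (Subgroup.mem_normalizer_iff.mp hgiW w).mp hw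
        rwa [inv_inv] at this
      calc g * n * g⁻¹ * w * (g * n * g⁻¹)⁻¹ = g * (n * (g⁻¹ * w * g) * n⁻¹) * g⁻¹ := by group
        _ = w := by rw [hnW _ hw']; group
    · have ht' : g⁻¹ * t * g ∈ T := by
        have := (Subgroup.mem_normalizer_iff.mp hgi t).mp ht
        rwa [inv_inv] at this
      have h1 := hnT _ ht'
      have h2 : g * n * g⁻¹ * t * (g * n * g⁻¹)⁻¹ * t⁻¹ =
          g * (n * (g⁻¹ * t * g) * n⁻¹ * (g⁻¹ * t * g)⁻¹) * g⁻¹ := by group
      rw [h2]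
      exact (Subgroup.mem_normalizer_iff.mp hgW _).mp h1
  intro g hg
  rw [Subgroup.mem_normalizer_iff]
  intro n
  constructor
  · exact key g hg n
  · intro h
    have := key g⁻¹ (inv_mem hg) _ h
    have e : g⁻¹ * (g * n * g⁻¹) * g⁻¹⁻¹ = n := by group
    rwa [e] at this

/-- Elements of the chain stabilizer have a `p`-power in `C_G(T)`. -/
theorem scChainStab_pow {G : Type*} [Group G] [Finite G] {p : ℕ} [Fact p.Prime] (T W : Subgroup G)
    (hW : IsPGroup p ↥W) (n : G) (hn : n ∈ scChainStab T W) :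
    ∃ k : ℕ, n ^ p ^ k ∈ Subgroup.centralizer (T : Set G) := by
  obtain ⟨hnN, hnW, hnT⟩ := hn
  obtain ⟨k, hk⟩ := IsPGroup.iff_card.mp hW
  refine ⟨k, ?_⟩
  rw [Subgroup.mem_centralizer_iff]
  intro t ht
  have key : ∀ j : ℕ, n ^ j * t * (n ^ j)⁻¹ = (n * t * n⁻¹ * t⁻¹) ^ j * t := by
    intro j
    induction j with
    | zero => simp
    | succ j ih =>
      have h1 : n ^ (j + 1) * t * (n ^ (j + 1))⁻¹ = n * (n ^ j * t * (n ^ j)⁻¹) * n⁻¹ := by
        rw [pow_succ']; group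
      have h2 : n * ((n * t * n⁻¹ * t⁻¹) ^ j * t) * n⁻¹ =
          (n * (n * t * n⁻¹ * t⁻¹) * n⁻¹) ^ j * (n * t * n⁻¹) := by
        rw [conj_pow]; group
      rw [h1, ih, h2, hnW _ (hnT t ht), pow_succ]
      group
  have h3 := key (p ^ k)
  have h4 : (n * t * n⁻¹ * t⁻¹) ^ p ^ k = 1 := by
    have h5 : (⟨n * t * n⁻¹ * t⁻¹, hnT t ht⟩ : ↥W) ^ Nat.card ↥W = 1 := pow_card_eq_one'
    rw [hk] at h5
    exact congrArg Subtype.val h5
  rw [h4, one_mul] at h3
  calc t * n ^ p ^ k = (n ^ p ^ k * t * (n ^ p ^ k)⁻¹) * n ^ p ^ k := by rw [h3]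
    _ = n ^ p ^ k * t := by group

/-- For a tight subgroup `T` and a strongly closed `D`, `T ∩ D` contains its centralizer in `D`. -/
theorem tight_inf_centric {G : Type*} [Group G] [Finite G] {p : ℕ} [Fact p.Prime] (S : Sylow p G)
    (D : Subgroup G) (hD : Cfsg.IsStronglyClosed D (S : Subgroup G)) (T : Subgroup G)
    (hT : T ∈ tightFamily S) :
    Subgroup.normalizer (T : Set G) ≤ Subgroup.normalizer ((T ⊓ D : Subgroup G) : Set G) ∧
      D ⊓ Subgroup.centralizer ((T ⊓ D : Subgroup G) : Set G) ≤ T ⊓ D := by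
  obtain ⟨⟨hTS, hTfn⟩, hrad⟩ := hT
  have hSp : IsPGroup p ↥(S : Subgroup G) := S.isPGroup'
  -- `N(T) ≤ N(T ∩ D)`
  have hNW : Subgroup.normalizer (T : Set G) ≤
      Subgroup.normalizer ((T ⊓ D : Subgroup G) : Set G) := by
    have key : ∀ g ∈ Subgroup.normalizer (T : Set G), ∀ x ∈ T ⊓ D, g * x * g⁻¹ ∈ T ⊓ D := by
      intro g hg x hx
      have h1 : g * x * g⁻¹ ∈ T := (Subgroup.mem_normalizer_iff.mp hg x).mp hx.1
      exact ⟨h1, hD.2 x hx.2 g (hTS h1)⟩
    intro g hg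
    rw [Subgroup.mem_normalizer_iff]
    intro x
    constructor
    · exact key g hg x
    · intro h
      have := key g⁻¹ (inv_mem hg) _ h
      have e : g⁻¹ * (g * x * g⁻¹) * g⁻¹⁻¹ = x := by group
      rwa [e] at this
  refine ⟨hNW, ?_⟩
  obtain ⟨W, hWdef⟩ : ∃ W : Subgroup G, W = T ⊓ D := ⟨_, rfl⟩
  rw [← hWdef] at hNW ⊢
  have hWT : W ≤ T := by rw [hWdef]; exact inf_le_left
  have hWD : W ≤ D := by rw [hWdef]; exact inf_le_right
  have hWp : IsPGroup p ↥W := hSp.to_le (hWT.trans hTS)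
  obtain ⟨E, hEdef⟩ : ∃ E : Subgroup G, E = D ⊓ Subgroup.centralizer (W : Set G) := ⟨_, rfl⟩
  rw [← hEdef]
  have hED : E ≤ D := by rw [hEdef]; exact inf_le_left
  have hES : E ≤ S := hED.trans hD.1
  -- the normal subgroup `M = L C(T)` of `N(T)`
  obtain ⟨L, hLdef⟩ : ∃ L : Subgroup G, L = scChainStab T W := ⟨_, rfl⟩
  have hLN : L ≤ Subgroup.normalizer (T : Set G) := by rw [hLdef]; exact scChainStab_le_normalizer T W
  have hNL : Subgroup.normalizer (T : Set G) ≤ Subgroup.normalizer (L : Set G) := by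
    rw [hLdef]; exact le_normalizer_scChainStab T W hNW
  have hNC : Subgroup.normalizer (T : Set G) ≤
      Subgroup.normalizer ((Subgroup.centralizer (T : Set G) : Subgroup G) : Set G) :=
    normalizer_le_normalizer_centralizer T
  have hCN : Subgroup.centralizer (T : Set G) ≤ Subgroup.normalizer (T : Set G) :=
    Subgroup.centralizer_le_normalizer _
  obtain ⟨M, hMdef⟩ : ∃ M : Subgroup G, M = L ⊔ Subgroup.centralizer (T : Set G) := ⟨_, rfl⟩
  have hMN : M ≤ Subgroup.normalizer (T : Set G) := by rw [hMdef]; exact sup_le hLN hCN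
  have hNM : Subgroup.normalizer (T : Set G) ≤ Subgroup.normalizer (M : Set G) := by
    intro g hg
    rw [hMdef]
    exact mem_normalizer_sup _ _ g (hNL hg) (hNC hg)
  have hMpow : ∀ x ∈ M, ∃ k : ℕ, x ^ p ^ k ∈ Subgroup.centralizer (T : Set G) := by
    intro x hx
    rw [hMdef] at hx
    obtain ⟨l, hl, c, hc, rfl⟩ := exists_mul_of_mem_sup_of_le_normalizer L
      (Subgroup.centralizer (T : Set G)) (hLN.trans hNC) hx
    obtain ⟨k, hk⟩ := scChainStab_pow T W hWp l (by rw [← hLdef]; exact hl)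
    refine ⟨k, ?_⟩
    -- `(l c)^j ∈ l^j C(T)` as `C(T)` is normalized by `l`
    have hlN := (hLN.trans hNC) hl
    have key : ∀ j : ℕ, ∃ c' ∈ Subgroup.centralizer (T : Set G), (l * c) ^ j = l ^ j * c' := by
      intro j
      induction j with
      | zero => exact ⟨1, one_mem _, by simp⟩
      | succ j ih =>
        obtain ⟨c', hc', hj⟩ := ih
        refine ⟨(l⁻¹ * c' * l) * c, mul_mem ?_ hc, ?_⟩
        · have := (Subgroup.mem_normalizer_iff.mp (inv_mem hlN) c').mp hc'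
          rwa [inv_inv] at this
        · rw [pow_succ, hj, pow_succ]; group
    obtain ⟨c', hc', hj⟩ := key (p ^ k)
    rw [hj]; exact mul_mem hk hc'
  -- a Sylow `p`-subgroup `R` of `M` inside `S`
  obtain ⟨R, hRdef⟩ : ∃ R : Subgroup G,
      R = ((S : Subgroup G) ⊓ Subgroup.normalizer (T : Set G)) ⊓ M := ⟨_, rfl⟩
  have hRidx : ¬ p ∣ R.relIndex M := by
    rw [hRdef, Subgroup.inf_relIndex_right]
    intro hdvd
    apply hTfn
    have h1 := relIndex_dvd_relIndex_of_normal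
      ((S : Subgroup G) ⊓ Subgroup.normalizer (T : Set G)) M (Subgroup.normalizer (T : Set G))
      hMN hNM
    exact dvd_trans hdvd h1
  have hMle : M ≤ R ⊔ Subgroup.centralizer (T : Set G) :=
    le_sup_of_pQuotient M (Subgroup.centralizer (T : Set G)) R (by rw [hMdef]; exact le_sup_right)
      (hMN.trans hNC) hMpow hRidx
  have hRM : R ≤ M := by rw [hRdef]; exact inf_le_right
  have hRCM : R ⊔ Subgroup.centralizer (T : Set G) = M :=
    le_antisymm (sup_le hRM (by rw [hMdef]; exact le_sup_right)) hMle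
  have hRT : R ≤ T := by
    apply hrad R (by rw [hRdef]; exact inf_le_left)
    rw [hRCM]; exact hNM
  -- `N_E(T) ≤ T`
  have hE₁ : ∀ e ∈ E, e ∈ Subgroup.normalizer (T : Set G) → e ∈ T := by
    intro e he heN
    apply hRT
    rw [hRdef]
    refine ⟨⟨hES he, heN⟩, ?_⟩
    rw [hMdef]
    apply Subgroup.mem_sup_left
    rw [hLdef, mem_scChainStab]
    have heC : e ∈ Subgroup.centralizer (W : Set G) := by
      rw [hEdef] at he; exact (Subgroup.mem_inf.mp he).2
    refine ⟨heN, fun w hw => ?_, fun t ht => ?_⟩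
    · have := Subgroup.mem_centralizer_iff.mp heC w hw
      calc e * w * e⁻¹ = (w * e) * e⁻¹ := by rw [this]
        _ = w := by group
    · rw [hWdef]
      refine Subgroup.mem_inf.mpr
        ⟨mul_mem ((Subgroup.mem_normalizer_iff.mp heN t).mp ht) (inv_mem ht), ?_⟩
      have h1 : t * e⁻¹ * t⁻¹ ∈ D :=
        hD.2 e⁻¹ (inv_mem (hED he)) t (mul_mem (mul_mem (hTS ht) (inv_mem (hES he)))
          (inv_mem (hTS ht)))
      have h2 : e * t * e⁻¹ * t⁻¹ = e * (t * e⁻¹ * t⁻¹) := by group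
      rw [h2]; exact mul_mem (hED he) h1
  -- `E ≤ T`
  have hTE : T ≤ Subgroup.normalizer (E : Set G) := by
    have key : ∀ t ∈ T, ∀ e ∈ E, t * e * t⁻¹ ∈ E := by
      intro t ht e he
      rw [hEdef] at he ⊢
      have he := Subgroup.mem_inf.mp he
      refine Subgroup.mem_inf.mpr
        ⟨hD.2 e he.1 t (mul_mem (mul_mem (hTS ht) (hD.1 he.1)) (inv_mem (hTS ht))), ?_⟩
      rw [Subgroup.mem_centralizer_iff]
      intro w hw
      have hw' : t⁻¹ * w * t ∈ W := by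
        have := (Subgroup.mem_normalizer_iff.mp (hNW (Subgroup.le_normalizer (inv_mem ht))) w).mp hw
        rwa [inv_inv] at this
      have h1 := Subgroup.mem_centralizer_iff.mp he.2 _ hw'
      calc w * (t * e * t⁻¹) = t * ((t⁻¹ * w * t) * e) * t⁻¹ := by group
        _ = t * (e * (t⁻¹ * w * t)) * t⁻¹ := by rw [h1]
        _ = t * e * t⁻¹ * w := by group
    intro t ht
    rw [Subgroup.mem_normalizer_iff]
    intro e
    constructor
    · exact key t ht e
    · intro h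
      have := key t⁻¹ (inv_mem ht) _ h
      have e' : t⁻¹ * (t * e * t⁻¹) * t⁻¹⁻¹ = e := by group
      rwa [e'] at this
  have hET : E ≤ T := by
    by_contra hnot
    have hETp : IsPGroup p ↥(E ⊔ T) := hSp.to_le (sup_le hES hTS)
    have hne : T ≠ E ⊔ T := by
      intro h
      apply hnot
      rw [h]; exact le_sup_left
    obtain ⟨y, hy, hyN, hyT⟩ := exists_mem_normalizer_notMem (E ⊔ T) T hETp le_sup_right hne
    rw [sup_comm] at hy
    obtain ⟨t, ht, e, he, rfl⟩ := exists_mul_of_mem_sup_of_le_normalizer T E hTE hy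
    apply hyT
    have heN : e ∈ Subgroup.normalizer (T : Set G) := by
      have : e = t⁻¹ * (t * e) := by group
      rw [this]
      exact mul_mem (inv_mem (Subgroup.le_normalizer ht)) hyN
    exact mul_mem ht (hE₁ e he heN)
  intro e he
  rw [hWdef]
  exact ⟨hET he, hED he⟩

/-- In a group where the normalizers of the `D`-centric subgroups of the strongly closed subgroup
`D` are `p`-nilpotent, every element of the normalizer of a tight subgroup `T` acts on `T` as an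
element of `S`. -/
theorem tight_step_sylow {G : Type*} [Group G] [Finite G] {p : ℕ} [Fact p.Prime] (S : Sylow p G)
    (D : Subgroup G) (hD : Cfsg.IsStronglyClosed D (S : Subgroup G))
    (h : ∀ U : Subgroup G, U ≤ D → D ⊓ Subgroup.centralizer (U : Set G) ≤ U →
      Cfsg.HasNormalPComplement p ↥(Subgroup.normalizer (U : Set G)))
    (T : Subgroup G) (hT : T ∈ tightFamily S) (x : G) (hx : x ∈ Subgroup.normalizer (T : Set G)) :
    ∃ s ∈ (S : Subgroup G), ∀ t ∈ T, s⁻¹ * t * s = x⁻¹ * t * x := by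
  obtain ⟨hNW, hcent⟩ := tight_inf_centric S D hD T hT
  obtain ⟨⟨hTS, hTfn⟩, -⟩ := hT
  have hTp : IsPGroup p ↥T := S.isPGroup'.to_le hTS
  obtain ⟨N, hNdef⟩ : ∃ N : Subgroup G, N = Subgroup.normalizer (T : Set G) := ⟨_, rfl⟩
  have hnpc : Cfsg.HasNormalPComplement p ↥N := by
    rw [hNdef]
    exact npc_of_le hNW (h (T ⊓ D) inf_le_right hcent)
  obtain ⟨M, hMn, hcop, hpow, -⟩ := npc_exists hnpc
  rw [← hNdef] at hTfn hx
  have hTN : T ≤ N := by rw [hNdef]; exact Subgroup.le_normalizer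
  -- `M` centralizes `T`
  have hMT : ∀ m ∈ M, ∀ t ∈ T, (m : G) * t = t * (m : G) := by
    intro m hm t ht
    have h1 : (⟨t, hTN ht⟩ : ↥N) * m⁻¹ * (⟨t, hTN ht⟩ : ↥N)⁻¹ ∈ M := hMn.conj_mem _ (inv_mem hm) _
    have h2 : m * ((⟨t, hTN ht⟩ : ↥N) * m⁻¹ * (⟨t, hTN ht⟩ : ↥N)⁻¹) ∈ M := mul_mem hm h1
    have h3 : (m : G) * t * (m : G)⁻¹ ∈ T := by
      have hmN : (m : G) ∈ Subgroup.normalizer (T : Set G) := by rw [← hNdef]; exact m.2
      exact (Subgroup.mem_normalizer_iff.mp hmN t).mp ht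
    have h4 : (m : G) * t * (m : G)⁻¹ * t⁻¹ ∈ T := mul_mem h3 (inv_mem ht)
    obtain ⟨k, hk⟩ := hTp ⟨_, h4⟩
    have hk' : ((m : G) * t * (m : G)⁻¹ * t⁻¹) ^ p ^ k = 1 := congrArg Subtype.val hk
    have hval : ((m * ((⟨t, hTN ht⟩ : ↥N) * m⁻¹ * (⟨t, hTN ht⟩ : ↥N)⁻¹) : ↥N) : G) =
        (m : G) * t * (m : G)⁻¹ * t⁻¹ := by
      show (m : G) * (t * (m : G)⁻¹ * t⁻¹) = _
      group
    have hk'' : (m * ((⟨t, hTN ht⟩ : ↥N) * m⁻¹ * (⟨t, hTN ht⟩ : ↥N)⁻¹)) ^ p ^ k = 1 := by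
      apply Subtype.ext
      rw [Subgroup.coe_pow, hval]; exact hk'
    have h5 := Cfsg.Agent.Lib.Helper2.eq_one_of_mem_of_pow_prime_pow p _ hcop _ h2 k hk''
    have h6 : (m : G) * t * (m : G)⁻¹ * t⁻¹ = 1 := by
      rw [← hval]; exact congrArg Subtype.val h5
    calc (m : G) * t = ((m : G) * t * (m : G)⁻¹ * t⁻¹) * (t * (m : G)) := by group
      _ = t * (m : G) := by rw [h6, one_mul]
  -- `N = R M`
  have hR'idx : ¬ p ∣ (((S : Subgroup G) ⊓ N).subgroupOf N).relIndex ⊤ := by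
    rw [Subgroup.relIndex_top_right]
    exact hTfn
  have hsup : (⊤ : Subgroup ↥N) ≤ ((S : Subgroup G) ⊓ N).subgroupOf N ⊔ M :=
    le_sup_of_pQuotient ⊤ M (((S : Subgroup G) ⊓ N).subgroupOf N) le_top
      (by rw [Subgroup.normalizer_eq_top M]) (fun y _ => hpow y) hR'idx
  have hxs : (⟨x, hx⟩ : ↥N) ∈ ((S : Subgroup G) ⊓ N).subgroupOf N ⊔ M := hsup (Subgroup.mem_top _)
  obtain ⟨r, hr, m, hm, hrm⟩ := exists_mul_of_mem_sup_of_le_normalizer
    (((S : Subgroup G) ⊓ N).subgroupOf N) M (by rw [Subgroup.normalizer_eq_top M]; exact le_top) hxs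
  have hrS : (r : G) ∈ (S : Subgroup G) := (Subgroup.mem_subgroupOf.mp hr).1
  have hxG : x = (r : G) * (m : G) := congrArg Subtype.val hrm
  refine ⟨(r : G), hrS, fun t ht => ?_⟩
  have hrN : (r : G) ∈ Subgroup.normalizer (T : Set G) := by rw [← hNdef]; exact r.2
  have ht' : (r : G)⁻¹ * t * (r : G) ∈ T := by
    have := (Subgroup.mem_normalizer_iff.mp (inv_mem hrN) t).mp ht
    rwa [inv_inv] at this
  have h7 := hMT m hm _ ht'
  calc (r : G)⁻¹ * t * (r : G) = (m : G)⁻¹ * ((m : G) * ((r : G)⁻¹ * t * (r : G))) := by group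
    _ = (m : G)⁻¹ * (((r : G)⁻¹ * t * (r : G)) * (m : G)) := by rw [h7]
    _ = x⁻¹ * t * x := by rw [hxG]; group

/-- Under the hypothesis of `tight_step_sylow`, `S` controls strong fusion in itself. -/
theorem sylow_controls_of_sc {G : Type*} [Group G] [Finite G] {p : ℕ} [Fact p.Prime] (S : Sylow p G)
    (D : Subgroup G) (hD : Cfsg.IsStronglyClosed D (S : Subgroup G))
    (h : ∀ U : Subgroup G, U ≤ D → D ⊓ Subgroup.centralizer (U : Set G) ≤ U →
      Cfsg.HasNormalPComplement p ↥(Subgroup.normalizer (U : Set G)))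
    (A : Set G) (g : G) (hA : A ⊆ ((S : Subgroup G) : Set G))
    (hAg : rcj g A ⊆ ((S : Subgroup G) : Set G)) :
    ∃ s ∈ (S : Subgroup G), ∀ a ∈ A, s⁻¹ * a * s = g⁻¹ * a * g := by
  obtain ⟨g', hg', hag⟩ := goodF_tight S A g hA hAg
  have key : ∀ (B : Set G) (y : G), FusGood (tightFamily S) B y →
      ∃ s ∈ (S : Subgroup G), ∀ a ∈ B, s⁻¹ * a * s = y⁻¹ * a * y := by
    intro B y hy
    induction hy with
    | nil B => exact ⟨1, one_mem _, fun a _ => rfl⟩
    | cons B T x y hT hx hBT _ ih =>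
      obtain ⟨s₂, hs₂, h2⟩ := ih
      obtain ⟨s₁, hs₁, h1⟩ := tight_step_sylow S D hD h T hT x hx
      refine ⟨s₁ * s₂, mul_mem hs₁ hs₂, fun a ha => ?_⟩
      have h3 := h1 a (hBT ha)
      have h4 := h2 (x⁻¹ * a * x) ⟨a, ha, rfl⟩
      calc (s₁ * s₂)⁻¹ * a * (s₁ * s₂) = s₂⁻¹ * (s₁⁻¹ * a * s₁) * s₂ := by group
        _ = s₂⁻¹ * (x⁻¹ * a * x) * s₂ := by rw [h3]
        _ = y⁻¹ * (x⁻¹ * a * x) * y := h4
        _ = (x * y)⁻¹ * a * (x * y) := by group
  obtain ⟨s, hs, hsa⟩ := key A g' hg'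
  exact ⟨s, hs, fun a ha => (hsa a ha).trans (hag a ha)⟩

/-- The criterion. -/
theorem npc_of_sc_centric {G : Type u} [Group G] [Finite G] {p : ℕ} [Fact p.Prime] (S : Sylow p G)
    (D : Subgroup G) (hD : Cfsg.IsStronglyClosed D (S : Subgroup G))
    (h : ∀ U : Subgroup G, U ≤ D → D ⊓ Subgroup.centralizer (U : Set G) ≤ U →
      Cfsg.HasNormalPComplement p ↥(Subgroup.normalizer (U : Set G))) :
    Cfsg.HasNormalPComplement p G := by
  have hF : ∀ Q : Subgroup G, Q ≤ (S : Subgroup G) → ∀ g ∈ Subgroup.normalizer (Q : Set G),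
      Nat.Coprime (orderOf g) p → g ∈ Subgroup.centralizer (Q : Set G) := by
    intro Q hQS g hgN hgcop
    have hgi : ∀ a ∈ Q, g⁻¹ * a * g ∈ Q := by
      intro a ha
      have := (Subgroup.mem_normalizer_iff.mp (inv_mem hgN) a).mp ha
      rwa [inv_inv] at this
    obtain ⟨s, hs, hsa⟩ := sylow_controls_of_sc S D hD h (Q : Set G) g hQS (by
      rintro _ ⟨a, ha, rfl⟩
      exact hQS (hgi a ha))
    obtain ⟨k, hk⟩ := S.isPGroup' ⟨s, hs⟩
    have hk' : s ^ p ^ k = 1 := congrArg Subtype.val hk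
    have key : ∀ j : ℕ, ∀ a ∈ Q, (g ^ j)⁻¹ * a * g ^ j = (s ^ j)⁻¹ * a * s ^ j := by
      intro j
      induction j with
      | zero => intro a _; simp
      | succ j ih =>
        intro a ha
        have h1 := ih (g⁻¹ * a * g) (hgi a ha)
        calc (g ^ (j + 1))⁻¹ * a * g ^ (j + 1) = (g ^ j)⁻¹ * (g⁻¹ * a * g) * g ^ j := by
              rw [pow_succ']; group
          _ = (s ^ j)⁻¹ * (g⁻¹ * a * g) * s ^ j := h1
          _ = (s ^ j)⁻¹ * (s⁻¹ * a * s) * s ^ j := by rw [hsa a ha]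
          _ = (s ^ (j + 1))⁻¹ * a * s ^ (j + 1) := by rw [pow_succ']; group
    have h2 : g ^ p ^ k ∈ Subgroup.centralizer (Q : Set G) := by
      rw [Subgroup.mem_centralizer_iff]
      intro a ha
      have h3 := key (p ^ k) a ha
      rw [hk', inv_one, one_mul, mul_one] at h3
      calc a * g ^ p ^ k = g ^ p ^ k * ((g ^ p ^ k)⁻¹ * a * g ^ p ^ k) := by group
        _ = g ^ p ^ k * a := by rw [h3]
    exact mem_of_pow_prime_pow_mem _ g hgcop k h2
  obtain ⟨N, hNn, hNc⟩ := (Cfsg.Agent.Lib.Lead.frobenius_pnilpotent S).mpr hF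
  exact ⟨S, N, hNn, hNc⟩

end Cfsg.Agent.Lib.Helper3
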