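import Mathlib
import Cfsg.Agent.Lib.Helper3.Goldschmidt

set_option maxHeartbeats 1000000

namespace Cfsg.Agent.Lib.Helper3

/-- Elements in the closure of the odd-order elements act as even permutations. -/
theorem sign_toPerm_eq_one_of_mem_closure {G : Type*} [Group G] {Ω : Type*} [MulAction G Ω]
    [Fintype Ω] [DecidableEq Ω] (g : G)
    (hg : g ∈ Subgroup.closure {h : G | Nat.Coprime (orderOf h) 2}) :
    Equiv.Perm.sign (MulAction.toPerm g : Equiv.Perm Ω) = 1 := by
  let φ : G →* ℤˣ := Equiv.Perm.sign.comp (MulAction.toPermHom G Ω)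
  have hle : Subgroup.closure {h : G | Nat.Coprime (orderOf h) 2} ≤ φ.ker := by
    rw [Subgroup.closure_le]
    intro h hh
    rw [SetLike.mem_coe, MonoidHom.mem_ker]
    have h1 : φ h ^ orderOf h = 1 := by rw [← map_pow, pow_orderOf_eq_one, map_one]
    have h2 : φ h ^ 2 = 1 := by rw [pow_two]; exact Int.units_mul_self _
    have h3 : orderOf (φ h) ∣ Nat.gcd (orderOf h) 2 :=
      Nat.dvd_gcd (orderOf_dvd_of_pow_eq_one h1) (orderOf_dvd_of_pow_eq_one h2)
    have hh' : Nat.gcd (orderOf h) 2 = 1 := hh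
    rw [hh', Nat.dvd_one] at h3
    exact orderOf_eq_one_iff.mp h3
  exact hle hg

/-- A permutation all of whose cycles have length `2^(a+1)`, with an odd number of cycles, is odd. -/
theorem sign_eq_neg_one_of_uniform {Ω : Type*} [Fintype Ω] [DecidableEq Ω] (σ : Equiv.Perm Ω)
    (a m : ℕ) (hσ : σ ^ (2 ^ (a + 1)) = 1) (hfix : ∀ x, (σ ^ (2 ^ a)) x ≠ x)
    (hcard : Fintype.card Ω = 2 ^ (a + 1) * m) (hm : Odd m) : Equiv.Perm.sign σ = -1 := by
  have hall : ∀ n ∈ σ.cycleType, n = 2 ^ (a + 1) := by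
    intro n hn
    have h1 : n ∣ 2 ^ (a + 1) :=
      (Equiv.Perm.dvd_of_mem_cycleType hn).trans (orderOf_dvd_of_pow_eq_one hσ)
    obtain ⟨b, hb, rfl⟩ := (Nat.dvd_prime_pow Nat.prime_two).mp h1
    by_contra hne
    have hb' : b ≤ a := by
      rcases Nat.lt_or_ge a b with h | h
      · exfalso; apply hne
        have : b = a + 1 := by omega
        rw [this]
      · exact h
    obtain ⟨c, τ, hστ, hd, hc, hcard'⟩ := Equiv.Perm.mem_cycleType_iff.mp hn
    obtain ⟨x, hx⟩ := hc.nonempty_support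
    apply hfix x
    rw [hστ, hd.commute.mul_pow]
    have hc1 : c ^ (2 ^ a) = 1 := by
      have hord : orderOf c = 2 ^ b := by rw [hc.orderOf, hcard']
      have h2 : (2 : ℕ) ^ a = 2 ^ b * 2 ^ (a - b) := by
        rw [← pow_add]; congr 1; omega
      rw [h2, pow_mul, ← hord, pow_orderOf_eq_one, one_pow]
    rw [hc1, one_mul]
    have hτx : τ x = x := by
      rcases hd x with h | h
      · exact absurd h (Equiv.Perm.mem_support.mp hx)
      · exact h
    exact Equiv.Perm.pow_apply_eq_self_of_apply_eq_self hτx _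
  have hsupp : σ.support = Finset.univ := by
    ext x
    simp only [Equiv.Perm.mem_support, Finset.mem_univ, iff_true]
    intro hx
    exact hfix x (Equiv.Perm.pow_apply_eq_self_of_apply_eq_self hx _)
  have hsum : σ.cycleType.sum = 2 ^ (a + 1) * m := by
    rw [Equiv.Perm.sum_cycleType, hsupp, Finset.card_univ, hcard]
  have hrep : σ.cycleType = Multiset.replicate (Multiset.card σ.cycleType) (2 ^ (a + 1)) :=
    Multiset.eq_replicate_card.mpr hall
  have hcardm : Multiset.card σ.cycleType = m := by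
    have h1 : (Multiset.replicate (Multiset.card σ.cycleType) (2 ^ (a + 1))).sum =
        2 ^ (a + 1) * m := by rw [← hrep]; exact hsum
    rw [Multiset.sum_replicate, smul_eq_mul, mul_comm] at h1
    exact Nat.eq_of_mul_eq_mul_left (by positivity) h1
  rw [Equiv.Perm.sign_of_cycleType, hsum, hcardm]
  have hodd : Odd (2 ^ (a + 1) * m + m) := by
    have h1 : Even (2 ^ (a + 1) * m) := by
      apply Even.mul_right
      exact (Nat.even_pow.mpr ⟨even_two, by omega⟩)
    exact h1.add_odd hm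
  exact hodd.neg_one_pow

theorem smul_coset_eq_iff {G : Type*} [Group G] (H : Subgroup G) (g k : G) :
    g • (k : G ⧸ H) = (k : G ⧸ H) ↔ k⁻¹ * g * k ∈ H := by
  have h1 : g • (k : G ⧸ H) = ((g * k : G) : G ⧸ H) := rfl
  rw [h1, QuotientGroup.eq]
  constructor
  · intro h
    have := H.inv_mem h
    have e : ((g * k)⁻¹ * k)⁻¹ = k⁻¹ * g * k := by group
    rwa [e] at this
  · intro h
    have := H.inv_mem h
    have e : (k⁻¹ * g * k)⁻¹ = (g * k)⁻¹ * k := by group
    rwa [e] at this

/-- If `w ^ 2^(a+1) = 1`, no conjugate of `w ^ 2^a` lies in `H`, and `|G : H| = 2^(a+1) m` with `m`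
odd, then `w` is not a product of elements of odd order. -/
theorem not_mem_closure_of_uniform {G : Type*} [Group G] [Finite G] (H : Subgroup G) (w : G)
    (a m : ℕ) (hw : w ^ (2 ^ (a + 1)) = 1) (hfree : ∀ k : G, k⁻¹ * w ^ (2 ^ a) * k ∉ H)
    (hidx : H.index = 2 ^ (a + 1) * m) (hm : Odd m) :
    w ∉ Subgroup.closure {h : G | Nat.Coprime (orderOf h) 2} := by
  classical
  have := Fintype.ofFinite (G ⧸ H)
  intro hmem
  have h1 := sign_toPerm_eq_one_of_mem_closure (Ω := G ⧸ H) w hmem
  have h2 : Equiv.Perm.sign (MulAction.toPerm w : Equiv.Perm (G ⧸ H)) = -1 := by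
    apply sign_eq_neg_one_of_uniform _ a m
    · rw [← MulAction.toPermHom_apply, ← map_pow, hw, map_one]
    · intro q
      obtain ⟨k, rfl⟩ := QuotientGroup.mk_surjective q
      rw [← MulAction.toPermHom_apply, ← map_pow, MulAction.toPermHom_apply,
        MulAction.toPerm_apply]
      intro h
      exact hfree k ((smul_coset_eq_iff H _ k).mp h)
    · rw [← Nat.card_eq_fintype_card, ← Subgroup.index_eq_card, hidx]
    · exact hm
  rw [h1] at h2
  exact absurd h2 (by decide)

theorem closure_coprime_subtype_eq_top {G : Type*} [Group G] (p : ℕ) :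
    Subgroup.closure {h : ↥(Subgroup.closure {g : G | Nat.Coprime (orderOf g) p}) |
      Nat.Coprime (orderOf h) p} = ⊤ := by
  have h := Subgroup.closure_closure_coe_preimage (k := {g : G | Nat.Coprime (orderOf g) p})
  convert h using 2
  ext x
  simp

/-- A factorization `P = T (P ∩ D)` with `T ∩ D = 1`. -/
theorem card_eq_mul_card_inf {G : Type*} [Group G] [Finite G] (T D P : Subgroup G) (hTP : T ≤ P)
    (hDT : D ⊓ T = ⊥) (hprod : ∀ s ∈ P, ∃ t ∈ T, ∃ d ∈ D, s = t * d) :
    Nat.card P = Nat.card T * Nat.card (P ⊓ D : Subgroup G) := by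
  let φ : ↥T × ↥(P ⊓ D : Subgroup G) → ↥P := fun q =>
    ⟨(q.1 : G) * (q.2 : G), P.mul_mem (hTP q.1.2) (Subgroup.mem_inf.mp q.2.2).1⟩
  have hinj : Function.Injective φ := by
    rintro ⟨t, d⟩ ⟨t', d'⟩ h
    have h1 : (t : G) * (d : G) = (t' : G) * (d' : G) := congrArg Subtype.val h
    have h2 : (t' : G)⁻¹ * (t : G) = (d' : G) * (d : G)⁻¹ := by
      calc (t' : G)⁻¹ * (t : G) = (t' : G)⁻¹ * ((t : G) * (d : G)) * (d : G)⁻¹ := by group
        _ = (t' : G)⁻¹ * ((t' : G) * (d' : G)) * (d : G)⁻¹ := by rw [h1]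
        _ = (d' : G) * (d : G)⁻¹ := by group
    have h3 : (t' : G)⁻¹ * (t : G) ∈ D ⊓ T := by
      refine Subgroup.mem_inf.mpr ⟨?_, T.mul_mem (T.inv_mem t'.2) t.2⟩
      rw [h2]
      exact D.mul_mem (Subgroup.mem_inf.mp d'.2).2 (D.inv_mem (Subgroup.mem_inf.mp d.2).2)
    rw [hDT, Subgroup.mem_bot] at h3
    have h4 : (t : G) = (t' : G) := by
      calc (t : G) = (t' : G) * ((t' : G)⁻¹ * (t : G)) := by group
        _ = (t' : G) := by rw [h3, mul_one]
    have h5 : (d : G) = (d' : G) := by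
      rw [h4] at h1
      exact mul_left_cancel h1
    exact Prod.ext (Subtype.ext h4) (Subtype.ext h5)
  have hsurj : Function.Surjective φ := by
    rintro ⟨s, hs⟩
    obtain ⟨t, ht, d, hd, rfl⟩ := hprod s hs
    have hdP : d ∈ P := by
      have := P.mul_mem (P.inv_mem (hTP ht)) hs
      simpa using this
    exact ⟨(⟨t, ht⟩, ⟨d, Subgroup.mem_inf.mpr ⟨hdP, hd⟩⟩), rfl⟩
  rw [← Nat.card_prod]
  exact (Nat.card_congr (Equiv.ofBijective φ ⟨hinj, hsurj⟩)).symm

/-- If `T ∩ D = 1`, `T, D ≤ S` and `|T| |D| = |S|` then `S = T D`. -/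
theorem exists_mul_of_inf_bot_card {G : Type*} [Group G] [Finite G] (T D S : Subgroup G)
    (hTS : T ≤ S) (hDS : D ≤ S) (hDT : D ⊓ T = ⊥)
    (hc : Nat.card T * Nat.card D = Nat.card S) :
    ∀ s ∈ S, ∃ t ∈ T, ∃ d ∈ D, s = t * d := by
  let φ : ↥T × ↥D → ↥S := fun q => ⟨(q.1 : G) * (q.2 : G), S.mul_mem (hTS q.1.2) (hDS q.2.2)⟩
  have hinj : Function.Injective φ := by
    rintro ⟨t, d⟩ ⟨t', d'⟩ h
    have h1 : (t : G) * (d : G) = (t' : G) * (d' : G) := congrArg Subtype.val h
    have h2 : (t' : G)⁻¹ * (t : G) = (d' : G) * (d : G)⁻¹ := by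
      calc (t' : G)⁻¹ * (t : G) = (t' : G)⁻¹ * ((t : G) * (d : G)) * (d : G)⁻¹ := by group
        _ = (t' : G)⁻¹ * ((t' : G) * (d' : G)) * (d : G)⁻¹ := by rw [h1]
        _ = (d' : G) * (d : G)⁻¹ := by group
    have h3 : (t' : G)⁻¹ * (t : G) ∈ D ⊓ T := by
      refine Subgroup.mem_inf.mpr ⟨?_, T.mul_mem (T.inv_mem t'.2) t.2⟩
      rw [h2]
      exact D.mul_mem d'.2 (D.inv_mem d.2)
    rw [hDT, Subgroup.mem_bot] at h3
    have h4 : (t : G) = (t' : G) := by
      calc (t : G) = (t' : G) * ((t' : G)⁻¹ * (t : G)) := by group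
        _ = (t' : G) := by rw [h3, mul_one]
    have h5 : (d : G) = (d' : G) := by
      rw [h4] at h1
      exact mul_left_cancel h1
    exact Prod.ext (Subtype.ext h4) (Subtype.ext h5)
  have hbij : Function.Bijective φ :=
    hinj.bijective_of_nat_card_le (by rw [Nat.card_prod, hc])
  intro s hs
  obtain ⟨⟨t, d⟩, hq⟩ := hbij.2 ⟨s, hs⟩
  exact ⟨t, t.2, d, d.2, (congrArg Subtype.val hq).symm⟩

theorem closure_coprime_subtype_eq_top' {G : Type*} [Group G] (p : ℕ) (K : Subgroup G)
    (hK : K = Subgroup.closure {g : G | Nat.Coprime (orderOf g) p}) :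
    Subgroup.closure {h : ↥K | Nat.Coprime (orderOf h) p} = ⊤ := by
  subst hK
  exact closure_coprime_subtype_eq_top p

/-- In a dihedral group of order at least 4, the elements outside a cyclic subgroup of index 2 are
involutions. -/
theorem orderOf_eq_two_of_not_mem_cyclic {G : Type*} [Group G] (D C : Subgroup G)
    (n : ℕ) (hn : 2 ≤ n) (e : ↥D ≃* DihedralGroup n) (hCD : C ≤ D) (hC : IsCyclic ↥C)
    (hCi : C.relIndex D = 2) (x : G) (hxD : x ∈ D) (hxC : x ∉ C) : orderOf x = 2 := by
  have hne : NeZero n := ⟨by omega⟩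
  have hp2 : Fact (Nat.Prime 2) := ⟨Nat.prime_two⟩
  have hcardD : Nat.card D = 2 * n := by rw [Nat.card_congr e.toEquiv, DihedralGroup.nat_card]
  have hcardC : Nat.card C = n := by
    have := card_mul_relIndex' C D hCD
    rw [hCi, hcardD] at this; omega
  have hox : orderOf x = orderOf (e ⟨x, hxD⟩) := by
    rw [MulEquiv.orderOf_eq, Subgroup.orderOf_mk]
  rw [hox]
  rcases hy : e ⟨x, hxD⟩ with i | i
  · rcases Nat.lt_or_ge 2 n with h3 | h3
    · exfalso
      obtain ⟨g, hg⟩ := IsCyclic.exists_generator (α := ↥C)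
      have hog : orderOf g = n := by rw [orderOf_eq_card_of_forall_mem_zpowers hg, hcardC]
      obtain ⟨g', hg'⟩ : ∃ g' : DihedralGroup n, g' = e ⟨(g : G), hCD g.2⟩ := ⟨_, rfl⟩
      have hog' : orderOf g' = n := by
        rw [hg', MulEquiv.orderOf_eq, Subgroup.orderOf_mk, Subgroup.orderOf_coe, hog]
      rcases g' with j | j
      · have h1 : Subgroup.zpowers (DihedralGroup.r j : DihedralGroup n) =
            Subgroup.zpowers (DihedralGroup.r 1) := by
          apply Subgroup.eq_of_le_of_card_ge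
          · rw [Subgroup.zpowers_le, Subgroup.mem_zpowers_iff]
            refine ⟨(j.val : ℤ), ?_⟩
            rw [zpow_natCast, DihedralGroup.r_one_pow, ZMod.natCast_zmod_val]
          · rw [Nat.card_zpowers, Nat.card_zpowers, DihedralGroup.orderOf_r_one, hog']
        have h2 : (DihedralGroup.r i : DihedralGroup n) ∈
            Subgroup.zpowers (DihedralGroup.r j) := by
          rw [h1, Subgroup.mem_zpowers_iff]
          refine ⟨(i.val : ℤ), ?_⟩
          rw [zpow_natCast, DihedralGroup.r_one_pow, ZMod.natCast_zmod_val]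
        obtain ⟨k, hk⟩ := Subgroup.mem_zpowers_iff.mp h2
        have h3' : e ⟨x, hxD⟩ = e (⟨(g : G), hCD g.2⟩ ^ k) := by
          rw [map_zpow, ← hg', hk, hy]
        have h4 := e.injective h3'
        apply hxC
        have h5 : x = (g : G) ^ k := by
          have := congrArg Subtype.val h4
          simpa using this
        rw [h5]
        exact C.zpow_mem g.2 k
      · rw [DihedralGroup.orderOf_sr] at hog'
        omega
    · have hn2 : n = 2 := by omega
      subst hn2
      have hsq : (DihedralGroup.r i : DihedralGroup 2) ^ 2 = 1 := by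
        rw [pow_two, DihedralGroup.r_mul_r, CharTwo.add_self_eq_zero]; rfl
      have hne1 : (DihedralGroup.r i : DihedralGroup 2) ≠ 1 := by
        intro h
        apply hxC
        have h6 : (⟨x, hxD⟩ : ↥D) = 1 := by
          apply e.injective; rw [hy, h, map_one]
        have hx1 : x = 1 := by simpa using congrArg Subtype.val h6
        rw [hx1]; exact C.one_mem
      exact orderOf_eq_prime hsq hne1
  · rw [DihedralGroup.orderOf_sr]

end Cfsg.Agent.Lib.Helper3
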