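import Mathlib
import Cfsg.Prelude.Def_ConjugacyFunctors
import Cfsg.Agent.Lib.Helper3.TransferRed
import Cfsg.Agent.Lib.Helper3.CtrlFamilyFusion
import Cfsg.Agent.Lib.Helper3.PSolvAct

/-! Reduction of control of strong fusion by a family of characteristic `p`-functors to
constrained sections. -/

set_option autoImplicit false

namespace Cfsg.Agent.Lib.Helper3

open Cfsg
open Cfsg.Agent.Lib.Helper4

universe u

theorem rcj_image {G H : Type*} [Group G] [Group H] (f : G →* H) (x : G) (A : Set G) :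
    f '' (rcj x A) = rcj (f x) (f '' A) := by
  ext y
  constructor
  · rintro ⟨_, ⟨a, ha, rfl⟩, rfl⟩
    exact ⟨f a, ⟨a, ha, rfl⟩, by simp⟩
  · rintro ⟨_, ⟨a, ha, rfl⟩, rfl⟩
    exact ⟨x⁻¹ * a * x, ⟨a, ha, rfl⟩, by simp⟩

theorem RChain.map {G H : Type*} [Group G] [Group H] (f : G →* H) {M T A : Set G} {g : G}
    {M' T' : Set H} (hM : ∀ x ∈ M, f x ∈ M') (hT : ∀ x ∈ T, f x ∈ T') (h : RChain M T A g) :
    RChain M' T' (f '' A) (f g) := by
  induction h with
  | nil A hA =>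
    rw [map_one]
    exact RChain.nil _ (by rintro _ ⟨a, ha, rfl⟩; exact hT a (hA ha))
  | cons A x g hx hA _ ih =>
    rw [map_mul]
    refine RChain.cons _ (f x) (f g) (hM x hx) (by rintro _ ⟨a, ha, rfl⟩; exact hT a (hA ha)) ?_
    rw [← rcj_image]; exact ih

theorem RChain.mono_left {G : Type*} [Group G] {M M' T A : Set G} {g : G} (hM : M ⊆ M')
    (h : RChain M T A g) : RChain M' T A g := by
  induction h with
  | nil A hA => exact RChain.nil A hA
  | cons A x g hx hA _ ih => exact RChain.cons A x g (hM hx) hA ih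

theorem RChain.mem_of_forall {G : Type*} [Group G] {M T A : Set G} {g : G} (N : Subgroup G)
    (hM : ∀ x ∈ M, x ∈ N) (h : RChain M T A g) : g ∈ N := by
  induction h with
  | nil A hA => exact one_mem N
  | cons A x g hx hA _ ih => exact mul_mem (hM x hx) ih

theorem Good.mono_left {G : Type*} [Group G] {M M' T A : Set G} {g : G} (hM : M ⊆ M')
    (h : Good M T A g) : Good M' T A g := by
  obtain ⟨g', hg', hag⟩ := h
  exact ⟨g', hg'.mono_left hM, hag⟩

theorem Good.subset_right {G : Type*} [Group G] {M T A : Set G} {g : G} (h : Good M T A g) :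
    rcj g A ⊆ T := by
  obtain ⟨g', hg', hag⟩ := h
  rw [← rcj_congr hag]; exact hg'.subset_right

theorem Good.subset_left {G : Type*} [Group G] {M T A : Set G} {g : G} (h : Good M T A g) :
    A ⊆ T := by
  obtain ⟨g', hg', -⟩ := h
  exact hg'.subset_left

theorem Good.refl {G : Type*} [Group G] {M T A : Set G} (hA : A ⊆ T) : Good M T A 1 :=
  ⟨1, RChain.nil A hA, fun _ _ => rfl⟩

theorem Good.single {G : Type*} [Group G] {M T A : Set G} {x : G} (hx : x ∈ M) (hA : A ⊆ T)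
    (hA' : rcj x A ⊆ T) : Good M T A x :=
  ⟨x, RChain.single hx hA hA', fun _ _ => rfl⟩

theorem Good.map {G H : Type*} [Group G] [Group H] (f : G →* H) {M T A : Set G} {g : G}
    {M' T' : Set H} (hM : ∀ x ∈ M, f x ∈ M') (hT : ∀ x ∈ T, f x ∈ T') (h : Good M T A g) :
    Good M' T' (f '' A) (f g) := by
  obtain ⟨g', hg', hag⟩ := h
  refine ⟨f g', hg'.map f hM hT, ?_⟩
  rintro _ ⟨a, ha, rfl⟩
  have := congrArg f (hag a ha)
  simpa using this

/-- The allowed steps for a family of characteristic `p`-functors. -/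
def sStep (𝓦 : Set (∀ (Q : Type u) [Group Q], Subgroup Q)) {Y : Type u} [Group Y]
    (H S : Subgroup Y) : Set Y :=
  {x : Y | ∃ W ∈ 𝓦, x ∈ H ⊓ Subgroup.normalizer ((Cfsg.inducedFunctor W S : Subgroup Y) : Set Y)}

theorem sStep_eq (𝓦 : Set (∀ (Q : Type u) [Group Q], Subgroup Q)) {Y : Type u} [Group Y]
    (H S : Subgroup Y) :
    sStep 𝓦 H S = stepSet ((fun W => Cfsg.inducedFunctor (G := Y) W) '' 𝓦) H S := by
  ext x
  constructor
  · rintro ⟨W, hW, hx⟩
    exact ⟨_, ⟨W, hW, rfl⟩, hx⟩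
  · rintro ⟨_, ⟨W, hW, rfl⟩, hx⟩
    exact ⟨W, hW, hx⟩

theorem sStep_inv (𝓦 : Set (∀ (Q : Type u) [Group Q], Subgroup Q)) {Y : Type u} [Group Y]
    (H S : Subgroup Y) : ∀ x ∈ sStep 𝓦 H S, x⁻¹ ∈ sStep 𝓦 H S := by
  rintro x ⟨W, hW, hx⟩
  exact ⟨W, hW, inv_mem hx⟩

theorem sStep_mono (𝓦 : Set (∀ (Q : Type u) [Group Q], Subgroup Q)) {Y : Type u} [Group Y]
    {H H' : Subgroup Y} (h : H ≤ H') (S : Subgroup Y) : sStep 𝓦 H S ⊆ sStep 𝓦 H' S := by
  rintro x ⟨W, hW, hx⟩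
  exact ⟨W, hW, Subgroup.mem_inf.mpr ⟨h (Subgroup.mem_inf.mp hx).1, (Subgroup.mem_inf.mp hx).2⟩⟩

/-- The family `𝓦` controls strong fusion in `H`, read off at every Sylow `p`-subgroup. -/
def SFIn (p : ℕ) (𝓦 : Set (∀ (Q : Type u) [Group Q], Subgroup Q)) {Y : Type u} [Group Y]
    (H : Subgroup Y) : Prop :=
  ∀ S : Subgroup Y, S ≤ H → IsPGroup p ↥S → ¬ p ∣ S.relIndex H →
    ∀ (A : Set Y) (g : Y), g ∈ H → A ⊆ (S : Set Y) → rcj g A ⊆ (S : Set Y) →
      Good (sStep 𝓦 H S) (S : Set Y) A g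

theorem sfIn_iff_family {p : ℕ} [Fact p.Prime] {𝓦 : Set (∀ (Q : Type u) [Group Q], Subgroup Q)}
    (h𝓦 : ∀ W ∈ 𝓦, Cfsg.IsCharPFunctor.{u} p W) {Y : Type u} [Group Y] [Finite Y]
    (H : Subgroup Y) :
    SFIn p 𝓦 H ↔
      Cfsg.FamilyControlsStrongFusionIn p ((fun W => Cfsg.inducedFunctor (G := Y) W) '' 𝓦) H := by
  have hconj : ∀ W' ∈ (fun W => Cfsg.inducedFunctor (G := Y) W) '' 𝓦,
      Cfsg.IsConjugacyFunctor p W' := by
    rintro _ ⟨W, hW, rfl⟩
    exact isConjugacyFunctor_inducedFunctor (h𝓦 W hW) Y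
  constructor
  · intro h
    obtain ⟨T, hTH, hTp, hTidx⟩ := exists_sylow_relIndex p H
    refine ⟨T, hTH, hTp, hTidx, ?_⟩
    intro A x hx hA hAx
    have h1 := h T hTH hTp hTidx A x⁻¹ (inv_mem hx) hA (by
      rintro _ ⟨a, ha, rfl⟩
      have := hAx ⟨a, ha, rfl⟩
      simpa using this)
    obtain ⟨g', hg', hag⟩ := h1
    rw [sStep_eq] at hg'
    obtain ⟨n, c, hc0, hstep, hT, hlast⟩ := hg'.exists_fin (stepSet_inv _ H T)
    refine ⟨n, c, hc0, hstep, hT, fun a ha => ?_⟩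
    rw [hlast]
    have h2 := hag a ha
    rw [inv_inv] at h2 ⊢
    exact h2
  · intro h S hSH hSp hSidx A g hg hA hAg
    have h1 := familyControlsStrongFusionIn_sylow _ hconj H S hSH hSp hSidx h A g⁻¹ (inv_mem hg)
      hA (by
        rintro _ ⟨a, ha, rfl⟩
        have := hAg ⟨a, ha, rfl⟩
        simpa using this)
    rw [inv_inv, ← sStep_eq] at h1
    exact h1

theorem SFIn.map {p : ℕ} [Fact p.Prime] {𝓦 : Set (∀ (Q : Type u) [Group Q], Subgroup Q)}
    (h𝓦 : ∀ W ∈ 𝓦, Cfsg.IsCharPFunctor.{u} p W) {Y Y' : Type u} [Group Y] [Group Y'] [Finite Y]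
    (f : Y →* Y') (hf : Function.Injective f) (H : Subgroup Y) (h : SFIn p 𝓦 H) :
    SFIn p 𝓦 (H.map f) := by
  intro S' hS'H hS'p hS'idx A' g' hg' hA' hA'g'
  have hS' : (S'.comap f).map f = S' := by
    rw [Subgroup.map_comap_eq]
    exact inf_eq_right.mpr (hS'H.trans (Subgroup.map_le_range f H))
  have hSH : S'.comap f ≤ H := by
    intro x hx
    obtain ⟨h0, hh0, hh0x⟩ := hS'H (Subgroup.mem_comap.mp hx)
    rw [← hf hh0x]; exact hh0
  have hSp : IsPGroup p ↥(S'.comap f) := hS'p.comap_of_injective _ hf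
  have hSidx : ¬ p ∣ (S'.comap f).relIndex H := by
    rw [← Subgroup.relIndex_map_map_of_injective (f := f) _ H hf, hS']
    exact hS'idx
  obtain ⟨g, hg, rfl⟩ := hg'
  have hA : f '' (f ⁻¹' A') = A' := by
    apply Set.image_preimage_eq_of_subset
    intro a ha
    have h1 : a ∈ S' := hA' ha
    rw [← hS'] at h1
    obtain ⟨x, -, rfl⟩ := h1
    exact ⟨x, rfl⟩
  have h1 := h (S'.comap f) hSH hSp hSidx (f ⁻¹' A') g hg (fun a ha => hA' ha) (by
    rintro _ ⟨a, ha, rfl⟩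
    show f (g⁻¹ * a * g) ∈ S'
    have := hA'g' ⟨f a, ha, rfl⟩
    simpa using this)
  have h2 := h1.map f (M' := sStep 𝓦 (H.map f) S') (T' := (S' : Set Y')) ?_ (fun x hx => hx)
  · rw [hA] at h2; exact h2
  · rintro x ⟨W, hW, hx⟩
    refine ⟨W, hW, ?_⟩
    have h3 := map_inf_normalizer f hf H (Cfsg.inducedFunctor W (S'.comap f))
    have h4 := map_inducedFunctor (h𝓦 W hW) f (S'.comap f) hSp
      (fun x _ hx => hf (by rw [hx, map_one]))
    rw [h4, hS'] at h3
    rw [← h3]; exact Subgroup.mem_map_of_mem f hx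

/-- Lifting a chain from the quotient by a normal `p'`-subgroup. -/
theorem lift_chain_pPrime {p : ℕ} [Fact p.Prime] {𝓦 : Set (∀ (Q : Type u) [Group Q], Subgroup Q)}
    (h𝓦 : ∀ W ∈ 𝓦, Cfsg.IsCharPFunctor.{u} p W) {X : Type u} [Group X] [Finite X]
    (K : Subgroup X) [K.Normal] (hK : (Nat.card ↥K).Coprime p) (S : Subgroup X)
    (hSp : IsPGroup p ↥S) (hSidx : ¬ p ∣ S.relIndex ⊤) :
    ∀ (A' : Set (X ⧸ K)) (g' : X ⧸ K),
      RChain (sStep 𝓦 ⊤ (S.map (QuotientGroup.mk' K)))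
        ((S.map (QuotientGroup.mk' K) : Subgroup (X ⧸ K)) : Set (X ⧸ K)) A' g' →
      ∀ A : Set X, A ⊆ (S : Set X) → (QuotientGroup.mk' K) '' A = A' →
        ∃ g : X, (QuotientGroup.mk' K) g = g' ∧ RChain (sStep 𝓦 ⊤ S) (S : Set X) A g := by
  intro A' g' hch
  induction hch with
  | nil A' hA' =>
    intro A hA _
    exact ⟨1, map_one _, RChain.nil A hA⟩
  | cons A' x' g' hx' hA' hrest ih =>
    intro A hA hAA'
    obtain ⟨W, hW, hxW⟩ := hx'
    have hSK : S ⊓ K = ⊥ := disjoint_of_isPGroup_of_coprime S K hSp hK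
    have hinj : ∀ x ∈ S, (QuotientGroup.mk' K) x = 1 → x = 1 := by
      intro x hx hx1
      have h1 : x ∈ K := (QuotientGroup.eq_one_iff x).mp hx1
      have h2 : x ∈ S ⊓ K := Subgroup.mem_inf.mpr ⟨hx, h1⟩
      rw [hSK] at h2
      exact Subgroup.mem_bot.mp h2
    have hWS := map_inducedFunctor (h𝓦 W hW) (QuotientGroup.mk' K) S hSp hinj
    rw [← hWS] at hxW
    have hVp : IsPGroup p ↥(Cfsg.inducedFunctor W S) := hSp.to_le (inducedFunctor_le S)
    obtain ⟨x, hxN, hxx'⟩ := normalizer_map_mk_le K hK (Cfsg.inducedFunctor W S) hVp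
      (Subgroup.mem_inf.mp hxW).2
    obtain ⟨Nw, hNw⟩ : ∃ Nw : Subgroup X,
        Nw = Subgroup.normalizer ((Cfsg.inducedFunctor W S : Subgroup X) : Set X) := ⟨_, rfl⟩
    rw [← hNw] at hxN
    have hSN : S ≤ Nw := by rw [hNw]; exact le_normalizer_inducedFunctor (h𝓦 W hW) S hSp
    obtain ⟨B, hB⟩ : ∃ B : Subgroup X,
        B = (Subgroup.closure A).map (MulAut.conj x⁻¹).toMonoidHom := ⟨_, rfl⟩
    have hclA : Subgroup.closure A ≤ S := (Subgroup.closure_le _).mpr hA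
    have hBp : IsPGroup p ↥B := by rw [hB]; exact (hSp.to_le hclA).map _
    have hrB : rcj x A ⊆ (B : Set X) := by
      rintro _ ⟨a, ha, rfl⟩
      rw [hB]
      exact ⟨a, Subgroup.subset_closure ha, by simp⟩
    have hBle : B ≤ Nw ⊓ (S ⊔ K) := by
      rw [hB, MonoidHom.map_closure]
      apply (Subgroup.closure_le _).mpr
      rintro _ ⟨a, ha, rfl⟩
      have h1 : (MulAut.conj x⁻¹).toMonoidHom a = x⁻¹ * a * x := by simp
      rw [h1]
      refine Subgroup.mem_inf.mpr ⟨mul_mem (mul_mem (inv_mem hxN) (hSN (hA ha))) hxN, ?_⟩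
      have h2 : (QuotientGroup.mk' K) (x⁻¹ * a * x) ∈ S.map (QuotientGroup.mk' K) := by
        apply hrest.subset_left
        rw [← hAA', ← hxx', ← rcj_image]
        exact ⟨_, ⟨a, ha, rfl⟩, rfl⟩
      have h3 : x⁻¹ * a * x ∈ (S.map (QuotientGroup.mk' K)).comap (QuotientGroup.mk' K) := h2
      rw [QuotientGroup.comap_map_mk', sup_comm] at h3
      exact h3
    have hSL : S ≤ Nw ⊓ (S ⊔ K) := le_inf hSN le_sup_left
    have hidx : ¬ p ∣ S.relIndex (Nw ⊓ (S ⊔ K)) := by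
      intro hdiv
      apply hSidx
      rw [← Subgroup.relIndex_mul_relIndex S (Nw ⊓ (S ⊔ K)) ⊤ hSL le_top]
      exact dvd_mul_of_dvd_left hdiv _
    obtain ⟨n, hnL, hn⟩ := exists_conj_mem_of_relIndex S (Nw ⊓ (S ⊔ K)) B hSp hidx hBp hBle
    have hSKn : S ≤ Subgroup.normalizer (K : Set X) := by
      rw [Subgroup.normalizer_eq_top]; exact le_top
    obtain ⟨s, hs, k, hk, hnsk⟩ := exists_mul_of_mem_sup_of_le_normalizer S K hSKn
      (Subgroup.mem_inf.mp hnL).2
    have hkN : k ∈ Nw := by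
      have : k = s⁻¹ * n := by rw [hnsk]; group
      rw [this]; exact mul_mem (inv_mem (hSN hs)) (Subgroup.mem_inf.mp hnL).1
    have hkB : ∀ b ∈ B, k * b * k⁻¹ ∈ S := by
      intro b hb
      have h1 := hn b hb
      have h2 : k * b * k⁻¹ = s⁻¹ * (n * b * n⁻¹) * s := by rw [hnsk]; group
      rw [h2]; exact mul_mem (mul_mem (inv_mem hs) h1) hs
    have hk1 : (QuotientGroup.mk' K) k = 1 := (QuotientGroup.eq_one_iff k).mpr hk
    have hx'mk : (QuotientGroup.mk' K) (x * k⁻¹) = x' := by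
      rw [map_mul, hxx', map_inv, hk1, inv_one, mul_one]
    have hrS : rcj (x * k⁻¹) A ⊆ (S : Set X) := by
      rw [rcj_mul]
      rintro _ ⟨y, hy, rfl⟩
      have := hkB y (hrB hy)
      simpa using this
    obtain ⟨g, hg, hch⟩ := ih (rcj (x * k⁻¹) A) hrS (by rw [rcj_image, hx'mk, hAA'])
    refine ⟨x * k⁻¹ * g, by rw [map_mul, hx'mk, hg], RChain.cons A (x * k⁻¹) g ?_ hA hch⟩
    exact ⟨W, hW, Subgroup.mem_inf.mpr ⟨Subgroup.mem_top _, by
      rw [← hNw]; exact mul_mem hxN (inv_mem hkN)⟩⟩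

/-- Step 1: control of strong fusion lifts from the quotient by a normal `p'`-subgroup. -/
theorem sfIn_top_of_quotient_pPrime {p : ℕ} [Fact p.Prime]
    {𝓦 : Set (∀ (Q : Type u) [Group Q], Subgroup Q)}
    (h𝓦 : ∀ W ∈ 𝓦, Cfsg.IsCharPFunctor.{u} p W) {X : Type u} [Group X] [Finite X]
    (K : Subgroup X) [K.Normal] (hK : (Nat.card ↥K).Coprime p)
    (h : SFIn p 𝓦 (⊤ : Subgroup (X ⧸ K))) : SFIn p 𝓦 (⊤ : Subgroup X) := by
  intro S _ hSp hSidx A g _ hA hAg
  have hπ : Function.Surjective (QuotientGroup.mk' K) := QuotientGroup.mk'_surjective K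
  have hSK : S ⊓ K = ⊥ := disjoint_of_isPGroup_of_coprime S K hSp hK
  have hS'idx : ¬ p ∣ (S.map (QuotientGroup.mk' K)).relIndex ⊤ := by
    rw [Subgroup.relIndex_top_right] at hSidx ⊢
    exact fun hdiv => hSidx (hdiv.trans (Subgroup.index_map_dvd S hπ))
  have h1 := h (S.map (QuotientGroup.mk' K)) le_top (hSp.map _) hS'idx
    ((QuotientGroup.mk' K) '' A) ((QuotientGroup.mk' K) g) (Subgroup.mem_top _)
    (by rintro _ ⟨a, ha, rfl⟩; exact Subgroup.mem_map_of_mem _ (hA ha))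
    (by
      rw [← rcj_image]
      rintro _ ⟨y, hy, rfl⟩
      exact Subgroup.mem_map_of_mem _ (hAg hy))
  obtain ⟨g'', hch, hag⟩ := h1
  obtain ⟨g', hg', hch'⟩ := lift_chain_pPrime h𝓦 K hK S hSp hSidx _ _ hch A hA rfl
  refine ⟨g', hch', fun a ha => ?_⟩
  have h2 := hag _ ⟨a, ha, rfl⟩
  rw [← hg'] at h2
  have h3 : (QuotientGroup.mk' K) (g'⁻¹ * a * g') = (QuotientGroup.mk' K) (g⁻¹ * a * g) := by
    simpa using h2
  have h4 : (g'⁻¹ * a * g')⁻¹ * (g⁻¹ * a * g) ∈ K := QuotientGroup.eq.mp h3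
  have h5 : g'⁻¹ * a * g' ∈ S := hch'.subset_right ⟨a, ha, rfl⟩
  have h6 : g⁻¹ * a * g ∈ S := hAg ⟨a, ha, rfl⟩
  have h7 : (g'⁻¹ * a * g')⁻¹ * (g⁻¹ * a * g) ∈ S ⊓ K :=
    Subgroup.mem_inf.mpr ⟨mul_mem (inv_mem h5) h6, h4⟩
  rw [hSK, Subgroup.mem_bot] at h7
  exact inv_mul_eq_one.mp h7

/-- Case `O_p(X) = 1`: the local-to-global principle. -/
theorem sfIn_top_of_pCore_eq_bot {p : ℕ} [Fact p.Prime]
    {𝓦 : Set (∀ (Q : Type u) [Group Q], Subgroup Q)}
    (h𝓦 : ∀ W ∈ 𝓦, Cfsg.IsCharPFunctor.{u} p W) {X : Type u} [Group X] [Finite X]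
    (hQ : Cfsg.pCore p X = ⊥) (ihH : ∀ H : Subgroup X, H ≠ ⊤ → SFIn p 𝓦 H) :
    SFIn p 𝓦 (⊤ : Subgroup X) := by
  classical
  intro S _ hSp hSidx A g _ hA hAg
  have hidx' : ¬ p ∣ S.index := by rwa [Subgroup.relIndex_top_right] at hSidx
  have hconj : ∀ W' ∈ (fun W => Cfsg.inducedFunctor (G := X) W) '' 𝓦,
      Cfsg.IsConjugacyFunctor p W' := by
    rintro _ ⟨W, hW, rfl⟩
    exact isConjugacyFunctor_inducedFunctor (h𝓦 W hW) X
  have hcoe : ((hSp.toSylow hidx' : Sylow p X) : Subgroup X) = S := IsPGroup.toSylow_coe hSp hidx'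
  have hmain := strong_family_combined (hSp.toSylow hidx') _ hconj ?_ (Nat.card ↥S + 1)
  · rw [hcoe] at hmain
    obtain ⟨-, hO⟩ := hmain
    have hcl : rcj g ((Subgroup.closure A : Subgroup X) : Set X) ⊆ (S : Set X) := by
      rw [rcj_subgroup, MonoidHom.map_closure]
      apply (Subgroup.closure_le _).mpr
      rintro _ ⟨a, ha, rfl⟩
      have := hAg ⟨a, ha, rfl⟩
      simpa [MulAut.conj_apply] using this
    have hgood := (hO (Subgroup.closure A) ((Subgroup.closure_le _).mpr hA) (by omega) g hcl).mono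
      Subgroup.subset_closure
    rw [sStep_eq]; exact hgood
  · intro T hTS hT hfn
    rw [← sfIn_iff_family h𝓦]
    apply ihH
    intro htop
    apply hT
    have hTn : T.Normal := Subgroup.normalizer_eq_top_iff.mp htop
    have hTp : IsPGroup p ↥T := (hSp.toSylow hidx').isPGroup'.to_le hTS
    have := le_pCore hTn hTp
    rw [hQ] at this
    exact le_bot_iff.mp this

/-- Lifting a chain from the quotient by a normal subgroup contained in `S`, when every
lifted step is good. -/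
theorem lift_chain_quot {X : Type*} [Group X] (Q S : Subgroup X) [Q.Normal] (hQS : Q ≤ S)
    (M' : Set (X ⧸ Q)) (M : Set X)
    (hstep : ∀ x : X, (QuotientGroup.mk' Q) x ∈ M' → ∀ A : Set X, A ⊆ (S : Set X) →
      rcj x A ⊆ (S : Set X) → Good M (S : Set X) A x) :
    ∀ (A' : Set (X ⧸ Q)) (g' : X ⧸ Q),
      RChain M' ((S.map (QuotientGroup.mk' Q) : Subgroup (X ⧸ Q)) : Set (X ⧸ Q)) A' g' →
      ∀ A : Set X, A ⊆ (S : Set X) → (QuotientGroup.mk' Q) '' A = A' →
        ∃ g : X, (QuotientGroup.mk' Q) g = g' ∧ Good M (S : Set X) A g := by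
  intro A' g' hch
  induction hch with
  | nil A' hA' =>
    intro A hA _
    exact ⟨1, map_one _, Good.refl hA⟩
  | cons A' x' g' hx' hA' hrest ih =>
    intro A hA hAA'
    obtain ⟨x, rfl⟩ := QuotientGroup.mk'_surjective Q x'
    have hcomapS : (S.map (QuotientGroup.mk' Q)).comap (QuotientGroup.mk' Q) = S := by
      rw [QuotientGroup.comap_map_mk']; exact sup_eq_right.mpr hQS
    have hrS : rcj x A ⊆ (S : Set X) := by
      intro y hy
      have h1 : (QuotientGroup.mk' Q) y ∈ S.map (QuotientGroup.mk' Q) := by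
        apply hrest.subset_left
        rw [← hAA', ← rcj_image]
        exact ⟨y, hy, rfl⟩
      have h2 : y ∈ (S.map (QuotientGroup.mk' Q)).comap (QuotientGroup.mk' Q) := h1
      rw [hcomapS] at h2; exact h2
    obtain ⟨g, hg, hgood⟩ := ih (rcj x A) hrS (by rw [rcj_image, hAA'])
    exact ⟨x * g, by rw [map_mul, hg], Good.trans (hstep x hx' A hA hrS) hgood⟩

/-- If `X = S C_X(Q)`, `Q ≤ B ≤ S` with `B` fully normalized, then every element acting trivially
on `B/Q` acts on `B` like an element of `S`. -/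
theorem exists_sylow_action {X : Type*} [Group X] [Finite X] {p : ℕ} [Fact p.Prime]
    (Q S : Subgroup X) [Q.Normal] (hQp : IsPGroup p ↥Q) (hSp : IsPGroup p ↥S)
    (hCS : S ⊔ Subgroup.centralizer (Q : Set X) = ⊤)
    (B : Subgroup X) (hQB : Q ≤ B)
    (hfn : ¬ p ∣ (S ⊓ Subgroup.normalizer (B : Set X)).relIndex (Subgroup.normalizer (B : Set X)))
    (e : X) (he : ∀ b ∈ B, b⁻¹ * (e⁻¹ * b * e) ∈ Q) :
    ∃ s ∈ S, ∀ b ∈ B, e⁻¹ * b * e = s⁻¹ * b * s := by
  classical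
  have hp : p.Prime := Fact.out
  have hQn : Q.Normal := inferInstance
  -- the subgroup D of elements acting trivially on B/Q
  obtain ⟨D, hD⟩ : ∃ D : Subgroup X, D = (Subgroup.centralizer
      ((B.map (QuotientGroup.mk' Q) : Subgroup (X ⧸ Q)) : Set (X ⧸ Q))).comap (QuotientGroup.mk' Q) :=
    ⟨_, rfl⟩
  have hmemD : ∀ x : X, x ∈ D ↔ ∀ b ∈ B, b⁻¹ * (x⁻¹ * b * x) ∈ Q := by
    intro x
    rw [hD, Subgroup.mem_comap, Subgroup.mem_centralizer_iff]
    constructor
    · intro h b hb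
      have h1 := h _ (Subgroup.mem_map_of_mem (QuotientGroup.mk' Q) hb)
      rw [← map_mul, ← map_mul] at h1
      have h2 : (b * x)⁻¹ * (x * b) ∈ Q := QuotientGroup.eq.mp h1
      have h3 := inv_mem h2
      have h4 : ((b * x)⁻¹ * (x * b))⁻¹ = b⁻¹ * (x⁻¹ * b * x) := by group
      rwa [h4] at h3
    · rintro h _ ⟨b, hb, rfl⟩
      rw [← map_mul, ← map_mul]
      apply QuotientGroup.eq.mpr
      have h3 := inv_mem (h b hb)
      have h4 : (b⁻¹ * (x⁻¹ * b * x))⁻¹ = (b * x)⁻¹ * (x * b) := by group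
      rwa [h4] at h3
  obtain ⟨N, hN⟩ : ∃ N : Subgroup X, N = Subgroup.normalizer (B : Set X) := ⟨_, rfl⟩
  rw [← hN] at hfn
  have hconjB : ∀ x ∈ D, ∀ b ∈ B, x⁻¹ * b * x ∈ B := by
    intro x hx b hb
    have h1 := (hmemD x).mp hx b hb
    have h2 : x⁻¹ * b * x = b * (b⁻¹ * (x⁻¹ * b * x)) := by group
    rw [h2]; exact mul_mem hb (hQB h1)
  have hDN : D ≤ N := by
    intro x hx
    rw [hN, Subgroup.mem_normalizer_iff]
    intro h
    constructor
    · intro hh
      have := hconjB x⁻¹ (inv_mem hx) h hh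
      rwa [inv_inv] at this
    · intro hh
      have := hconjB x hx _ hh
      have h2 : x⁻¹ * (x * h * x⁻¹) * x = h := by group
      rwa [h2] at this
  have hNconj : ∀ n ∈ N, ∀ b ∈ B, n⁻¹ * b * n ∈ B := by
    intro n hn b hb
    rw [hN] at hn
    have h1 := (Subgroup.mem_normalizer_iff.mp (inv_mem hn) b).mp hb
    rwa [inv_inv] at h1
  have hND : N ≤ Subgroup.normalizer (D : Set X) := by
    have key : ∀ n ∈ N, ∀ x ∈ D, n * x * n⁻¹ ∈ D := by
      intro n hn x hx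
      rw [hmemD]
      intro b hb
      have h1 := (hmemD x).mp hx _ (hNconj n hn b hb)
      have h2 := hQn.conj_mem _ h1 n
      have h3 : n * ((n⁻¹ * b * n)⁻¹ * (x⁻¹ * (n⁻¹ * b * n) * x)) * n⁻¹ =
          b⁻¹ * ((n * x * n⁻¹)⁻¹ * b * (n * x * n⁻¹)) := by group
      rwa [h3] at h2
    intro n hn
    rw [Subgroup.mem_normalizer_iff]
    intro x
    constructor
    · exact key n hn x
    · intro hx
      have := key n⁻¹ (inv_mem hn) _ hx
      have h2 : n⁻¹ * (n * x * n⁻¹) * n⁻¹⁻¹ = x := by group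
      rwa [h2] at this
  -- K
  obtain ⟨K, hK⟩ : ∃ K : Subgroup X, K = D ⊓ Subgroup.centralizer (B : Set X) := ⟨_, rfl⟩
  have hKD : K ≤ D := by rw [hK]; exact inf_le_left
  have hKn : (K.subgroupOf D).Normal := by
    refine ⟨fun k hk d => ?_⟩
    rw [Subgroup.mem_subgroupOf] at hk ⊢
    rw [hK] at hk ⊢
    obtain ⟨hk1, hk2⟩ := Subgroup.mem_inf.mp hk
    refine Subgroup.mem_inf.mpr ⟨mul_mem (mul_mem d.2 hk1) (inv_mem d.2), ?_⟩
    rw [Subgroup.mem_centralizer_iff] at hk2 ⊢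
    intro b hb
    have h1 := hk2 _ (hconjB d d.2 b hb)
    show b * ((d : X) * (k : X) * (d : X)⁻¹) = (d : X) * (k : X) * (d : X)⁻¹ * b
    have h2 : b * ((d : X) * (k : X) * (d : X)⁻¹) =
        (d : X) * (((d : X)⁻¹ * b * (d : X)) * (k : X)) * (d : X)⁻¹ := by group
    rw [h2, h1]; group
  have hDK : D ≤ Subgroup.normalizer (K : Set X) :=
    (Subgroup.normal_subgroupOf_iff_le_normalizer hKD).mp hKn
  -- p-power property
  have hCn : (Subgroup.centralizer (Q : Set X)).Normal := inferInstance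
  have hpow : ∀ x ∈ D, ∃ k : ℕ, x ^ (p ^ k) ∈ Subgroup.centralizer (B : Set X) := by
    intro x hx
    obtain ⟨k, m, hm, hord⟩ := Nat.exists_eq_pow_mul_and_not_dvd (orderOf_pos x).ne' p hp.ne_one
    refine ⟨k, ?_⟩
    have hym : (x ^ (p ^ k)) ^ m = 1 := by
      rw [← pow_mul, ← hord]; exact pow_orderOf_eq_one x
    have hyD : x ^ (p ^ k) ∈ D := pow_mem hx _
    have hmp : m.Coprime p := (Nat.coprime_comm.mp ((Nat.Prime.coprime_iff_not_dvd hp).mpr hm))
    -- y ∈ C_X(Q)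
    have hyC : x ^ (p ^ k) ∈ Subgroup.centralizer (Q : Set X) := by
      have h1 : x ^ (p ^ k) ∈ S ⊔ Subgroup.centralizer (Q : Set X) := by
        rw [hCS]; exact Subgroup.mem_top _
      have hSC : S ≤ Subgroup.normalizer ((Subgroup.centralizer (Q : Set X) : Subgroup X) : Set X) := by
        rw [Subgroup.normalizer_eq_top]; exact le_top
      obtain ⟨s, hs, c, hc, hsc⟩ := exists_mul_of_mem_sup_of_le_normalizer S _ hSC h1
      obtain ⟨j, hj⟩ := hSp ⟨s, hs⟩
      have hj' : s ^ (p ^ j) = 1 := congrArg Subtype.val hj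
      have h2 : (QuotientGroup.mk' (Subgroup.centralizer (Q : Set X))) (x ^ (p ^ k)) =
          (QuotientGroup.mk' (Subgroup.centralizer (Q : Set X))) s := by
        have hc1 : (QuotientGroup.mk' (Subgroup.centralizer (Q : Set X))) c = 1 :=
          (QuotientGroup.eq_one_iff c).mpr hc
        rw [hsc, map_mul, hc1, mul_one]
      have h3 : (x ^ (p ^ k)) ^ (p ^ j) ∈ Subgroup.centralizer (Q : Set X) := by
        rw [← QuotientGroup.eq_one_iff]
        have h4 : (QuotientGroup.mk' (Subgroup.centralizer (Q : Set X))) ((x ^ (p ^ k)) ^ (p ^ j)) = 1 := by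
          rw [map_pow, h2, ← map_pow, hj', map_one]
        exact h4
      have h5 : orderOf (x ^ (p ^ k)) ∣ m := orderOf_dvd_of_pow_eq_one hym
      have h6 : (p ^ j).Coprime (orderOf (x ^ (p ^ k))) :=
        Nat.Coprime.coprime_dvd_right h5 (Nat.Coprime.pow_left j (Nat.coprime_comm.mp hmp))
      obtain ⟨t, ht⟩ := exists_pow_eq_self_of_coprime h6
      rw [← ht]; exact pow_mem h3 t
    rw [Subgroup.mem_centralizer_iff]
    intro b hb
    have hz : (x ^ (p ^ k))⁻¹ * b * (x ^ (p ^ k)) * b⁻¹ ∈ Q := by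
      have h1 := (hmemD _).mp hyD b hb
      have h2 := hQn.conj_mem _ h1 b
      have h3 : b * (b⁻¹ * ((x ^ (p ^ k))⁻¹ * b * (x ^ (p ^ k)))) * b⁻¹ =
          (x ^ (p ^ k))⁻¹ * b * (x ^ (p ^ k)) * b⁻¹ := by group
      rwa [h3] at h2
    obtain ⟨i, hi⟩ := hQp ⟨_, hz⟩
    have hi' : ((x ^ (p ^ k))⁻¹ * b * (x ^ (p ^ k)) * b⁻¹) ^ (p ^ i) = 1 := congrArg Subtype.val hi
    have hcomm : Commute (x ^ (p ^ k))⁻¹ ((x ^ (p ^ k))⁻¹ * b * (x ^ (p ^ k)) * b⁻¹) := by
      have h1 := (Subgroup.mem_centralizer_iff.mp (inv_mem hyC)) _ hz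
      exact h1.symm
    have h7 := eq_one_of_conj_eq_mul_of_coprime (x ^ (p ^ k))⁻¹ b
      ((x ^ (p ^ k))⁻¹ * b * (x ^ (p ^ k)) * b⁻¹) (by group) hcomm m (p ^ i)
      (by rw [inv_pow, hym, inv_one]) hi' (Nat.Coprime.pow_right i hmp)
    have h8 : (x ^ (p ^ k))⁻¹ * b * (x ^ (p ^ k)) = b := by
      have : (x ^ (p ^ k))⁻¹ * b * (x ^ (p ^ k)) =
          ((x ^ (p ^ k))⁻¹ * b * (x ^ (p ^ k)) * b⁻¹) * b := by group
      rw [this, h7, one_mul]
    calc b * x ^ (p ^ k) = x ^ (p ^ k) * ((x ^ (p ^ k))⁻¹ * b * (x ^ (p ^ k))) := by group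
      _ = x ^ (p ^ k) * b := by rw [h8]
  -- the index of K in D is a power of p
  have hquot : IsPGroup p (↥D ⧸ K.subgroupOf D) := by
    intro y
    obtain ⟨d, rfl⟩ := QuotientGroup.mk_surjective y
    obtain ⟨k, hk⟩ := hpow d d.2
    refine ⟨k, ?_⟩
    rw [← QuotientGroup.mk_pow, QuotientGroup.eq_one_iff, Subgroup.mem_subgroupOf, hK]
    exact Subgroup.mem_inf.mpr ⟨pow_mem d.2 _, by simpa using hk⟩
  obtain ⟨j, hj⟩ := IsPGroup.iff_card.mp hquot
  have hKidx : K.relIndex D = p ^ j := by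
    rw [← hj]; exact Subgroup.index_eq_card _
  -- S ⊓ D is a Sylow subgroup of D
  have hP1 : ¬ p ∣ (S ⊓ D).relIndex D := by
    rw [Subgroup.inf_relIndex_right]
    intro hdiv
    apply hfn
    rw [Subgroup.inf_relIndex_right]
    exact hdiv.trans (relIndex_dvd_relIndex_of_normal S D N hDN hND)
  have hsup : D ≤ (S ⊓ D) ⊔ K := by
    rw [← Subgroup.relIndex_eq_one]
    have h1 : ((S ⊓ D) ⊔ K).relIndex D ∣ (S ⊓ D).relIndex D :=
      Subgroup.relIndex_dvd_of_le_left D le_sup_left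
    have h2 : ((S ⊓ D) ⊔ K).relIndex D ∣ p ^ j := by
      rw [← hKidx]; exact Subgroup.relIndex_dvd_of_le_left D le_sup_right
    obtain ⟨i, -, hi⟩ := (Nat.dvd_prime_pow hp).mp h2
    rcases Nat.eq_zero_or_pos i with h0 | hpos
    · rw [hi, h0, pow_zero]
    · exfalso
      apply hP1
      refine dvd_trans ?_ h1
      rw [hi]; exact dvd_pow_self p hpos.ne'
  have heD : e⁻¹ ∈ D := inv_mem ((hmemD e).mpr he)
  obtain ⟨s, hs, k, hk, hsk⟩ := exists_mul_of_mem_sup_of_le_normalizer (S ⊓ D) K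
    (inf_le_right.trans hDK) (hsup heD)
  refine ⟨s⁻¹, inv_mem (Subgroup.mem_inf.mp hs).1, fun b hb => ?_⟩
  have hkc : k ∈ Subgroup.centralizer (B : Set X) := by
    rw [hK] at hk; exact (Subgroup.mem_inf.mp hk).2
  have h1 := (Subgroup.mem_centralizer_iff.mp hkc) b hb
  have he2 : e = k⁻¹ * s⁻¹ := by rw [← mul_inv_rev, ← hsk, inv_inv]
  rw [he2]
  have h2 : (k⁻¹ * s⁻¹)⁻¹ * b * (k⁻¹ * s⁻¹) = s * (k * b * k⁻¹) * s⁻¹ := by group
  have h3 : k * b * k⁻¹ = b := by rw [← h1]; group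
  rw [h2, h3, inv_inv]

theorem le_map_conj_of_normal {X : Type*} [Group X] (Q B : Subgroup X) [Q.Normal] (hQB : Q ≤ B)
    (g : X) : Q ≤ B.map (MulAut.conj g).toMonoidHom := by
  intro q hq
  rw [mem_map_conj_iff]
  apply hQB
  have := (inferInstance : Q.Normal).conj_mem q hq g⁻¹
  rwa [inv_inv] at this

/-- The downward induction for the case `X = S C_X(Q)`. -/
theorem psi_induction {X : Type*} [Group X] [Finite X] {p : ℕ} [Fact p.Prime]
    (Q S : Subgroup X) [Q.Normal] (hSp : IsPGroup p ↥S) (hSidx : ¬ p ∣ S.index)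
    (M : Set X) (hMinv : ∀ x ∈ M, x⁻¹ ∈ M)
    (hα : ∀ s ∈ S, ∀ A : Set X, A ⊆ (S : Set X) → Good M (S : Set X) A s)
    (hγ : ∀ (B : Subgroup X), B ≤ S → ∀ g : X, rcj g (B : Set X) ⊆ (S : Set X) →
      ∃ g' : X, Good M (S : Set X) (B : Set X) g' ∧
        ∀ b ∈ B, (g'⁻¹ * b * g')⁻¹ * (g⁻¹ * b * g) ∈ Q)
    (hδ : ∀ B : Subgroup X, Q ≤ B → B ≤ S →
      ¬ p ∣ (S ⊓ Subgroup.normalizer (B : Set X)).relIndex (Subgroup.normalizer (B : Set X)) →
      ∀ e : X, (∀ b ∈ B, b⁻¹ * (e⁻¹ * b * e) ∈ Q) →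
        ∃ s ∈ S, ∀ b ∈ B, e⁻¹ * b * e = s⁻¹ * b * s) :
    ∀ d : ℕ, ∀ B : Subgroup X, Q ≤ B → B ≤ S → Nat.card ↥S - Nat.card ↥B < d →
      ∀ g : X, rcj g (B : Set X) ⊆ (S : Set X) → Good M (S : Set X) (B : Set X) g := by
  classical
  intro d
  induction d with
  | zero => intro B _ _ h; exact absurd h (Nat.not_lt_zero _)
  | succ d ih =>
    have hcoe : ((hSp.toSylow hSidx : Sylow p X) : Subgroup X) = S := IsPGroup.toSylow_coe hSp hSidx
    have key : ∀ B₁ : Subgroup X, Q ≤ B₁ → B₁ ≤ S → Nat.card ↥S - Nat.card ↥B₁ < d + 1 →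
        ∀ e : X, (∀ b ∈ B₁, b⁻¹ * (e⁻¹ * b * e) ∈ Q) → Good M (S : Set X) (B₁ : Set X) e := by
      intro B₁ hQB₁ hB₁S hd e he
      by_cases hfn : ¬ p ∣ (S ⊓ Subgroup.normalizer (B₁ : Set X)).relIndex
          (Subgroup.normalizer (B₁ : Set X))
      · obtain ⟨s, hs, hse⟩ := hδ B₁ hQB₁ hB₁S hfn e he
        exact (hα s hs B₁ hB₁S).congr (fun b hb => (hse b hb).symm)
      · have hne : B₁ ≠ S := by
          rintro rfl
          apply hfn
          have h1 : B₁ ⊓ Subgroup.normalizer (B₁ : Set X) = B₁ :=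
            inf_eq_left.mpr Subgroup.le_normalizer
          rw [h1]
          exact fun h => hSidx (dvd_trans h (Subgroup.relIndex_dvd_index_of_le Subgroup.le_normalizer))
        obtain ⟨g₀, hg₀S, hg₀fn⟩ := exists_fully_normalized_conj (hSp.toSylow hSidx) B₁
          (by rw [hcoe]; exact hB₁S)
        obtain ⟨k, hk1, hk2⟩ := exists_conj_normalizer_le (hSp.toSylow hSidx) B₁
          (B₁.map (MulAut.conj g₀).toMonoidHom) hg₀fn g₀ rfl
        rw [hcoe] at hg₀S hg₀fn hk2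
        rw [← hk1] at hg₀S hg₀fn hk2
        obtain ⟨B₂, hB₂⟩ : ∃ B₂ : Subgroup X, B₂ = B₁.map (MulAut.conj k).toMonoidHom := ⟨_, rfl⟩
        rw [← hB₂] at hg₀S hg₀fn hk2
        obtain ⟨R₁, hR₁⟩ : ∃ R₁ : Subgroup X, R₁ = S ⊓ Subgroup.normalizer (B₁ : Set X) := ⟨_, rfl⟩
        rw [← hR₁] at hk2
        have hc1 := card_lt_card_normalizer_inf hSp B₁ hB₁S hne
        rw [← hR₁] at hc1
        have hB₁R : B₁ ≤ R₁ := by rw [hR₁]; exact le_inf hB₁S Subgroup.le_normalizer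
        have hR₁S : R₁ ≤ S := by rw [hR₁]; exact inf_le_left
        have hR₁k : rcj k⁻¹ (R₁ : Set X) ⊆ (S : Set X) := by
          rw [rcj_subgroup, inv_inv]
          exact fun x hx => (Subgroup.mem_inf.mp (hk2 hx)).1
        have hc2 := Subgroup.card_le_of_le hR₁S
        have hG1 : Good M (S : Set X) (R₁ : Set X) k⁻¹ :=
          ih R₁ (hQB₁.trans hB₁R) hR₁S (by omega) k⁻¹ hR₁k
        have hG1' : Good M (S : Set X) (B₁ : Set X) k⁻¹ := hG1.mono hB₁R
        have hrk : rcj k⁻¹ (B₁ : Set X) = (B₂ : Set X) := by rw [rcj_subgroup, inv_inv, hB₂]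
        have hQB₂ : Q ≤ B₂ := by rw [hB₂]; exact le_map_conj_of_normal Q B₁ hQB₁ k
        have he' : ∀ b ∈ B₂, b⁻¹ * ((k * e * k⁻¹)⁻¹ * b * (k * e * k⁻¹)) ∈ Q := by
          intro b₂ hb₂
          rw [hB₂, mem_map_conj_iff] at hb₂
          have h1 := he _ hb₂
          have h2 := (inferInstance : Q.Normal).conj_mem _ h1 k
          have h3 : k * ((k⁻¹ * b₂ * k)⁻¹ * (e⁻¹ * (k⁻¹ * b₂ * k) * e)) * k⁻¹ =
              b₂⁻¹ * ((k * e * k⁻¹)⁻¹ * b₂ * (k * e * k⁻¹)) := by group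
          rw [h3] at h2; exact h2
        obtain ⟨s, hs, hse⟩ := hδ B₂ hQB₂ hg₀S hg₀fn _ he'
        have hG2 : Good M (S : Set X) (B₂ : Set X) (k * e * k⁻¹) :=
          (hα s hs B₂ hg₀S).congr (fun b hb => (hse b hb).symm)
        have hG3 : Good M (S : Set X) (B₂ : Set X) k := by
          have := hG1'.symm hMinv
          rwa [inv_inv, hrk] at this
        have hnorm : rcj (k * e * k⁻¹) (B₂ : Set X) ⊆ (B₂ : Set X) := by
          rintro _ ⟨b, hb, rfl⟩
          have h1 := he' b hb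
          have h2 : (k * e * k⁻¹)⁻¹ * b * (k * e * k⁻¹) =
              b * (b⁻¹ * ((k * e * k⁻¹)⁻¹ * b * (k * e * k⁻¹))) := by group
          show (k * e * k⁻¹)⁻¹ * b * (k * e * k⁻¹) ∈ B₂
          rw [h2]; exact mul_mem hb (hQB₂ h1)
        have h12 := Good.trans hG1' (by rw [hrk]; exact hG2)
        have h123 := Good.trans h12 (by
          rw [rcj_mul, hrk]
          exact hG3.mono hnorm)
        have hfin : k⁻¹ * (k * e * k⁻¹) * k = e := by group
        rw [hfin] at h123; exact h123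
    intro B hQB hBS hd g hg
    obtain ⟨g', hg', hagree⟩ := hγ B hBS g hg
    obtain ⟨B₁, hB₁⟩ : ∃ B₁ : Subgroup X, B₁ = B.map (MulAut.conj g'⁻¹).toMonoidHom := ⟨_, rfl⟩
    have hrB : rcj g' (B : Set X) = (B₁ : Set X) := by rw [hB₁]; exact rcj_subgroup g' B
    have hB₁S : B₁ ≤ S := by
      have := hg'.subset_right
      rw [hrB] at this; exact this
    have hQB₁ : Q ≤ B₁ := by rw [hB₁]; exact le_map_conj_of_normal Q B hQB _
    have hcard : Nat.card ↥B₁ = Nat.card ↥B := by rw [hB₁]; exact card_map_conj B _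
    have he : ∀ b ∈ B₁, b⁻¹ * ((g'⁻¹ * g)⁻¹ * b * (g'⁻¹ * g)) ∈ Q := by
      intro b₁ hb₁
      rw [hB₁, mem_map_conj_iff] at hb₁
      have h1 := hagree _ hb₁
      have h2 : (g'⁻¹ * (g'⁻¹⁻¹ * b₁ * g'⁻¹) * g')⁻¹ * (g⁻¹ * (g'⁻¹⁻¹ * b₁ * g'⁻¹) * g) =
          b₁⁻¹ * ((g'⁻¹ * g)⁻¹ * b₁ * (g'⁻¹ * g)) := by group
      rw [h2] at h1; exact h1
    have hsub := key B₁ hQB₁ hB₁S (by omega) (g'⁻¹ * g) he
    have h3 := Good.trans hg' (by rw [hrB]; exact hsub)
    have h4 : g' * (g'⁻¹ * g) = g := by group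
    rw [h4] at h3; exact h3

/-- Factorization step: `X = M₁ C` with `S ≤ M₁`, fusion good in `S C` and in `M₁`. -/
theorem good_of_factor {X : Type*} [Group X] [Finite X] {p : ℕ} [Fact p.Prime]
    (S : Subgroup X) (hSp : IsPGroup p ↥S) (hSidx : ¬ p ∣ S.index) (C M₁ : Subgroup X) [C.Normal]
    (hSM : S ≤ M₁) (hfr : M₁ ⊔ C = ⊤) (M : Set X)
    (h1 : ∀ x ∈ S ⊔ C, ∀ A : Set X, A ⊆ (S : Set X) → rcj x A ⊆ (S : Set X) →
      Good M (S : Set X) A x)
    (h2 : ∀ x ∈ M₁, ∀ A : Set X, A ⊆ (S : Set X) → rcj x A ⊆ (S : Set X) →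
      Good M (S : Set X) A x) :
    ∀ (A : Set X) (g : X), A ⊆ (S : Set X) → rcj g A ⊆ (S : Set X) → Good M (S : Set X) A g := by
  intro A g hA hAg
  have hMC : M₁ ≤ Subgroup.normalizer (C : Set X) := by
    rw [Subgroup.normalizer_eq_top]; exact le_top
  have hg : g⁻¹ ∈ M₁ ⊔ C := by rw [hfr]; exact Subgroup.mem_top _
  obtain ⟨m, hm, c, hc, hmc⟩ := exists_mul_of_mem_sup_of_le_normalizer M₁ C hMC hg
  have hgeq : g = c⁻¹ * m⁻¹ := by rw [← mul_inv_rev, ← hmc, inv_inv]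
  obtain ⟨B, hB⟩ : ∃ B : Subgroup X, B = (Subgroup.closure A).map (MulAut.conj c).toMonoidHom :=
    ⟨_, rfl⟩
  have hclA : Subgroup.closure A ≤ S := (Subgroup.closure_le _).mpr hA
  have hBp : IsPGroup p ↥B := by rw [hB]; exact (hSp.to_le hclA).map _
  have hBle : B ≤ (S ⊔ C) ⊓ M₁ := by
    rw [hB, MonoidHom.map_closure]
    apply (Subgroup.closure_le _).mpr
    rintro _ ⟨a, ha, rfl⟩
    show c * a * c⁻¹ ∈ _
    refine Subgroup.mem_inf.mpr ⟨mul_mem (mul_mem (Subgroup.mem_sup_right hc)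
      (Subgroup.mem_sup_left (hA ha))) (inv_mem (Subgroup.mem_sup_right hc)), ?_⟩
    have h3 : c * a * c⁻¹ = m⁻¹ * (g⁻¹ * a * g) * m := by rw [hgeq]; group
    rw [h3]; exact mul_mem (mul_mem (inv_mem hm) (hSM (hAg ⟨a, ha, rfl⟩))) hm
  have hSD : S ≤ (S ⊔ C) ⊓ M₁ := le_inf le_sup_left hSM
  have hSDidx : ¬ p ∣ S.relIndex ((S ⊔ C) ⊓ M₁) := fun hdiv => hSidx (by
    rw [← Subgroup.relIndex_mul_index hSD]; exact dvd_mul_of_dvd_left hdiv _)
  obtain ⟨n, hnD, hn⟩ := exists_conj_mem_of_relIndex S ((S ⊔ C) ⊓ M₁) B hSp hSDidx hBp hBle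
  obtain ⟨hnA, hnM⟩ := Subgroup.mem_inf.mp hnD
  have hr1 : rcj (c⁻¹ * n⁻¹) A ⊆ (S : Set X) := by
    rintro _ ⟨a, ha, rfl⟩
    have h3 := hn (c * a * c⁻¹) (by rw [hB]; exact ⟨a, Subgroup.subset_closure ha, rfl⟩)
    have h4 : (c⁻¹ * n⁻¹)⁻¹ * a * (c⁻¹ * n⁻¹) = n * (c * a * c⁻¹) * n⁻¹ := by group
    show (c⁻¹ * n⁻¹)⁻¹ * a * (c⁻¹ * n⁻¹) ∈ S
    rw [h4]; exact h3
  have hprod : c⁻¹ * n⁻¹ * (n * m⁻¹) = g := by rw [hgeq]; group
  have hG1 := h1 (c⁻¹ * n⁻¹) (mul_mem (inv_mem (Subgroup.mem_sup_right hc)) (inv_mem hnA)) A hA hr1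
  have hG2 := h2 (n * m⁻¹) (mul_mem hnM (inv_mem hm)) (rcj (c⁻¹ * n⁻¹) A) hr1 (by
    rw [← rcj_mul, hprod]; exact hAg)
  have h12 := Good.trans hG1 hG2
  rw [hprod] at h12; exact h12

/-- **Reduction of control of strong fusion to constrained sections.** -/
theorem fusion_main {p : ℕ} [Fact p.Prime] {𝓦 : Set (∀ (Q : Type u) [Group Q], Subgroup Q)}
    (h𝓦 : ∀ W ∈ 𝓦, Cfsg.IsCharPFunctor.{u} p W) :
    ∀ (n : ℕ) (X : Type u) [Group X] [Finite X], Nat.card X ≤ n →
      (∀ (Y : Type u) [Group Y] [Finite Y], SecOf Y X → Constrained p Y →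
        SFIn p 𝓦 (⊤ : Subgroup Y)) →
      SFIn p 𝓦 (⊤ : Subgroup X) := by
  intro n
  induction n with
  | zero =>
    intro X _ _ hcard _
    have := Nat.card_pos (α := X)
    omega
  | succ n ih =>
    intro X _ _ hcard hc
    have ihH : ∀ H : Subgroup X, H ≠ ⊤ → SFIn p 𝓦 H := by
      intro H hH
      have h1 := ih ↥H (by have := card_subgroup_lt_of_ne_top H hH; omega)
        (fun Y _ _ hY hYc => hc Y (hY.trans (SecOf.subgroup H)) hYc)
      have h2 := SFIn.map h𝓦 H.subtype H.subtype_injective ⊤ h1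
      rwa [← MonoidHom.range_eq_map, Subgroup.range_subtype] at h2
    have ihQ : ∀ (N : Subgroup X) [N.Normal], N ≠ ⊥ → SFIn p 𝓦 (⊤ : Subgroup (X ⧸ N)) := by
      intro N _ hN
      apply ih (X ⧸ N)
      · have := card_quotient_lt_of_ne_bot N hN; omega
      · intro Y _ _ hY hYc
        exact hc Y (hY.trans (SecOf.quotient N)) hYc
    by_cases hK : Cfsg.pPrimeCore p X = ⊥
    swap
    · have := pPrimeCore_normal p X
      exact sfIn_top_of_quotient_pPrime h𝓦 _ (pPrimeCore_coprime Fact.out X) (ihQ _ hK)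
    by_cases hcon : Constrained p X
    · exact hc X (SecOf.refl X) hcon
    by_cases hQ : Cfsg.pCore p X = ⊥
    · exact sfIn_top_of_pCore_eq_bot h𝓦 hQ ihH
    have hQn : (Cfsg.pCore p X).Normal := pCore_normal p X
    intro S _ hSp hSidx
    have hidx' : ¬ p ∣ S.index := by rwa [Subgroup.relIndex_top_right] at hSidx
    have hQS : Cfsg.pCore p X ≤ S := pCore_le_of_relIndex_top S hSp hSidx
    have hsub : ∀ H : Subgroup X, H ≠ ⊤ → S ≤ H → ∀ x ∈ H, ∀ A : Set X, A ⊆ (S : Set X) →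
        rcj x A ⊆ (S : Set X) → Good (sStep 𝓦 ⊤ S) (S : Set X) A x := by
      intro H hH hSH x hx A hA hAx
      have hidxH : ¬ p ∣ S.relIndex H := fun hdiv => hidx' (by
        rw [← Subgroup.relIndex_mul_index hSH]; exact dvd_mul_of_dvd_left hdiv _)
      exact (ihH H hH S hSH hSp hidxH A x hx hA hAx).mono_left (sStep_mono 𝓦 le_top S)
    obtain ⟨C, hC⟩ : ∃ C, C = Subgroup.centralizer ((Cfsg.pCore p X : Subgroup X) : Set X) :=
      ⟨_, rfl⟩
    have hCn : C.Normal := by rw [hC]; infer_instance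
    have hSC : S ≤ Subgroup.normalizer (C : Set X) := by
      rw [Subgroup.normalizer_eq_top]; exact le_top
    have hSne : S ≠ ⊤ := by
      intro hS
      apply hcon
      have hp' : IsPGroup p ↥(⊤ : Subgroup X) := hS ▸ hSp
      exact le_trans (le_top : _ ≤ (⊤ : Subgroup X))
        (le_pCore (inferInstance : (⊤ : Subgroup X).Normal) hp')
    suffices hmain : ∀ (A : Set X) (g : X), A ⊆ (S : Set X) → rcj g A ⊆ (S : Set X) →
        Good (sStep 𝓦 ⊤ S) (S : Set X) A g by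
      intro A g _ hA hAg; exact hmain A g hA hAg
    by_cases hCS : S ⊔ C = ⊤
    · have hα : ∀ s ∈ S, ∀ A : Set X, A ⊆ (S : Set X) →
          Good (sStep 𝓦 ⊤ S) (S : Set X) A s := by
        intro s hs A hA
        refine hsub S hSne le_rfl s hs A hA ?_
        rintro _ ⟨a, ha, rfl⟩
        exact mul_mem (mul_mem (inv_mem hs) (hA ha)) hs
      by_cases hSQ : S ≤ Cfsg.pCore p X
      · intro A g hA hAg
        have hg : g⁻¹ ∈ S ⊔ C := by rw [hCS]; exact Subgroup.mem_top _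
        obtain ⟨s, hs, c, hc', hsc⟩ := exists_mul_of_mem_sup_of_le_normalizer S C hSC hg
        refine (hα s⁻¹ (inv_mem hs) A hA).congr (fun a ha => ?_)
        have hgeq : g = c⁻¹ * s⁻¹ := by rw [← mul_inv_rev, ← hsc, inv_inv]
        have hcc : a * c = c * a := by
          have h1 : c ∈ Subgroup.centralizer ((Cfsg.pCore p X : Subgroup X) : Set X) := by
            rw [← hC]; exact hc'
          exact (Subgroup.mem_centralizer_iff.mp h1) a (hSQ (hA ha))
        rw [hgeq]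
        have h2 : (c⁻¹ * s⁻¹)⁻¹ * a * (c⁻¹ * s⁻¹) = s⁻¹⁻¹ * (c * a * c⁻¹) * s⁻¹ := by group
        have h3 : c * a * c⁻¹ = a := by rw [← hcc]; group
        rw [h2, h3]
      · have hS'p : IsPGroup p ↥(S.map (QuotientGroup.mk' (Cfsg.pCore p X))) := hSp.map _
        have hS'idx : ¬ p ∣ (S.map (QuotientGroup.mk' (Cfsg.pCore p X))).relIndex ⊤ := by
          rw [Subgroup.relIndex_top_right]
          exact fun hdiv => hidx' (hdiv.trans (Subgroup.index_map_dvd S
            (QuotientGroup.mk'_surjective _)))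
        have hS'ne : S.map (QuotientGroup.mk' (Cfsg.pCore p X)) ≠ ⊥ := by
          intro h0
          apply hSQ
          rw [Subgroup.map_eq_bot_iff, QuotientGroup.ker_mk'] at h0
          exact h0
        have hcomapS : (S.map (QuotientGroup.mk' (Cfsg.pCore p X))).comap
            (QuotientGroup.mk' (Cfsg.pCore p X)) = S := by
          rw [QuotientGroup.comap_map_mk']; exact sup_eq_right.mpr hQS
        have hstep : ∀ x : X, (QuotientGroup.mk' (Cfsg.pCore p X)) x ∈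
            sStep 𝓦 ⊤ (S.map (QuotientGroup.mk' (Cfsg.pCore p X))) →
            ∀ A : Set X, A ⊆ (S : Set X) → rcj x A ⊆ (S : Set X) →
              Good (sStep 𝓦 ⊤ S) (S : Set X) A x := by
          rintro x ⟨W, hW, hx⟩ A hA hAx
          obtain ⟨V, hV⟩ : ∃ V : Subgroup X, V = (Cfsg.inducedFunctor W
              (S.map (QuotientGroup.mk' (Cfsg.pCore p X)))).comap
                (QuotientGroup.mk' (Cfsg.pCore p X)) := ⟨_, rfl⟩
          have hconjF := isConjugacyFunctor_inducedFunctor (h𝓦 W hW) (X ⧸ Cfsg.pCore p X)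
            (S.map (QuotientGroup.mk' (Cfsg.pCore p X))) hS'p
          have hVS : V ≤ S := by
            have h0 : V ≤ (S.map (QuotientGroup.mk' (Cfsg.pCore p X))).comap
                (QuotientGroup.mk' (Cfsg.pCore p X)) := by
              rw [hV]; exact Subgroup.comap_mono hconjF.1
            rwa [hcomapS] at h0
          have hNV : Subgroup.normalizer (V : Set X) = (Subgroup.normalizer
              ((Cfsg.inducedFunctor W (S.map (QuotientGroup.mk' (Cfsg.pCore p X))) :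
                Subgroup (X ⧸ Cfsg.pCore p X)) : Set (X ⧸ Cfsg.pCore p X))).comap
                (QuotientGroup.mk' (Cfsg.pCore p X)) := by
            rw [hV]
            exact (Subgroup.comap_normalizer_eq_of_surjective _
              (QuotientGroup.mk'_surjective _)).symm
          have hxN : x ∈ Subgroup.normalizer (V : Set X) := by
            rw [hNV]; exact (Subgroup.mem_inf.mp hx).2
          have hSN : S ≤ Subgroup.normalizer (V : Set X) := by
            rw [hNV]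
            intro s hs
            exact le_normalizer_inducedFunctor (h𝓦 W hW) _ hS'p (Subgroup.mem_map_of_mem _ hs)
          have hNne : Subgroup.normalizer (V : Set X) ≠ ⊤ := by
            intro htop
            have hVn : V.Normal := Subgroup.normalizer_eq_top_iff.mp htop
            have hVQ : V ≤ Cfsg.pCore p X := le_pCore hVn (hSp.to_le hVS)
            apply hconjF.2.1 hS'ne
            have h1 : Cfsg.inducedFunctor W (S.map (QuotientGroup.mk' (Cfsg.pCore p X))) =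
                V.map (QuotientGroup.mk' (Cfsg.pCore p X)) := by
              rw [hV, Subgroup.map_comap_eq_self_of_surjective (QuotientGroup.mk'_surjective _)]
            rw [h1, Subgroup.map_eq_bot_iff, QuotientGroup.ker_mk']; exact hVQ
          exact hsub _ hNne hSN x hxN A hA hAx
        have hγ : ∀ (B : Subgroup X), B ≤ S → ∀ g : X, rcj g (B : Set X) ⊆ (S : Set X) →
            ∃ g' : X, Good (sStep 𝓦 ⊤ S) (S : Set X) (B : Set X) g' ∧
              ∀ b ∈ B, (g'⁻¹ * b * g')⁻¹ * (g⁻¹ * b * g) ∈ Cfsg.pCore p X := by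
          intro B hBS g hg
          have h1 := ihQ (Cfsg.pCore p X) hQ (S.map (QuotientGroup.mk' (Cfsg.pCore p X))) le_top
            hS'p hS'idx ((QuotientGroup.mk' (Cfsg.pCore p X)) '' (B : Set X))
            ((QuotientGroup.mk' (Cfsg.pCore p X)) g) (Subgroup.mem_top _)
            (by rintro _ ⟨b, hb, rfl⟩; exact Subgroup.mem_map_of_mem _ (hBS hb))
            (by
              rw [← rcj_image]
              rintro _ ⟨y, hy, rfl⟩
              exact Subgroup.mem_map_of_mem _ (hg hy))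
          obtain ⟨g'', hch, hag⟩ := h1
          obtain ⟨g', hg', hgood⟩ := lift_chain_quot (Cfsg.pCore p X) S hQS _ _ hstep _ _ hch
            (B : Set X) hBS rfl
          refine ⟨g', hgood, fun b hb => ?_⟩
          have h2 := hag _ ⟨b, hb, rfl⟩
          rw [← hg'] at h2
          have h3 : (QuotientGroup.mk' (Cfsg.pCore p X)) (g'⁻¹ * b * g') =
              (QuotientGroup.mk' (Cfsg.pCore p X)) (g⁻¹ * b * g) := by simpa using h2
          exact QuotientGroup.eq.mp h3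
        have hδ : ∀ B : Subgroup X, Cfsg.pCore p X ≤ B → B ≤ S →
            ¬ p ∣ (S ⊓ Subgroup.normalizer (B : Set X)).relIndex
              (Subgroup.normalizer (B : Set X)) →
            ∀ e : X, (∀ b ∈ B, b⁻¹ * (e⁻¹ * b * e) ∈ Cfsg.pCore p X) →
              ∃ s ∈ S, ∀ b ∈ B, e⁻¹ * b * e = s⁻¹ * b * s := by
          intro B hQB _ hfn e he
          exact exists_sylow_action (Cfsg.pCore p X) S (pCore_isPGroup p X) hSp
            (by rw [← hC]; exact hCS) B hQB hfn e he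
        have hpsi := psi_induction (Cfsg.pCore p X) S hSp hidx' _ (sStep_inv 𝓦 ⊤ S) hα hγ hδ
          (Nat.card ↥S + 1)
        intro A g hA hAg
        have hclA : Subgroup.closure A ≤ S := (Subgroup.closure_le _).mpr hA
        have hB := hpsi (Subgroup.closure A ⊔ Cfsg.pCore p X) le_sup_right (sup_le hclA hQS)
          (by omega) g (by
            rw [rcj_subgroup, Subgroup.map_sup, MonoidHom.map_closure]
            apply SetLike.coe_subset_coe.mpr
            apply sup_le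
            · apply (Subgroup.closure_le _).mpr
              rintro _ ⟨a, ha, rfl⟩
              have := hAg ⟨a, ha, rfl⟩
              simpa using this
            · rintro _ ⟨q, hq, rfl⟩
              apply hQS
              have := hQn.conj_mem q hq g⁻¹
              simpa using this)
        exact hB.mono (fun a ha => Subgroup.mem_sup_left (Subgroup.subset_closure ha))
    · have hM : Subgroup.normalizer ((S ⊓ C : Subgroup X) : Set X) ≠ ⊤ := by
        rw [hC]; exact normalizer_inf_centralizer_ne_top hK hcon S hSp hSidx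
      obtain ⟨M₁, hM₁⟩ : ∃ M₁, M₁ = Subgroup.normalizer ((S ⊓ C : Subgroup X) : Set X) := ⟨_, rfl⟩
      rw [← hM₁] at hM
      have hSM : S ≤ M₁ := by
        intro s hs
        rw [hM₁]
        apply mem_normalizer_of_map_conj_eq'
        rw [Subgroup.map_inf_eq _ _ _ (MulAut.conj s).injective,
          map_conj_eq_of_mem_normalizer S s (Subgroup.le_normalizer hs),
          map_conj_eq_of_mem_normalizer C s (hSC hs)]
      have hPidx : ¬ p ∣ (S ⊓ C).relIndex C := by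
        rw [Subgroup.inf_relIndex_right]
        exact fun hdiv => hidx' (hdiv.trans (relIndex_normal_dvd_index S C))
      have hfr : M₁ ⊔ C = ⊤ := by
        rw [hM₁]
        exact frattini_relIndex C (S ⊓ C) inf_le_right (hSp.to_le inf_le_left) hPidx
      exact good_of_factor S hSp hidx' C M₁ hSM hfr _ (hsub _ hCS le_sup_left) (hsub _ hM hSM)

/-- Control of strong fusion in all sections from control in the constrained literal sections. -/
theorem sfIn_all_sections {p : ℕ} [Fact p.Prime]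
    {𝓦 : Set (∀ (Q : Type u) [Group Q], Subgroup Q)}
    (h𝓦 : ∀ W ∈ 𝓦, Cfsg.IsCharPFunctor.{u} p W) (G : Type u) [Group G] [Finite G]
    (hloc : ∀ (K R : Subgroup G) [hR : (R.subgroupOf K).Normal],
      Constrained p (↥K ⧸ R.subgroupOf K) → SFIn p 𝓦 (⊤ : Subgroup (↥K ⧸ R.subgroupOf K))) :
    ∀ (Y : Type u) [Group Y] [Finite Y], SecOf Y G → SFIn p 𝓦 (⊤ : Subgroup Y) := by
  intro Y _ _ hY
  apply fusion_main h𝓦 (Nat.card Y) Y le_rfl
  intro Y' _ _ hY' hY'c
  obtain ⟨K, R, hR, ⟨e⟩⟩ := (hY'.trans hY).exists_literal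
  have h1 := hloc K R (hY'c.of_equiv e)
  have h2 := SFIn.map h𝓦 e.symm.toMonoidHom e.symm.injective ⊤ h1
  rwa [Subgroup.map_top_of_surjective _ e.symm.surjective] at h2

/-- If `g = a b` with `a ∈ N₁`, `b ∈ N₂`, both containing the Sylow subgroup `S`, then the
conjugation by `g` between subsets of `S` is a composite of an `N₁`-step and an `N₂`-step. -/
theorem good_of_two_normalizers {X : Type*} [Group X] [Finite X] {p : ℕ} [Fact p.Prime]
    (S : Subgroup X) (hSp : IsPGroup p ↥S) (hSidx : ¬ p ∣ S.index) (N₁ N₂ : Subgroup X)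
    (hS1 : S ≤ N₁) (hS2 : S ≤ N₂) (M : Set X) (hM1 : ∀ x ∈ N₁, x ∈ M) (hM2 : ∀ x ∈ N₂, x ∈ M)
    (A : Set X) (g a b : X) (ha : a ∈ N₁) (hb : b ∈ N₂) (hg : g = a * b)
    (hA : A ⊆ (S : Set X)) (hAg : rcj g A ⊆ (S : Set X)) : Good M (S : Set X) A g := by
  obtain ⟨B, hB⟩ : ∃ B : Subgroup X, B = (Subgroup.closure A).map (MulAut.conj a⁻¹).toMonoidHom :=
    ⟨_, rfl⟩
  have hclA : Subgroup.closure A ≤ S := (Subgroup.closure_le _).mpr hA
  have hBp : IsPGroup p ↥B := by rw [hB]; exact (hSp.to_le hclA).map _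
  have hBle : B ≤ N₁ ⊓ N₂ := by
    rw [hB, MonoidHom.map_closure]
    apply (Subgroup.closure_le _).mpr
    rintro _ ⟨x, hx, rfl⟩
    have h0 : (MulAut.conj a⁻¹).toMonoidHom x = a⁻¹ * x * a := by simp
    rw [h0]
    refine Subgroup.mem_inf.mpr ⟨mul_mem (mul_mem (inv_mem ha) (hS1 (hA hx))) ha, ?_⟩
    have h3 : a⁻¹ * x * a = b * (g⁻¹ * x * g) * b⁻¹ := by rw [hg]; group
    rw [h3]; exact mul_mem (mul_mem hb (hS2 (hAg ⟨x, hx, rfl⟩))) (inv_mem hb)
  have hSD : S ≤ N₁ ⊓ N₂ := le_inf hS1 hS2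
  have hSDidx : ¬ p ∣ S.relIndex (N₁ ⊓ N₂) := fun hdiv => hSidx (by
    rw [← Subgroup.relIndex_mul_index hSD]; exact dvd_mul_of_dvd_left hdiv _)
  obtain ⟨n, hnD, hn⟩ := exists_conj_mem_of_relIndex S (N₁ ⊓ N₂) B hSp hSDidx hBp hBle
  obtain ⟨hn1, hn2⟩ := Subgroup.mem_inf.mp hnD
  have hr1 : rcj (a * n⁻¹) A ⊆ (S : Set X) := by
    rintro _ ⟨x, hx, rfl⟩
    have h3 := hn (a⁻¹ * x * a) (by
      rw [hB]; exact ⟨x, Subgroup.subset_closure hx, by simp⟩)
    have h4 : (a * n⁻¹)⁻¹ * x * (a * n⁻¹) = n * (a⁻¹ * x * a) * n⁻¹ := by group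
    show (a * n⁻¹)⁻¹ * x * (a * n⁻¹) ∈ S
    rw [h4]; exact h3
  have hprod : a * n⁻¹ * (n * b) = g := by rw [hg]; group
  have hG1 : Good M (S : Set X) A (a * n⁻¹) :=
    Good.single (hM1 _ (mul_mem ha (inv_mem hn1))) hA hr1
  have hG2 : Good M (S : Set X) (rcj (a * n⁻¹) A) (n * b) :=
    Good.single (hM2 _ (mul_mem hn2 hb)) hr1 (by rw [← rcj_mul, hprod]; exact hAg)
  have h12 := Good.trans hG1 hG2
  rw [hprod] at h12; exact h12

end Cfsg.Agent.Lib.Helper3
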