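import Mathlib
import Cfsg.Agent.Lib.Helper3.Frat

set_option autoImplicit false

namespace Cfsg.Agent.Lib.Helper3

open Cfsg

/-- Conjugation by an element normalizing `B`, as an endomorphism of `B`. -/
def conjOn {G : Type*} [Group G] (B : Subgroup G) (n : G)
    (hn : n ∈ Subgroup.normalizer (B : Set G)) : ↥B →* ↥B where
  toFun b := ⟨n * b * n⁻¹, (Subgroup.mem_normalizer_iff.mp hn b).mp b.2⟩
  map_one' := by
    apply Subtype.ext
    show n * (1 : G) * n⁻¹ = 1
    group
  map_mul' a b := by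
    apply Subtype.ext
    show n * ((a : G) * (b : G)) * n⁻¹ = (n * (a : G) * n⁻¹) * (n * (b : G) * n⁻¹)
    group

/-- The trace (norm) argument: if `B` is an abelian `p`-group normalized by `N` and `S ≤ N` has
index prime to `p` in `N`, then `C_B(N)` is a direct factor of `C_B(S)`. -/
theorem exists_complement_fixed {G : Type*} [Group G] [Finite G] {p : ℕ} [Fact p.Prime]
    (N S B : Subgroup G) (hSN : S ≤ N) (hidx : ¬ p ∣ S.relIndex N) (hBp : IsPGroup p ↥B)
    (hBcomm : ∀ a ∈ B, ∀ b ∈ B, a * b = b * a) (hNB : N ≤ Subgroup.normalizer (B : Set G)) :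
    ∃ K : Subgroup G, K ≤ B ⊓ Subgroup.centralizer (S : Set G) ∧
      (B ⊓ Subgroup.centralizer (N : Set G)) ⊓ K = ⊥ ∧
      (B ⊓ Subgroup.centralizer (N : Set G)) ⊔ K = B ⊓ Subgroup.centralizer (S : Set G) := by
  classical
  have hp : p.Prime := Fact.out
  letI : CommGroup ↥B := { (inferInstance : Group ↥B) with
    mul_comm := fun a b => Subtype.ext (hBcomm a a.2 b b.2) }
  letI : Fintype (↥N ⧸ S.subgroupOf N) := Fintype.ofFinite _
  let act : ↥N → (↥B →* ↥B) := fun n => conjOn B (n : G) (hNB n.2)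
  let τ : ↥B →* ↥B := ∏ q : ↥N ⧸ S.subgroupOf N, act (Quotient.out q)
  have hτ : ∀ b : ↥B, τ b = ∏ q : ↥N ⧸ S.subgroupOf N, act (Quotient.out q) b :=
    fun b => MonoidHom.finsetProd_apply _ _ b
  have hact_val : ∀ (n : ↥N) (b : ↥B), ((act n b : ↥B) : G) = (n : G) * b * (n : G)⁻¹ :=
    fun n b => rfl
  have hact_mul : ∀ (m n : ↥N) (b : ↥B), act (m * n) b = act m (act n b) := by
    intro m n b
    apply Subtype.ext
    rw [hact_val, hact_val, hact_val]
    show ((m : G) * (n : G)) * (b : G) * ((m : G) * (n : G))⁻¹ = _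
    group
  have hact_fix : ∀ (s : ↥N) (b : ↥B), (s : G) ∈ S →
      (b : G) ∈ Subgroup.centralizer (S : Set G) → act s b = b := by
    intro s b hs hb
    apply Subtype.ext
    rw [hact_val]
    have := (Subgroup.mem_centralizer_iff.mp hb) (s : G) hs
    rw [this]; group
  have hinv : ∀ (b : ↥B), (b : G) ∈ Subgroup.centralizer (S : Set G) →
      ∀ m : ↥N, act m (τ b) = τ b := by
    intro b hb m
    rw [hτ, map_prod]
    have h1 : ∀ q : ↥N ⧸ S.subgroupOf N,
        act m (act (Quotient.out q) b) = act (Quotient.out (m • q)) b := by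
      intro q
      obtain ⟨h, hh⟩ := QuotientGroup.mk_out_eq_mul (S.subgroupOf N) (m * Quotient.out q)
      have h2 : (QuotientGroup.mk (m * Quotient.out q) : ↥N ⧸ S.subgroupOf N) = m • q := by
        conv_rhs => rw [← QuotientGroup.out_eq' q]
        rfl
      rw [h2] at hh
      rw [hh, hact_mul, hact_mul, hact_fix (h : ↥N) b (Subgroup.mem_subgroupOf.mp h.2) hb]
    rw [Finset.prod_congr rfl (fun q _ => h1 q)]
    exact Equiv.prod_comp (MulAction.toPerm m : Equiv.Perm (↥N ⧸ S.subgroupOf N))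
      (fun q => act (Quotient.out q) b)
  have hfix : ∀ (w : ↥B), (w : G) ∈ Subgroup.centralizer (N : Set G) →
      τ w = w ^ (S.relIndex N) := by
    intro w hw
    rw [hτ]
    have h1 : ∀ q : ↥N ⧸ S.subgroupOf N, act (Quotient.out q) w = w := by
      intro q
      apply Subtype.ext
      rw [hact_val]
      have := (Subgroup.mem_centralizer_iff.mp hw) ((Quotient.out q : ↥N) : G) (Quotient.out q).2
      rw [this]; group
    rw [Finset.prod_congr rfl (fun q _ => h1 q), Finset.prod_const, Finset.card_univ]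
    congr 1
    rw [Subgroup.relIndex, Subgroup.index, Nat.card_eq_fintype_card]
  have hrp : (S.relIndex N).Coprime p :=
    ((Nat.Prime.coprime_iff_not_dvd hp).mpr hidx).symm
  have hCNS : Subgroup.centralizer (N : Set G) ≤ Subgroup.centralizer (S : Set G) :=
    Subgroup.centralizer_le (fun x hx => hSN hx)
  refine ⟨(τ.ker.map B.subtype) ⊓ Subgroup.centralizer (S : Set G), ?_, ?_, ?_⟩
  · intro x hx
    obtain ⟨hx1, hx2⟩ := Subgroup.mem_inf.mp hx
    obtain ⟨b, -, rfl⟩ := hx1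
    exact Subgroup.mem_inf.mpr ⟨b.2, hx2⟩
  · rw [eq_bot_iff]
    intro x hx
    obtain ⟨hxW, hxK⟩ := Subgroup.mem_inf.mp hx
    obtain ⟨b, hb, rfl⟩ := (Subgroup.mem_inf.mp hxK).1
    have hb1 : τ b = 1 := hb
    have hb2 : b ^ (S.relIndex N) = 1 := by
      rw [← hfix b (Subgroup.mem_inf.mp hxW).2]; exact hb1
    obtain ⟨k, hk⟩ := hBp b
    have hb3 : b = 1 := Cfsg.Agent.Lib.Helper4.eq_one_of_pow_of_coprime b hk
      (Nat.Coprime.coprime_dvd_left (orderOf_dvd_of_pow_eq_one hb2) hrp)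
    rw [Subgroup.mem_bot, hb3]; rfl
  · apply le_antisymm
    · refine sup_le (inf_le_inf_left B hCNS) ?_
      intro x hx
      obtain ⟨hx1, hx2⟩ := Subgroup.mem_inf.mp hx
      obtain ⟨b, -, rfl⟩ := hx1
      exact Subgroup.mem_inf.mpr ⟨b.2, hx2⟩
    · intro x hx
      obtain ⟨hxB, hxS⟩ := Subgroup.mem_inf.mp hx
      set b : ↥B := ⟨x, hxB⟩ with hb
      obtain ⟨a, ha⟩ := IsPGroup.iff_card.mp hBp
      have hcop : (Nat.card ↥B).Coprime (S.relIndex N) := by
        rw [ha]; exact (Nat.Coprime.pow_right a hrp).symm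
      have hbij := Nat.Coprime.pow_left_bijective (G := ↥B) hcop
      obtain ⟨w₀, hw₀⟩ := hbij.2 (τ b)
      have hw₀' : w₀ ^ (S.relIndex N) = τ b := hw₀
      have hw₀N : (w₀ : G) ∈ Subgroup.centralizer (N : Set G) := by
        rw [Subgroup.mem_centralizer_iff]
        intro m hm
        have h1 : act ⟨m, hm⟩ w₀ = w₀ := by
          apply hbij.1
          show (act ⟨m, hm⟩ w₀) ^ (S.relIndex N) = w₀ ^ (S.relIndex N)
          rw [← map_pow, hw₀', hinv b hxS ⟨m, hm⟩]
        have h2 := congrArg Subtype.val h1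
        rw [hact_val] at h2
        have h3 : m * (w₀ : G) * m⁻¹ = (w₀ : G) := h2
        calc m * (w₀ : G) = (m * (w₀ : G) * m⁻¹) * m := by group
          _ = (w₀ : G) * m := by rw [h3]
      have hker : w₀⁻¹ * b ∈ τ.ker := by
        rw [MonoidHom.mem_ker, map_mul, map_inv, hfix w₀ hw₀N, hw₀', inv_mul_cancel]
      have hxeq : x = (w₀ : G) * ((w₀⁻¹ * b : ↥B) : G) := by
        show x = (w₀ : G) * ((w₀ : G)⁻¹ * x)
        group
      rw [hxeq]
      refine Subgroup.mul_mem_sup (Subgroup.mem_inf.mpr ⟨w₀.2, hw₀N⟩) (Subgroup.mem_inf.mpr ⟨?_, ?_⟩)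
      · exact ⟨w₀⁻¹ * b, hker, rfl⟩
      · show (w₀ : G)⁻¹ * x ∈ Subgroup.centralizer (S : Set G)
        exact mul_mem (inv_mem (hCNS hw₀N)) hxS

end Cfsg.Agent.Lib.Helper3
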