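import Mathlib
import Cfsg.Prelude.Def_ConjugacyFunctors
import Cfsg.Agent.Lib.Helper3.Goldschmidt
import Cfsg.Agent.Lib.Helper3.CtrlFamily
import Cfsg.Agent.Lib.Helper3.CtrlFusion

set_option autoImplicit false

namespace Cfsg.Agent.Lib.Helper3

open Cfsg
open scoped commutatorElement

/-- `R` is "Z-centric" in `P`: every conjugate of `R` inside `P` contains `Z(P)`. -/
def ZCentric {G : Type*} [Group G] {p : ℕ} (P : Sylow p G) (R : Subgroup G) : Prop :=
  ∀ g : G, R.map (MulAut.conj g).toMonoidHom ≤ (P : Subgroup G) →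
    (P : Subgroup G) ⊓ Subgroup.centralizer ((P : Subgroup G) : Set G) ≤
      R.map (MulAut.conj g).toMonoidHom

theorem ZCentric.mono {G : Type*} [Group G] {p : ℕ} {P : Sylow p G} {R R' : Subgroup G}
    (h : ZCentric P R) (hle : R ≤ R') : ZCentric P R' := by
  intro g hg
  exact (h g ((Subgroup.map_mono hle).trans hg)).trans (Subgroup.map_mono hle)

theorem ZCentric.conj {G : Type*} [Group G] {p : ℕ} {P : Sylow p G} {R : Subgroup G}
    (h : ZCentric P R) (k : G) : ZCentric P (R.map (MulAut.conj k).toMonoidHom) := by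
  intro g hg
  rw [map_conj_map_conj] at hg ⊢
  exact h _ hg

theorem ZCentric.le {G : Type*} [Group G] {p : ℕ} {P : Sylow p G} {R : Subgroup G}
    (h : ZCentric P R) (hR : R ≤ (P : Subgroup G)) :
    (P : Subgroup G) ⊓ Subgroup.centralizer ((P : Subgroup G) : Set G) ≤ R := by
  have := h 1 (by rw [map_conj_one_eq]; exact hR)
  rwa [map_conj_one_eq] at this

/-- Tight subgroups satisfy `C_P(T) ≤ T`. -/
theorem tight_centralizer_le {G : Type*} [Group G] [Finite G] {p : ℕ} [Fact p.Prime]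
    (P : Sylow p G) (T : Subgroup G) (hT : T ∈ tightFamily P) :
    (P : Subgroup G) ⊓ Subgroup.centralizer (T : Set G) ≤ T := by
  apply hT.2
  · exact inf_le_inf_left _ (Subgroup.centralizer_le_normalizer _)
  · have : (P : Subgroup G) ⊓ Subgroup.centralizer (T : Set G) ⊔ Subgroup.centralizer (T : Set G) =
        Subgroup.centralizer (T : Set G) := sup_eq_right.mpr inf_le_right
    rw [this]
    exact normalizer_le_normalizer_centralizer T

theorem zcentric_of_tight {G : Type*} [Group G] [Finite G] {p : ℕ} [Fact p.Prime]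
    (P : Sylow p G) (T : Subgroup G) (hT : T ∈ tightFamily P) : ZCentric P T := by
  intro g hg x hx
  have hZp : IsPGroup p ↥((P : Subgroup G) ⊓ Subgroup.centralizer ((P : Subgroup G) : Set G)) :=
    P.isPGroup'.to_le inf_le_left
  have hXC : ((P : Subgroup G) ⊓ Subgroup.centralizer ((P : Subgroup G) : Set G)).map
      (MulAut.conj g⁻¹).toMonoidHom ≤ Subgroup.centralizer (T : Set G) := by
    rintro _ ⟨z, hz, rfl⟩
    rw [Subgroup.mem_centralizer_iff]
    intro t ht
    have h1 : g * t * g⁻¹ ∈ (P : Subgroup G) := hg (conj_mem_map_conj' T g t ht)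
    have h2 : g * t * g⁻¹ * z = z * (g * t * g⁻¹) :=
      (Subgroup.mem_centralizer_iff.mp (Subgroup.mem_inf.mp hz).2) _ h1
    show t * (g⁻¹ * z * g⁻¹⁻¹) = (g⁻¹ * z * g⁻¹⁻¹) * t
    rw [inv_inv]
    calc t * (g⁻¹ * z * g) = g⁻¹ * (g * t * g⁻¹ * z) * g := by group
      _ = g⁻¹ * (z * (g * t * g⁻¹)) * g := by rw [h2]
      _ = g⁻¹ * z * g * t := by group
  obtain ⟨n, hn, hnX⟩ := exists_conj_mem_of_relIndex
    ((P : Subgroup G) ⊓ Subgroup.normalizer (T : Set G)) (Subgroup.normalizer (T : Set G))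
    (((P : Subgroup G) ⊓ Subgroup.centralizer ((P : Subgroup G) : Set G)).map
      (MulAut.conj g⁻¹).toMonoidHom)
    (P.isPGroup'.to_le inf_le_left) hT.1.2 (hZp.map _)
    (hXC.trans (Subgroup.centralizer_le_normalizer _))
  have htight := tight_centralizer_le P T hT
  have hy : g⁻¹ * x * g ∈ ((P : Subgroup G) ⊓ Subgroup.centralizer ((P : Subgroup G) : Set G)).map
      (MulAut.conj g⁻¹).toMonoidHom :=
    ⟨x, hx, by show g⁻¹ * x * g⁻¹⁻¹ = _; rw [inv_inv]⟩
  have h1 := hnX _ hy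
  have h2 : n * (g⁻¹ * x * g) * n⁻¹ ∈ Subgroup.centralizer (T : Set G) :=
    conj_mem_centralizer_of_mem_normalizer T n _ hn (hXC hy)
  have h3 : n * (g⁻¹ * x * g) * n⁻¹ ∈ T := htight ⟨h1.1, h2⟩
  have h4 : g⁻¹ * x * g ∈ T := by
    have := (Subgroup.mem_normalizer_iff.mp (inv_mem hn) _).mp h3
    have e : n⁻¹ * (n * (g⁻¹ * x * g) * n⁻¹) * n⁻¹⁻¹ = g⁻¹ * x * g := by group
    rwa [e] at this
  exact (mem_map_conj_iff T g x).mpr h4

section focal

variable {G : Type*} [Group G] [Finite G] {p : ℕ} [Fact p.Prime] (P : Sylow p G)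
  (W : Subgroup G → Subgroup G) (F' : Subgroup G)

/-- From a bound on Z-centric subgroups to tight subgroups. -/
theorem wv_tight_le
    (h2 : ∀ T : Subgroup G, T ≤ (P : Subgroup G) →
      (P : Subgroup G) ⊓ Subgroup.centralizer ((P : Subgroup G) : Set G) ≤ T →
      ¬ p ∣ ((P : Subgroup G) ⊓ Subgroup.normalizer (T : Set G)).relIndex
        (Subgroup.normalizer (T : Set G)) →
      ((P : Subgroup G) ⊓ Subgroup.normalizer (T : Set G)) ⊓
          ⁅Subgroup.normalizer (T : Set G), Subgroup.normalizer (T : Set G)⁆ ≤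
        (((P : Subgroup G) ⊓ Subgroup.normalizer (T : Set G)) ⊓
          ⁅Subgroup.normalizer ((W ((P : Subgroup G) ⊓ Subgroup.normalizer (T : Set G)) : Subgroup G) : Set G),
            Subgroup.normalizer ((W ((P : Subgroup G) ⊓ Subgroup.normalizer (T : Set G)) : Subgroup G) : Set G)⁆) ⊔ F')
    (c : ℕ)
    (hkey : ∀ R : Subgroup G, R ≤ (P : Subgroup G) → ZCentric P R → c ≤ Nat.card R →
      R ⊓ ⁅Subgroup.normalizer ((W R : Subgroup G) : Set G),
        Subgroup.normalizer ((W R : Subgroup G) : Set G)⁆ ≤ F') :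
    ∀ T ∈ tightFamily P, c ≤ Nat.card T →
      (P : Subgroup G) ⊓ ⁅Subgroup.normalizer (T : Set G), Subgroup.normalizer (T : Set G)⁆ ≤ F' := by
  intro T hT hc
  have hTP : T ≤ (P : Subgroup G) := hT.1.1
  have hzc := zcentric_of_tight P T hT
  have hZT := hzc.le hTP
  have hTR : T ≤ (P : Subgroup G) ⊓ Subgroup.normalizer (T : Set G) := le_inf hTP Subgroup.le_normalizer
  have h3 := h2 T hTP hZT hT.1.2
  have h4 := hkey _ inf_le_left (hzc.mono hTR) (hc.trans (Subgroup.card_le_of_le hTR))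
  intro x hx
  have hx' : x ∈ ((P : Subgroup G) ⊓ Subgroup.normalizer (T : Set G)) ⊓
      ⁅Subgroup.normalizer (T : Set G), Subgroup.normalizer (T : Set G)⁆ :=
    ⟨⟨hx.1, commutator_self_le _ hx.2⟩, hx.2⟩
  exact (sup_le h4 le_rfl) (h3 hx')

theorem wv_focal_ge
    (h2 : ∀ T : Subgroup G, T ≤ (P : Subgroup G) →
      (P : Subgroup G) ⊓ Subgroup.centralizer ((P : Subgroup G) : Set G) ≤ T →
      ¬ p ∣ ((P : Subgroup G) ⊓ Subgroup.normalizer (T : Set G)).relIndex
        (Subgroup.normalizer (T : Set G)) →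
      ((P : Subgroup G) ⊓ Subgroup.normalizer (T : Set G)) ⊓
          ⁅Subgroup.normalizer (T : Set G), Subgroup.normalizer (T : Set G)⁆ ≤
        (((P : Subgroup G) ⊓ Subgroup.normalizer (T : Set G)) ⊓
          ⁅Subgroup.normalizer ((W ((P : Subgroup G) ⊓ Subgroup.normalizer (T : Set G)) : Subgroup G) : Set G),
            Subgroup.normalizer ((W ((P : Subgroup G) ⊓ Subgroup.normalizer (T : Set G)) : Subgroup G) : Set G)⁆) ⊔ F')
    (c : ℕ)
    (hkey : ∀ R : Subgroup G, R ≤ (P : Subgroup G) → ZCentric P R → c ≤ Nat.card R →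
      R ⊓ ⁅Subgroup.normalizer ((W R : Subgroup G) : Set G),
        Subgroup.normalizer ((W R : Subgroup G) : Set G)⁆ ≤ F') :
    ∀ D : Subgroup G, D ≤ (P : Subgroup G) → c ≤ Nat.card D → ∀ g : G,
      rcj g (D : Set G) ⊆ ((P : Subgroup G) : Set G) → ∀ a ∈ D, a⁻¹ * (g⁻¹ * a * g) ∈ F' := by
  intro D hD hc g hg a ha
  obtain ⟨g', hg', hag⟩ := goodF_tight P (D : Set G) g hD hg
  have h3 := hg'.restrict D rfl
  have h4 := focal_of_fusGood (P : Subgroup G)
    {T | T ∈ tightFamily P ∧ Nat.card D ≤ Nat.card T} (fun U hU => hU.1.1.1) F'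
    (fun T hT _ => wv_tight_le P W F' h2 c hkey T hT.1 (hc.trans hT.2)) (D : Set G) g' h3 hD a ha
  rw [← hag a ha]; exact h4

theorem wv_key (hW : Cfsg.IsConjugacyFunctor p W)
    (hWZ : ∀ H : Subgroup G, IsPGroup p ↥H → H ⊓ Subgroup.centralizer ((H : Subgroup G) : Set G) ≤ W H)
    (h1 : (P : Subgroup G) ⊓ ⁅Subgroup.normalizer ((W (P : Subgroup G) : Subgroup G) : Set G),
        Subgroup.normalizer ((W (P : Subgroup G) : Subgroup G) : Set G)⁆ ≤ F')
    (h2 : ∀ T : Subgroup G, T ≤ (P : Subgroup G) →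
      (P : Subgroup G) ⊓ Subgroup.centralizer ((P : Subgroup G) : Set G) ≤ T →
      ¬ p ∣ ((P : Subgroup G) ⊓ Subgroup.normalizer (T : Set G)).relIndex
        (Subgroup.normalizer (T : Set G)) →
      ((P : Subgroup G) ⊓ Subgroup.normalizer (T : Set G)) ⊓
          ⁅Subgroup.normalizer (T : Set G), Subgroup.normalizer (T : Set G)⁆ ≤
        (((P : Subgroup G) ⊓ Subgroup.normalizer (T : Set G)) ⊓
          ⁅Subgroup.normalizer ((W ((P : Subgroup G) ⊓ Subgroup.normalizer (T : Set G)) : Subgroup G) : Set G),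
            Subgroup.normalizer ((W ((P : Subgroup G) ⊓ Subgroup.normalizer (T : Set G)) : Subgroup G) : Set G)⁆) ⊔ F') :
    ∀ m : ℕ, ∀ R : Subgroup G, R ≤ (P : Subgroup G) → ZCentric P R →
      Nat.card (P : Subgroup G) ≤ Nat.card R + m →
      R ⊓ ⁅Subgroup.normalizer ((W R : Subgroup G) : Set G),
        Subgroup.normalizer ((W R : Subgroup G) : Set G)⁆ ≤ F' := by
  intro m
  induction m with
  | zero =>
    intro R hRP _ hcard
    have : R = (P : Subgroup G) := Subgroup.eq_of_le_of_card_ge hRP (by simpa using hcard)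
    rw [this]; exact h1
  | succ m ih =>
    intro R hRP hzc hcard
    by_cases hRP' : R = (P : Subgroup G)
    · rw [hRP']; exact h1
    have hRp : IsPGroup p R := P.isPGroup'.to_le hRP
    obtain ⟨H, hH⟩ : ∃ H : Subgroup G, H = W R := ⟨_, rfl⟩
    rw [← hH]
    have hHR : H ≤ R := by rw [hH]; exact (hW R hRp).1
    obtain ⟨D, hD⟩ : ∃ D : Subgroup G, D = (P : Subgroup G) ⊓ Subgroup.normalizer (H : Set G) := ⟨_, rfl⟩
    have hND : (P : Subgroup G) ⊓ Subgroup.normalizer (R : Set G) ≤ D := by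
      rw [hD, hH]
      exact inf_le_inf_left _ (normalizer_le_normalizer_functor W hW R hRp)
    have hRD : R ≤ D := (le_inf hRP Subgroup.le_normalizer).trans hND
    have hDP : D ≤ (P : Subgroup G) := by rw [hD]; exact inf_le_left
    have hcardD : Nat.card R < Nat.card D :=
      lt_of_lt_of_le (card_lt_card_normalizer_inf P.isPGroup' R hRP hRP') (Subgroup.card_le_of_le hND)
    obtain ⟨g₀, hg₀P, hg₀fn⟩ := exists_fully_normalized_conj P H (hHR.trans hRP)
    obtain ⟨k, hkU, hkD⟩ := exists_conj_normalizer_le P H (H.map (MulAut.conj g₀).toMonoidHom)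
      hg₀fn g₀ rfl
    obtain ⟨U, hU⟩ : ∃ U : Subgroup G, U = H.map (MulAut.conj g₀).toMonoidHom := ⟨_, rfl⟩
    rw [← hU] at hg₀P hg₀fn hkU hkD
    rw [← hD] at hkD
    obtain ⟨R₂, hR₂⟩ : ∃ R₂ : Subgroup G, R₂ = (P : Subgroup G) ⊓ Subgroup.normalizer (U : Set G) := ⟨_, rfl⟩
    rw [← hR₂] at hkD
    have hR₂P : R₂ ≤ (P : Subgroup G) := by rw [hR₂]; exact inf_le_left
    have hRk : R.map (MulAut.conj k).toMonoidHom ≤ R₂ := (Subgroup.map_mono hRD).trans hkD
    have hRkP : R.map (MulAut.conj k).toMonoidHom ≤ (P : Subgroup G) := hRk.trans hR₂P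
    have hRkp : IsPGroup p ↥(R.map (MulAut.conj k).toMonoidHom) := hRp.map _
    have hUW : U = W (R.map (MulAut.conj k).toMonoidHom) := by
      rw [(hW R hRp).2.2 k, ← hH, hkU]
    have hZRk := (hzc.conj k).le hRkP
    have hZU : (P : Subgroup G) ⊓ Subgroup.centralizer ((P : Subgroup G) : Set G) ≤ U := by
      rw [hUW]
      refine le_trans ?_ (hWZ _ hRkp)
      refine le_inf hZRk ?_
      exact inf_le_right.trans (Subgroup.centralizer_le hRkP)
    have hR₂key : R₂ ⊓ ⁅Subgroup.normalizer ((W R₂ : Subgroup G) : Set G),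
        Subgroup.normalizer ((W R₂ : Subgroup G) : Set G)⁆ ≤ F' := by
      apply ih R₂ hR₂P ((hzc.conj k).mono hRk)
      have hc1 : Nat.card D ≤ Nat.card R₂ := by
        rw [← card_map_conj D k]; exact Subgroup.card_le_of_le hkD
      omega
    have h3 := h2 U hg₀P hZU hg₀fn
    rw [← hR₂] at h3
    have hrc : rcj k⁻¹ (D : Set G) ⊆ ((P : Subgroup G) : Set G) := by
      rintro _ ⟨d, hd, rfl⟩
      have := hkD (conj_mem_map_conj' D k d hd)
      show k⁻¹⁻¹ * d * k⁻¹ ∈ (P : Subgroup G)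
      rw [inv_inv]
      exact hR₂P this
    have hfoc := wv_focal_ge P W F' h2 (Nat.card R + 1)
      (fun R' hR'P hR'zc hR'c => ih R' hR'P hR'zc (by omega)) D hDP hcardD k⁻¹ hrc
    intro x hx
    have hxD : x ∈ D := hRD hx.1
    have hf := hfoc x hxD
    rw [inv_inv] at hf
    have hkx : k * x * k⁻¹ ∈ R₂ ⊓ ⁅Subgroup.normalizer (U : Set G), Subgroup.normalizer (U : Set G)⁆ := by
      refine ⟨hkD (conj_mem_map_conj' D k x hxD), ?_⟩
      have : k * x * k⁻¹ ∈ (⁅Subgroup.normalizer (H : Set G), Subgroup.normalizer (H : Set G)⁆).map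
          (MulAut.conj k).toMonoidHom := conj_mem_map_conj' _ k x hx.2
      rw [Subgroup.map_commutator, ← normalizer_map_conj, hkU] at this
      exact this
    have h4 : k * x * k⁻¹ ∈ F' := (sup_le hR₂key le_rfl) (h3 hkx)
    have : x = (k * x * k⁻¹) * (x⁻¹ * (k * x * k⁻¹))⁻¹ := by group
    rw [this]
    exact mul_mem h4 (inv_mem hf)

/-- Glauberman-style local-to-global reduction for focal subgroups: if the focal subgroup
of every "Z-centric" local subgroup is controlled up to `F'`, then `P ∩ G' ≤ F'`. -/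
theorem wv_focal (hW : Cfsg.IsConjugacyFunctor p W)
    (hWZ : ∀ H : Subgroup G, IsPGroup p ↥H → H ⊓ Subgroup.centralizer ((H : Subgroup G) : Set G) ≤ W H)
    (h1 : (P : Subgroup G) ⊓ ⁅Subgroup.normalizer ((W (P : Subgroup G) : Subgroup G) : Set G),
        Subgroup.normalizer ((W (P : Subgroup G) : Subgroup G) : Set G)⁆ ≤ F')
    (h2 : ∀ T : Subgroup G, T ≤ (P : Subgroup G) →
      (P : Subgroup G) ⊓ Subgroup.centralizer ((P : Subgroup G) : Set G) ≤ T →
      ¬ p ∣ ((P : Subgroup G) ⊓ Subgroup.normalizer (T : Set G)).relIndex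
        (Subgroup.normalizer (T : Set G)) →
      ((P : Subgroup G) ⊓ Subgroup.normalizer (T : Set G)) ⊓
          ⁅Subgroup.normalizer (T : Set G), Subgroup.normalizer (T : Set G)⁆ ≤
        (((P : Subgroup G) ⊓ Subgroup.normalizer (T : Set G)) ⊓
          ⁅Subgroup.normalizer ((W ((P : Subgroup G) ⊓ Subgroup.normalizer (T : Set G)) : Subgroup G) : Set G),
            Subgroup.normalizer ((W ((P : Subgroup G) ⊓ Subgroup.normalizer (T : Set G)) : Subgroup G) : Set G)⁆) ⊔ F') :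
    (P : Subgroup G) ⊓ ⁅(⊤ : Subgroup G), ⊤⁆ ≤ F' := by
  apply sylow_inf_commutator_le_of_focal P F'
  intro a ha g hg
  have hkey : ∀ R : Subgroup G, R ≤ (P : Subgroup G) → ZCentric P R → 0 ≤ Nat.card R →
      R ⊓ ⁅Subgroup.normalizer ((W R : Subgroup G) : Set G),
        Subgroup.normalizer ((W R : Subgroup G) : Set G)⁆ ≤ F' :=
    fun R hR hzc _ => wv_key P W F' hW hWZ h1 h2 (Nat.card (P : Subgroup G)) R hR hzc
      (Nat.le_add_left _ _)
  refine wv_focal_ge P W F' h2 0 hkey (Subgroup.zpowers a)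
    (by rw [Subgroup.zpowers_le]; exact ha) (Nat.zero_le _) g ?_ a (Subgroup.mem_zpowers a)
  rintro _ ⟨b, hb, rfl⟩
  obtain ⟨i, rfl⟩ := Subgroup.mem_zpowers_iff.mp hb
  have h := conj_zpow (a := g⁻¹) (b := a) (i := i)
  rw [inv_inv] at h
  show g⁻¹ * a ^ i * g ∈ (P : Subgroup G)
  rw [← h]
  exact Subgroup.zpow_mem _ hg i

end focal

end Cfsg.Agent.Lib.Helper3
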