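import Mathlib
import Cfsg.Prelude.Def_ConjugacyFunctors
import Cfsg.Agent.Lib.Helper3.WV
import Cfsg.Agent.Lib.Helper3.CtrlFamilyFusion

set_option autoImplicit false

namespace Cfsg.Agent.Lib.Helper3

open Cfsg

theorem RChain.mono_left {G : Type*} [Group G] {M M' T A : Set G} {g : G} (hM : M ⊆ M')
    (h : RChain M T A g) : RChain M' T A g := by
  induction h with
  | nil A hA => exact RChain.nil A hA
  | cons A x g hx hA _ ih => exact RChain.cons A x g (hM hx) hA ih

theorem Good.mono_left {G : Type*} [Group G] {M M' T A : Set G} {g : G} (hM : M ⊆ M')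
    (h : Good M T A g) : Good M' T A g := by
  obtain ⟨g', hg', hag⟩ := h
  exact ⟨g', hg'.mono_left hM, hag⟩

theorem RChain.conj {G : Type*} [Group G] {M T A : Set G} {g : G} (l : G) (h : RChain M T A g) :
    RChain (rcj l M) (rcj l T) (rcj l A) (l⁻¹ * g * l) := by
  induction h with
  | nil A hA =>
    have : l⁻¹ * 1 * l = 1 := by group
    rw [this]; exact RChain.nil _ (rcj_mono hA l)
  | cons A x g hx hA _ ih =>
    have : l⁻¹ * (x * g) * l = (l⁻¹ * x * l) * (l⁻¹ * g * l) := by group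
    rw [this]
    refine RChain.cons _ _ _ ⟨x, hx, rfl⟩ (rcj_mono hA l) ?_
    have h2 : rcj (l⁻¹ * x * l) (rcj l A) = rcj l (rcj x A) := by
      rw [← rcj_mul, ← rcj_mul]
      congr 1
      group
    rw [h2]; exact ih

theorem Good.conj {G : Type*} [Group G] {M T A : Set G} {g : G} (l : G) (h : Good M T A g) :
    Good (rcj l M) (rcj l T) (rcj l A) (l⁻¹ * g * l) := by
  obtain ⟨g', hg', hag⟩ := h
  refine ⟨l⁻¹ * g' * l, hg'.conj l, ?_⟩
  rintro _ ⟨a, ha, rfl⟩
  have := hag a ha
  calc (l⁻¹ * g' * l)⁻¹ * (l⁻¹ * a * l) * (l⁻¹ * g' * l) = l⁻¹ * (g'⁻¹ * a * g') * l := by group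
    _ = l⁻¹ * (g⁻¹ * a * g) * l := by rw [this]
    _ = (l⁻¹ * g * l)⁻¹ * (l⁻¹ * a * l) * (l⁻¹ * g * l) := by group

theorem RChain.of_list {G : Type*} [Group G] {M T : Set G} : ∀ (L : List G) (A : Set G),
    (∀ y ∈ L, y ∈ M) → (∀ k : ℕ, k ≤ L.length → rcj (L.take k).prod A ⊆ T) →
    RChain M T A L.prod := by
  intro L
  induction L with
  | nil =>
    intro A _ h
    have := h 0 (Nat.le_refl _)
    rw [List.take_zero, List.prod_nil, rcj_one] at this
    exact RChain.nil A this
  | cons y L ih =>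
    intro A hM h
    rw [List.prod_cons]
    refine RChain.cons A y L.prod (hM y List.mem_cons_self) ?_
      (ih (rcj y A) (fun z hz => hM z (List.mem_cons_of_mem _ hz)) ?_)
    · have := h 0 (Nat.zero_le _)
      rwa [List.take_zero, List.prod_nil, rcj_one] at this
    · intro k hk
      have := h (k + 1) (by simpa using hk)
      rwa [List.take_succ_cons, List.prod_cons, rcj_mul] at this

theorem RChain.exists_list {G : Type*} [Group G] {M T A : Set G} {g : G} (h : RChain M T A g) :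
    ∃ L : List G, (∀ y ∈ L, y ∈ M) ∧ L.prod = g ∧
      ∀ k : ℕ, k ≤ L.length → rcj (L.take k).prod A ⊆ T := by
  induction h with
  | nil A hA =>
    refine ⟨[], by simp, rfl, fun k _ => ?_⟩
    rw [List.take_nil, List.prod_nil, rcj_one]; exact hA
  | cons A x g hx hA _ ih =>
    obtain ⟨L, hL, hprod, hstep⟩ := ih
    refine ⟨x :: L, ?_, by rw [List.prod_cons, hprod], ?_⟩
    · intro y hy
      rcases List.mem_cons.mp hy with rfl | hy
      · exact hx
      · exact hL y hy
    · intro k hk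
      cases k with
      | zero => rw [List.take_zero, List.prod_nil, rcj_one]; exact hA
      | succ j =>
        rw [List.take_succ_cons, List.prod_cons, rcj_mul]
        exact hstep j (by simpa using hk)

theorem rcj_eq_self_of_mem_centralizer {G : Type*} [Group G] (X : Set G) (c : G)
    (hc : c ∈ Subgroup.centralizer X) : rcj c X = X := by
  have h : ∀ x ∈ X, c⁻¹ * x * c = x := by
    intro x hx
    have := (Subgroup.mem_centralizer_iff.mp hc) x hx
    rw [mul_assoc, this]; group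
  unfold rcj
  rw [Set.image_congr h, Set.image_id']

theorem sylow_center_ne_bot {G : Type*} [Group G] [Finite G] {p : ℕ} [Fact p.Prime]
    (P : Sylow p G) (hP : (P : Subgroup G) ≠ ⊥) :
    (P : Subgroup G) ⊓ Subgroup.centralizer ((P : Subgroup G) : Set G) ≠ ⊥ := by
  have hnt : Nontrivial ↥(P : Subgroup G) := (Subgroup.nontrivial_iff_ne_bot _).mpr hP
  have hc := IsPGroup.center_nontrivial (G := ↥(P : Subgroup G)) P.isPGroup'
  obtain ⟨z, hz⟩ := exists_ne (1 : Subgroup.center ↥(P : Subgroup G))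
  intro hbot
  apply hz
  have hmem : ((z : ↥(P : Subgroup G)) : G) ∈
      (P : Subgroup G) ⊓ Subgroup.centralizer ((P : Subgroup G) : Set G) := by
    refine Subgroup.mem_inf.mpr ⟨(z : ↥(P : Subgroup G)).2, ?_⟩
    rw [Subgroup.mem_centralizer_iff]
    intro h hh
    have := (Subgroup.mem_center_iff.mp z.2) ⟨h, hh⟩
    exact congrArg Subtype.val this
  rw [hbot, Subgroup.mem_bot] at hmem
  apply Subtype.ext; apply Subtype.ext; exact hmem

/-- The local step set at `R`: elements normalizing `W R` or lying in `E R`. -/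
def wvStep {G : Type*} [Group G] (W : Subgroup G → Subgroup G) (E : Subgroup G → Set G)
    (R : Subgroup G) : Set G :=
  {y : G | y ∈ Subgroup.normalizer ((W R : Subgroup G) : Set G) ∨ y ∈ E R}

section fusion

variable {G : Type*} [Group G] [Finite G] {p : ℕ} [Fact p.Prime] (P : Sylow p G)
  (W : Subgroup G → Subgroup G) (E : Subgroup G → Set G)

omit [Finite G] [Fact p.Prime] in
theorem wvf_conv (R : Subgroup G) (hRP : R ≤ (P : Subgroup G))
    (hstep : ∀ y ∈ wvStep W E R, ∀ B : Set G, B ⊆ (R : Set G) → rcj y B ⊆ (R : Set G) →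
      Good (wvStep W E (P : Subgroup G)) ((P : Subgroup G) : Set G) B y) :
    ∀ (B : Set G) (g : G), RChain (wvStep W E R) (R : Set G) B g →
      Good (wvStep W E (P : Subgroup G)) ((P : Subgroup G) : Set G) B g := by
  intro B g hch
  induction hch with
  | nil B' hB' => exact ⟨1, RChain.nil _ (hB'.trans hRP), fun a _ => rfl⟩
  | cons B' x g hx hB' hrest ih =>
    exact Good.trans (hstep x hx B' hB' hrest.subset_left) ih

theorem wvf_tight
    (hlc : ∀ T : Subgroup G, T ≤ (P : Subgroup G) →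
      (P : Subgroup G) ⊓ Subgroup.centralizer ((P : Subgroup G) : Set G) ≤ T →
      ¬ p ∣ ((P : Subgroup G) ⊓ Subgroup.normalizer (T : Set G)).relIndex
        (Subgroup.normalizer (T : Set G)) →
      ∀ x ∈ Subgroup.normalizer (T : Set G), ∀ B : Set G,
        B ⊆ (((P : Subgroup G) ⊓ Subgroup.normalizer (T : Set G) : Subgroup G) : Set G) →
        rcj x B ⊆ (((P : Subgroup G) ⊓ Subgroup.normalizer (T : Set G) : Subgroup G) : Set G) →
        Good (wvStep W E ((P : Subgroup G) ⊓ Subgroup.normalizer (T : Set G)))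
          (((P : Subgroup G) ⊓ Subgroup.normalizer (T : Set G) : Subgroup G) : Set G) B x)
    (c : ℕ)
    (hkey : ∀ R : Subgroup G, R ≤ (P : Subgroup G) → ZCentric P R → c ≤ Nat.card R →
      ∀ y ∈ wvStep W E R, ∀ B : Set G, B ⊆ (R : Set G) → rcj y B ⊆ (R : Set G) →
        Good (wvStep W E (P : Subgroup G)) ((P : Subgroup G) : Set G) B y) :
    ∀ T ∈ tightFamily P, c ≤ Nat.card T → ∀ x ∈ Subgroup.normalizer (T : Set G), ∀ B : Set G,
      B ⊆ (T : Set G) → Good (wvStep W E (P : Subgroup G)) ((P : Subgroup G) : Set G) B x := by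
  intro T hT hc x hx B hB
  have hTP : T ≤ (P : Subgroup G) := hT.1.1
  have hzc := zcentric_of_tight P T hT
  have hZT := hzc.le hTP
  have hTR : T ≤ (P : Subgroup G) ⊓ Subgroup.normalizer (T : Set G) := le_inf hTP Subgroup.le_normalizer
  have hBx : rcj x B ⊆ (T : Set G) := by
    have h1 := rcj_mono hB x
    rwa [rcj_eq_of_mem_normalizer T x hx] at h1
  obtain ⟨x', hx', hx'a⟩ := hlc T hTP hZT hT.1.2 x hx B (hB.trans hTR) (hBx.trans hTR)
  exact (wvf_conv P W E _ inf_le_left
    (hkey _ inf_le_left (hzc.mono hTR) (hc.trans (Subgroup.card_le_of_le hTR))) B x' hx').congr hx'a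

theorem wvf_ge
    (hlc : ∀ T : Subgroup G, T ≤ (P : Subgroup G) →
      (P : Subgroup G) ⊓ Subgroup.centralizer ((P : Subgroup G) : Set G) ≤ T →
      ¬ p ∣ ((P : Subgroup G) ⊓ Subgroup.normalizer (T : Set G)).relIndex
        (Subgroup.normalizer (T : Set G)) →
      ∀ x ∈ Subgroup.normalizer (T : Set G), ∀ B : Set G,
        B ⊆ (((P : Subgroup G) ⊓ Subgroup.normalizer (T : Set G) : Subgroup G) : Set G) →
        rcj x B ⊆ (((P : Subgroup G) ⊓ Subgroup.normalizer (T : Set G) : Subgroup G) : Set G) →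
        Good (wvStep W E ((P : Subgroup G) ⊓ Subgroup.normalizer (T : Set G)))
          (((P : Subgroup G) ⊓ Subgroup.normalizer (T : Set G) : Subgroup G) : Set G) B x)
    (c : ℕ)
    (hkey : ∀ R : Subgroup G, R ≤ (P : Subgroup G) → ZCentric P R → c ≤ Nat.card R →
      ∀ y ∈ wvStep W E R, ∀ B : Set G, B ⊆ (R : Set G) → rcj y B ⊆ (R : Set G) →
        Good (wvStep W E (P : Subgroup G)) ((P : Subgroup G) : Set G) B y) :
    ∀ D : Subgroup G, D ≤ (P : Subgroup G) → c ≤ Nat.card D → ∀ g : G,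
      rcj g (D : Set G) ⊆ ((P : Subgroup G) : Set G) →
      Good (wvStep W E (P : Subgroup G)) ((P : Subgroup G) : Set G) (D : Set G) g := by
  intro D hD hc g hg
  obtain ⟨g', hg', hag⟩ := goodF_tight P (D : Set G) g hD hg
  have h3 := hg'.restrict D rfl
  have h4 := good_of_fusGood (P : Subgroup G)
    {T | T ∈ tightFamily P ∧ Nat.card D ≤ Nat.card T} (fun U hU => hU.1.1.1)
    (wvStep W E (P : Subgroup G))
    (fun T hT x hx B hB => wvf_tight P W E hlc c hkey T hT.1 (hc.trans hT.2) x hx B hB)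
    (D : Set G) g' h3 hD
  exact h4.congr hag

theorem wvf_key (hW : Cfsg.IsConjugacyFunctor p W)
    (hWZ : ∀ H : Subgroup G, IsPGroup p ↥H → H ⊓ Subgroup.centralizer ((H : Subgroup G) : Set G) ≤ W H)
    (hEinv : ∀ x ∈ E (P : Subgroup G), x⁻¹ ∈ E (P : Subgroup G))
    (hE : ∀ R : Subgroup G, R ≤ (P : Subgroup G) →
      (P : Subgroup G) ⊓ Subgroup.centralizer ((P : Subgroup G) : Set G) ≤ R → E R ⊆ E (P : Subgroup G))
    (hlc : ∀ T : Subgroup G, T ≤ (P : Subgroup G) →
      (P : Subgroup G) ⊓ Subgroup.centralizer ((P : Subgroup G) : Set G) ≤ T →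
      ¬ p ∣ ((P : Subgroup G) ⊓ Subgroup.normalizer (T : Set G)).relIndex
        (Subgroup.normalizer (T : Set G)) →
      ∀ x ∈ Subgroup.normalizer (T : Set G), ∀ B : Set G,
        B ⊆ (((P : Subgroup G) ⊓ Subgroup.normalizer (T : Set G) : Subgroup G) : Set G) →
        rcj x B ⊆ (((P : Subgroup G) ⊓ Subgroup.normalizer (T : Set G) : Subgroup G) : Set G) →
        Good (wvStep W E ((P : Subgroup G) ⊓ Subgroup.normalizer (T : Set G)))
          (((P : Subgroup G) ⊓ Subgroup.normalizer (T : Set G) : Subgroup G) : Set G) B x) :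
    ∀ m : ℕ, ∀ R : Subgroup G, R ≤ (P : Subgroup G) → ZCentric P R →
      Nat.card (P : Subgroup G) ≤ Nat.card R + m →
      ∀ y ∈ wvStep W E R, ∀ B : Set G, B ⊆ (R : Set G) → rcj y B ⊆ (R : Set G) →
        Good (wvStep W E (P : Subgroup G)) ((P : Subgroup G) : Set G) B y := by
  have hMinv : ∀ x ∈ wvStep W E (P : Subgroup G), x⁻¹ ∈ wvStep W E (P : Subgroup G) := by
    rintro x (hx | hx)
    · exact Or.inl (inv_mem hx)
    · exact Or.inr (hEinv x hx)
  have hbase : ∀ y ∈ wvStep W E (P : Subgroup G), ∀ B : Set G, B ⊆ ((P : Subgroup G) : Set G) →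
      rcj y B ⊆ ((P : Subgroup G) : Set G) →
      Good (wvStep W E (P : Subgroup G)) ((P : Subgroup G) : Set G) B y :=
    fun y hy B hB hBy => ⟨y, RChain.single hy hB hBy, fun a _ => rfl⟩
  intro m
  induction m with
  | zero =>
    intro R hRP _ hcard
    have : R = (P : Subgroup G) := Subgroup.eq_of_le_of_card_ge hRP (by simpa using hcard)
    rw [this]; exact hbase
  | succ m ih =>
    intro R hRP hzc hcard y hy B hB hBy
    have hRP' : (R : Set G) ⊆ ((P : Subgroup G) : Set G) := hRP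
    rcases hy with hyN | hyE
    swap
    · exact hbase y (Or.inr (hE R hRP (hzc.le hRP) hyE)) B (hB.trans hRP') (hBy.trans hRP')
    by_cases hRPeq : R = (P : Subgroup G)
    · refine hbase y (Or.inl ?_) B (hB.trans hRP') (hBy.trans hRP')
      rw [← hRPeq]; exact hyN
    have hRp : IsPGroup p R := P.isPGroup'.to_le hRP
    obtain ⟨H, hH⟩ : ∃ H : Subgroup G, H = W R := ⟨_, rfl⟩
    rw [← hH] at hyN
    have hHR : H ≤ R := by rw [hH]; exact (hW R hRp).1
    obtain ⟨D, hD⟩ : ∃ D : Subgroup G, D = (P : Subgroup G) ⊓ Subgroup.normalizer (H : Set G) := ⟨_, rfl⟩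
    have hND : (P : Subgroup G) ⊓ Subgroup.normalizer (R : Set G) ≤ D := by
      rw [hD, hH]
      exact inf_le_inf_left _ (normalizer_le_normalizer_functor W hW R hRp)
    have hRD : R ≤ D := (le_inf hRP Subgroup.le_normalizer).trans hND
    have hRD' : (R : Set G) ⊆ (D : Set G) := hRD
    have hDP : D ≤ (P : Subgroup G) := by rw [hD]; exact inf_le_left
    have hcardD : Nat.card R < Nat.card D :=
      lt_of_lt_of_le (card_lt_card_normalizer_inf P.isPGroup' R hRP hRPeq) (Subgroup.card_le_of_le hND)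
    obtain ⟨g₀, hg₀P, hg₀fn⟩ := exists_fully_normalized_conj P H (hHR.trans hRP)
    obtain ⟨k, hkU, hkD⟩ := exists_conj_normalizer_le P H (H.map (MulAut.conj g₀).toMonoidHom)
      hg₀fn g₀ rfl
    obtain ⟨U, hU⟩ : ∃ U : Subgroup G, U = H.map (MulAut.conj g₀).toMonoidHom := ⟨_, rfl⟩
    rw [← hU] at hg₀P hg₀fn hkU hkD
    rw [← hD] at hkD
    have hlcU := hlc U hg₀P
    obtain ⟨R₂, hR₂⟩ : ∃ R₂ : Subgroup G, R₂ = (P : Subgroup G) ⊓ Subgroup.normalizer (U : Set G) := ⟨_, rfl⟩
    have hg₀fn' := hg₀fn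
    rw [← hR₂] at hkD hlcU hg₀fn'
    have hR₂P : R₂ ≤ (P : Subgroup G) := by rw [hR₂]; exact inf_le_left
    have hRk : R.map (MulAut.conj k).toMonoidHom ≤ R₂ := (Subgroup.map_mono hRD).trans hkD
    have hRkP : R.map (MulAut.conj k).toMonoidHom ≤ (P : Subgroup G) := hRk.trans hR₂P
    have hRkp : IsPGroup p ↥(R.map (MulAut.conj k).toMonoidHom) := hRp.map _
    have hUW : U = W (R.map (MulAut.conj k).toMonoidHom) := by
      rw [(hW R hRp).2.2 k, ← hH, hkU]
    have hZRk := (hzc.conj k).le hRkP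
    have hZU : (P : Subgroup G) ⊓ Subgroup.centralizer ((P : Subgroup G) : Set G) ≤ U := by
      rw [hUW]
      refine le_trans ?_ (hWZ _ hRkp)
      refine le_inf hZRk ?_
      exact inf_le_right.trans (Subgroup.centralizer_le hRkP)
    have hc1 : Nat.card D ≤ Nat.card R₂ := by
      rw [← card_map_conj D k]; exact Subgroup.card_le_of_le hkD
    have hDk : rcj k⁻¹ (D : Set G) ⊆ (R₂ : Set G) := by
      rw [rcj_subgroup, inv_inv]
      exact hkD
    have hG1 : Good (wvStep W E (P : Subgroup G)) ((P : Subgroup G) : Set G) (D : Set G) k⁻¹ :=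
      wvf_ge P W E hlc (Nat.card R + 1)
        (fun R' hR'P hR'zc hR'c => ih R' hR'P hR'zc (by omega)) D hDP hcardD k⁻¹
        (hDk.trans hR₂P)
    have hBD : B ⊆ (D : Set G) := hB.trans hRD'
    have hByD : rcj y B ⊆ (D : Set G) := hBy.trans hRD'
    have hG1' := hG1.mono hBD
    have hG3' := hG1.mono hByD
    have hm : k * y * k⁻¹ ∈ Subgroup.normalizer (U : Set G) := by
      rw [← hkU]
      exact conj_mem_normalizer_map_conj H k y hyN
    have hyk : y * k⁻¹ = k⁻¹ * (k * y * k⁻¹) := by group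
    obtain ⟨x'', hx'', hx''a⟩ := hlcU hZU hg₀fn' (k * y * k⁻¹) hm (rcj k⁻¹ B)
      ((rcj_mono hBD k⁻¹).trans hDk) (by
        rw [← rcj_mul, ← hyk, rcj_mul]
        exact (rcj_mono hByD k⁻¹).trans hDk)
    have hG2 : Good (wvStep W E (P : Subgroup G)) ((P : Subgroup G) : Set G) (rcj k⁻¹ B)
        (k * y * k⁻¹) :=
      (wvf_conv P W E R₂ hR₂P (ih R₂ hR₂P ((hzc.conj k).mono hRk) (by omega)) _ _ hx'').congr hx''a
    have hG3 := hG3'.symm hMinv
    rw [inv_inv, ← rcj_mul, hyk] at hG3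
    have hG123 := Good.trans (Good.trans hG1' hG2) hG3
    have hfin : k⁻¹ * (k * y * k⁻¹) * k = y := by group
    rw [hfin] at hG123
    exact hG123

/-- Glauberman-style local-to-global reduction for strong fusion with respect to `W` and an
auxiliary family of step sets `E`. -/
theorem wvf_main (hW : Cfsg.IsConjugacyFunctor p W)
    (hWZ : ∀ H : Subgroup G, IsPGroup p ↥H → H ⊓ Subgroup.centralizer ((H : Subgroup G) : Set G) ≤ W H)
    (hEinv : ∀ x ∈ E (P : Subgroup G), x⁻¹ ∈ E (P : Subgroup G))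
    (hE : ∀ R : Subgroup G, R ≤ (P : Subgroup G) →
      (P : Subgroup G) ⊓ Subgroup.centralizer ((P : Subgroup G) : Set G) ≤ R → E R ⊆ E (P : Subgroup G))
    (hlc : ∀ T : Subgroup G, T ≤ (P : Subgroup G) →
      (P : Subgroup G) ⊓ Subgroup.centralizer ((P : Subgroup G) : Set G) ≤ T →
      ¬ p ∣ ((P : Subgroup G) ⊓ Subgroup.normalizer (T : Set G)).relIndex
        (Subgroup.normalizer (T : Set G)) →
      ∀ x ∈ Subgroup.normalizer (T : Set G), ∀ B : Set G,
        B ⊆ (((P : Subgroup G) ⊓ Subgroup.normalizer (T : Set G) : Subgroup G) : Set G) →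
        rcj x B ⊆ (((P : Subgroup G) ⊓ Subgroup.normalizer (T : Set G) : Subgroup G) : Set G) →
        Good (wvStep W E ((P : Subgroup G) ⊓ Subgroup.normalizer (T : Set G)))
          (((P : Subgroup G) ⊓ Subgroup.normalizer (T : Set G) : Subgroup G) : Set G) B x) :
    ∀ (A : Set G) (g : G), A ⊆ ((P : Subgroup G) : Set G) → rcj g A ⊆ ((P : Subgroup G) : Set G) →
      Good (wvStep W E (P : Subgroup G)) ((P : Subgroup G) : Set G) A g := by
  intro A g hA hAg
  have hkey : ∀ R : Subgroup G, R ≤ (P : Subgroup G) → ZCentric P R → 0 ≤ Nat.card R →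
      ∀ y ∈ wvStep W E R, ∀ B : Set G, B ⊆ (R : Set G) → rcj y B ⊆ (R : Set G) →
        Good (wvStep W E (P : Subgroup G)) ((P : Subgroup G) : Set G) B y :=
    fun R hR hzc _ => wvf_key P W E hW hWZ hEinv hE hlc (Nat.card (P : Subgroup G)) R hR hzc
      (Nat.le_add_left _ _)
  have h := wvf_ge P W E hlc 0 hkey (Subgroup.closure A) ((Subgroup.closure_le _).mpr hA)
    (Nat.zero_le _) g (by
      rw [rcj_subgroup, MonoidHom.map_closure]
      show ((Subgroup.closure _ : Subgroup G) : Set G) ⊆ ((P : Subgroup G) : Set G)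
      have : Subgroup.closure ((MulAut.conj g⁻¹).toMonoidHom '' A) ≤ (P : Subgroup G) := by
        rw [Subgroup.closure_le]
        rintro _ ⟨a, ha, rfl⟩
        apply hAg
        refine ⟨a, ha, ?_⟩
        show g⁻¹ * a * g = g⁻¹ * a * g⁻¹⁻¹
        rw [inv_inv]
      exact this)
  exact h.mono Subgroup.subset_closure

end fusion

end Cfsg.Agent.Lib.Helper3
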