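import Mathlib
import Cfsg.Prelude.Def_Transfer
import Cfsg.Agent.Lib.Helper3.NormLemma

set_option autoImplicit false

namespace Cfsg.Agent.Lib.Helper3

open Cfsg

/-- Norm of an element killed by `p` is `(σ - 1)^(p-1)` applied to it. -/
theorem sum_pow_apply_eq_sub_one_pow {B : Type*} [AddCommGroup B] {p : ℕ} (hp : p.Prime)
    (σ : Module.End ℤ B) (b : B) (hpb : p • b = 0) :
    ∑ i ∈ Finset.range p, (σ ^ i) b = ((σ - 1) ^ (p - 1)) b := by
  have h1 : ∑ i ∈ Finset.range p, (σ ^ i) b = (∑ i ∈ Finset.range p, σ ^ i) b := by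
    rw [LinearMap.sum_apply]
  have h2 : ∑ i ∈ Finset.range p, σ ^ i
      = ∑ j ∈ Finset.range p, (p.choose (j + 1) : Module.End ℤ B) * (σ - 1) ^ j := by
    rw [← geom_sum_one_add]
    refine Finset.sum_congr rfl fun i _ => ?_
    congr 1
    abel
  rw [h1, h2, LinearMap.sum_apply]
  have hp1 : p - 1 ∈ Finset.range p := Finset.mem_range.mpr (by have := hp.pos; omega)
  rw [Finset.sum_eq_single_of_mem (p - 1) hp1]
  · rw [Module.End.mul_apply, Module.End.natCast_apply]
    have : p - 1 + 1 = p := by have := hp.pos; omega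
    rw [this, Nat.choose_self, one_smul]
  · intro j hj hjne
    rw [Finset.mem_range] at hj
    rw [Module.End.mul_apply, Module.End.natCast_apply]
    have hdvd : p ∣ p.choose (j + 1) := hp.dvd_choose_self (by omega) (by omega)
    obtain ⟨c, hc⟩ := hdvd
    rw [hc, mul_comm, mul_smul, ← map_nsmul, hpb, map_zero, smul_zero]

/-- Multiplicative form: the norm of `b` under `c` is the `(p-1)`-fold commutator. -/
theorem prod_iterate_eq_iterate {A : Type*} [CommGroup A] {p : ℕ} (hp : p.Prime) (c : A →* A)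
    (b : A) (hpb : b ^ p = 1) :
    ∏ i ∈ Finset.range p, c^[i] b = (fun a => a⁻¹ * c a)^[p - 1] b := by
  let σ : Module.End ℤ (Additive A) := (MonoidHom.toAdditive c).toIntLinearMap
  have hσ : ∀ a : A, σ (Additive.ofMul a) = Additive.ofMul (c a) := fun a => rfl
  have h1 : ∀ i : ℕ, ∀ a : A, (σ ^ i) (Additive.ofMul a) = Additive.ofMul (c^[i] a) := by
    intro i
    induction i with
    | zero => intro a; simp
    | succ i ih =>
      intro a
      rw [pow_succ', Module.End.mul_apply, ih, hσ, Function.iterate_succ_apply']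
  have h2 : ∀ j : ℕ, ∀ a : A, ((σ - 1) ^ j) (Additive.ofMul a)
      = Additive.ofMul ((fun a => a⁻¹ * c a)^[j] a) := by
    intro j
    induction j with
    | zero => intro a; simp
    | succ j ih =>
      intro a
      rw [pow_succ', Module.End.mul_apply, ih, Function.iterate_succ_apply', LinearMap.sub_apply,
        hσ, Module.End.one_apply, ← ofMul_div, div_eq_mul_inv, mul_comm]
  have h3 := sum_pow_apply_eq_sub_one_pow hp σ (Additive.ofMul b)
    (by rw [← ofMul_pow, hpb, ofMul_one])
  have h4 : ∑ i ∈ Finset.range p, (σ ^ i) (Additive.ofMul b)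
      = Additive.ofMul (∏ i ∈ Finset.range p, c^[i] b) := by
    rw [ofMul_prod]
    exact Finset.sum_congr rfl fun i _ => h1 i b
  rw [h4, h2] at h3
  exact Additive.ofMul.injective h3

/-- The chain `D j = {a | δ^[j] a ∈ K}`. -/
def deltaChain {A : Type*} [Group A] (δ : A →* A) (K : Subgroup A) : ℕ → Subgroup A
  | 0 => K
  | j + 1 => (deltaChain δ K j).comap δ

theorem mem_deltaChain {A : Type*} [Group A] (δ : A →* A) (K : Subgroup A) (j : ℕ) (a : A) :
    a ∈ deltaChain δ K j ↔ δ^[j] a ∈ K := by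
  induction j generalizing a with
  | zero => rfl
  | succ j ih =>
    rw [deltaChain, Subgroup.mem_comap, ih, Function.iterate_succ_apply]

/-- If the norm of `x` under an automorphism-like `c` of order `p` avoids the `c`-invariant
subgroup `K` of the elementary abelian group `A`, then `|A : K| ≥ p ^ p`. -/
theorem card_ge_of_norm_not_mem {A : Type*} [CommGroup A] [Finite A] {p : ℕ} [Fact p.Prime]
    (hA : IsPGroup p A) (c : A →* A) (hcp : ∀ a, c^[p] a = a) (hexp : ∀ a : A, a ^ p = 1)
    (K : Subgroup A) (hK : ∀ a ∈ K, c a ∈ K) (x : A)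
    (hx : ∏ i ∈ Finset.range p, c^[i] x ∉ K) : p ^ p * Nat.card K ≤ Nat.card A := by
  have hp : p.Prime := Fact.out
  let δ : A →* A :=
    { toFun := fun a => a⁻¹ * c a
      map_one' := by simp
      map_mul' := fun a b => by rw [map_mul, mul_inv]; exact mul_mul_mul_comm _ _ _ _ }
  have hδ : ∀ a, δ a = a⁻¹ * c a := fun a => rfl
  have hδK : ∀ a ∈ K, δ a ∈ K := fun a ha => K.mul_mem (K.inv_mem ha) (hK a ha)
  have hmono : ∀ j, deltaChain δ K j ≤ deltaChain δ K (j + 1) := by
    intro j a ha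
    rw [mem_deltaChain] at ha ⊢
    rw [Function.iterate_succ_apply']
    exact hδK _ ha
  have hstab : ∀ j, deltaChain δ K j = deltaChain δ K (j + 1) →
      ∀ m, deltaChain δ K (j + m) = deltaChain δ K j := by
    intro j hj m
    induction m with
    | zero => rfl
    | succ m ih =>
      rw [← add_assoc]
      change (deltaChain δ K (j + m)).comap δ = _
      rw [ih]
      exact hj.symm
  have hnorm : ∀ a : A, δ^[p - 1] a = ∏ i ∈ Finset.range p, c^[i] a := fun a =>
    (prod_iterate_eq_iterate hp c a (hexp a)).symm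
  have htop : ∀ a : A, a ∈ deltaChain δ K p := by
    intro a
    rw [mem_deltaChain]
    have hp1 : p = (p - 1) + 1 := by have := hp.pos; omega
    rw [hp1, Function.iterate_succ_apply', hnorm, hδ]
    have h1 : c (∏ i ∈ Finset.range p, c^[i] a) = ∏ i ∈ Finset.range p, c^[i] a := by
      rw [map_prod]
      have e1 : ∏ i ∈ Finset.range p, c (c^[i] a) = ∏ i ∈ Finset.range p, c^[i + 1] a :=
        Finset.prod_congr rfl fun i _ => (Function.iterate_succ_apply' c i a).symm
      rw [e1]
      have e2 := Finset.prod_range_succ' (fun i => c^[i] a) p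
      have e3 := Finset.prod_range_succ (fun i => c^[i] a) p
      rw [e3, hcp a] at e2
      simp only [Function.iterate_zero, id] at e2
      exact (mul_right_cancel e2).symm
    rw [h1, inv_mul_cancel]
    exact K.one_mem
  have hxn : x ∉ deltaChain δ K (p - 1) := by
    rw [mem_deltaChain, hnorm]
    exact hx
  have hstrict : ∀ j, j < p → deltaChain δ K j ≠ deltaChain δ K (j + 1) := by
    intro j hj hEq
    have h1 := hstab j hEq (p - 1 - j)
    have h2 := hstab j hEq (p - j)
    have e1 : j + (p - 1 - j) = p - 1 := by omega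
    have e2 : j + (p - j) = p := by omega
    rw [e1] at h1
    rw [e2] at h2
    apply hxn
    rw [h1, ← h2]
    exact htop x
  have hcount : ∀ j, j ≤ p → p ^ j * Nat.card K ≤ Nat.card (deltaChain δ K j) := by
    intro j
    induction j with
    | zero => intro _; simp [deltaChain]
    | succ j ih =>
      intro hj
      have h1 := ih (by omega)
      have hlt : deltaChain δ K j < deltaChain δ K (j + 1) :=
        lt_of_le_of_ne (hmono j) (hstrict j (by omega))
      obtain ⟨a, ha⟩ := IsPGroup.iff_card.mp (hA.to_subgroup (deltaChain δ K j))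
      obtain ⟨b, hb⟩ := IsPGroup.iff_card.mp (hA.to_subgroup (deltaChain δ K (j + 1)))
      have hcardlt : Nat.card (deltaChain δ K j) < Nat.card (deltaChain δ K (j + 1)) :=
        lt_of_not_ge fun hge => hlt.ne (Subgroup.eq_of_le_of_card_ge hlt.le hge)
      rw [ha, hb] at hcardlt
      have hab : a < b := (Nat.pow_lt_pow_iff_right hp.one_lt).mp hcardlt
      calc p ^ (j + 1) * Nat.card K = p * (p ^ j * Nat.card K) := by ring
        _ ≤ p * Nat.card (deltaChain δ K j) := Nat.mul_le_mul_left _ h1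
        _ = p ^ (a + 1) := by rw [ha]; ring
        _ ≤ p ^ b := Nat.pow_le_pow_right hp.pos hab
        _ = Nat.card (deltaChain δ K (j + 1)) := hb.symm
  exact (hcount p le_rfl).trans (Subgroup.card_le_card_group _)

/-- In an elementary abelian `p`-group, a nontrivial element is avoided by a subgroup of
index `p`. -/
theorem exists_hyperplane_not_mem {A : Type*} [CommGroup A] [Finite A] {p : ℕ} [Fact p.Prime]
    (hexp : ∀ a : A, a ^ p = 1) (n : A) (hn : n ≠ 1) :
    ∃ H : Subgroup A, n ∉ H ∧ Nat.card A = p * Nat.card H := by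
  have hp : p.Prime := Fact.out
  obtain ⟨H, hH⟩ := Set.Finite.exists_maximal (s := {H : Subgroup A | n ∉ H}) (Set.toFinite _)
    ⟨⊥, by simpa [Subgroup.mem_bot] using hn⟩
  have hnH : n ∉ H := hH.prop
  have hmax : ∀ H' : Subgroup A, H ≤ H' → n ∉ H' → H' ≤ H := fun H' hle hn' =>
    hH.le_of_ge hn' hle
  refine ⟨H, hnH, ?_⟩
  have hgen : ∀ a : A, ∃ h ∈ H, ∃ k : ℤ, a = h * n ^ k := by
    intro a
    by_cases ha : a ∈ H
    · exact ⟨a, ha, 0, by simp⟩
    · have h1 : n ∈ H ⊔ Subgroup.zpowers a := by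
        by_contra hcon
        exact ha (hmax _ le_sup_left hcon
          ((le_sup_right : Subgroup.zpowers a ≤ H ⊔ Subgroup.zpowers a)
            (Subgroup.mem_zpowers a)))
      obtain ⟨h, hh, z, hz, e⟩ := Subgroup.mem_sup.mp h1
      obtain ⟨k, rfl⟩ := Subgroup.mem_zpowers_iff.mp hz
      have hpk : ¬ (p : ℤ) ∣ k := by
        rintro ⟨m, rfl⟩
        apply hnH
        rw [← e, zpow_mul, zpow_natCast, hexp, one_zpow, mul_one]
        exact hh
      have hcop : IsCoprime (p : ℤ) k :=
        (Nat.prime_iff_prime_int.mp hp).coprime_iff_not_dvd.mpr hpk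
      obtain ⟨u, v, huv⟩ := hcop
      refine ⟨h⁻¹ ^ v, H.zpow_mem (H.inv_mem hh) v, v, ?_⟩
      have h2 : a ^ k = h⁻¹ * n := by rw [← e]; group
      calc a = a ^ (u * (p : ℤ) + v * k) := by rw [huv, zpow_one]
        _ = (a ^ k) ^ v := by
          rw [zpow_add, mul_comm u, zpow_mul, zpow_natCast, hexp, one_zpow, one_mul, mul_comm v,
            zpow_mul]
        _ = h⁻¹ ^ v * n ^ v := by rw [h2, mul_zpow]
  have hq : Nat.card (A ⧸ H) = p := by
    have h1 : (Subgroup.zpowers (QuotientGroup.mk n : A ⧸ H)) = ⊤ := by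
      rw [eq_top_iff]
      intro q _
      obtain ⟨a, rfl⟩ := QuotientGroup.mk_surjective q
      obtain ⟨h, hh, k, rfl⟩ := hgen a
      rw [Subgroup.mem_zpowers_iff]
      refine ⟨k, ?_⟩
      rw [QuotientGroup.mk_mul, (QuotientGroup.eq_one_iff h).mpr hh, one_mul,
        QuotientGroup.mk_zpow]
    have h2 : orderOf (QuotientGroup.mk n : A ⧸ H) = p := by
      apply orderOf_eq_prime
      · rw [← QuotientGroup.mk_pow, hexp]; rfl
      · rw [Ne, QuotientGroup.eq_one_iff]; exact hnH
    rw [← Subgroup.card_top (G := A ⧸ H), ← h1, Nat.card_zpowers, h2]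
  rw [Subgroup.card_eq_card_quotient_mul_card_subgroup H, hq]

/-- Ambient form of `card_ge_of_norm_not_mem`. -/
theorem card_ge_of_list_prod_not_mem {P : Type*} [Group P] [Finite P] {p : ℕ} [Fact p.Prime]
    (hP : IsPGroup p P) (A : Subgroup P) [A.Normal] (hA : Cfsg.IsElementaryAbelian p A)
    (K : Subgroup P) [hKn : K.Normal] (hKA : K ≤ A) (x y : P) (hx : x ∈ A) (hyp : y ^ p ∈ A)
    (hprod : ((List.range p).map (fun i => (y ^ i)⁻¹ * x * y ^ i)).prod ∉ K) :
    p ^ p * Nat.card K ≤ Nat.card A := by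
  letI : CommGroup ↥A := { (inferInstance : Group ↥A) with mul_comm := hA.1.is_comm.comm }
  let c : ↥A →* ↥A := (MulAut.conjNormal y⁻¹ : MulAut ↥A).toMonoidHom
  have hc : ∀ z : ↥A, ((c z : ↥A) : P) = y⁻¹ * z * y := by
    intro z
    simp [c]
  have hciter : ∀ i : ℕ, ∀ z : ↥A, ((c^[i] z : ↥A) : P) = (y ^ i)⁻¹ * z * y ^ i := by
    intro i
    induction i with
    | zero => intro z; simp
    | succ i ih =>
      intro z
      rw [Function.iterate_succ_apply', hc, ih]
      simp [pow_succ, mul_assoc]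
  have hcp : ∀ a : ↥A, c^[p] a = a := by
    intro a
    apply Subtype.ext
    rw [hciter]
    have h1 := hA.1.is_comm.comm ⟨y ^ p, hyp⟩ a
    have h2 : y ^ p * (a : P) = (a : P) * y ^ p := congrArg Subtype.val h1
    rw [mul_assoc, ← h2, inv_mul_cancel_left]
  have hexp : ∀ a : ↥A, a ^ p = 1 := fun a => Subtype.ext (by simpa using hA.2 a a.2)
  have hK : ∀ a ∈ K.subgroupOf A, c a ∈ K.subgroupOf A := by
    intro a ha
    rw [Subgroup.mem_subgroupOf] at ha ⊢
    rw [hc]
    have := hKn.conj_mem _ ha y⁻¹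
    simpa using this
  have hlist : ∀ n : ℕ, ((List.range n).map (fun i => (y ^ i)⁻¹ * x * y ^ i)).prod
      = ((∏ i ∈ Finset.range n, c^[i] (⟨x, hx⟩ : ↥A) : ↥A) : P) := by
    intro n
    induction n with
    | zero => simp
    | succ n ih =>
      rw [List.range_succ, List.map_append, List.prod_append, ih, Finset.prod_range_succ,
        Subgroup.coe_mul, hciter]
      simp
  have hxK : ∏ i ∈ Finset.range p, c^[i] (⟨x, hx⟩ : ↥A) ∉ K.subgroupOf A := by
    rw [Subgroup.mem_subgroupOf, ← hlist]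
    exact hprod
  have key := card_ge_of_norm_not_mem (hP.to_subgroup A) c hcp hexp (K.subgroupOf A) hK
    ⟨x, hx⟩ hxK
  rwa [Nat.card_congr (Subgroup.subgroupOfEquivOfLe hKA).toEquiv] at key

/-- A `p`-group with an elementary abelian normal subgroup `A` of index `p` and a nontrivial
norm `∏ y^{-i} x y^i` maps onto a Sylow `p`-subgroup of `Sym(p^2)`. -/
theorem exists_surjective_sylow_perm {P : Type*} [Group P] [Finite P] {p : ℕ} [Fact p.Prime]
    (hP : IsPGroup p P) (A : Subgroup P) [hAn : A.Normal]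
    (hA : Cfsg.IsElementaryAbelian p A) (hidx : A.index = p) (x y : P) (hx : x ∈ A)
    (hprod : ((List.range p).map (fun i => (y ^ i)⁻¹ * x * y ^ i)).prod ≠ 1) :
    ∃ (Q : Sylow p (Equiv.Perm (Fin (p ^ 2))))
      (f : P →* ↥(Q : Subgroup (Equiv.Perm (Fin (p ^ 2))))), Function.Surjective f := by
  have hp : p.Prime := Fact.out
  set n₀ := ((List.range p).map (fun i => (y ^ i)⁻¹ * x * y ^ i)).prod with hn₀
  have hn₀A : n₀ ∈ A := by
    apply Subgroup.list_prod_mem
    intro z hz
    obtain ⟨i, _, rfl⟩ := List.mem_map.mp hz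
    have := hAn.conj_mem x hx (y ^ i)⁻¹
    simpa using this
  have hyp : y ^ p ∈ A := by
    have := Subgroup.pow_index_mem A y
    rwa [hidx] at this
  letI : CommGroup ↥A := { (inferInstance : Group ↥A) with mul_comm := hA.1.is_comm.comm }
  have hexp : ∀ a : ↥A, a ^ p = 1 := fun a => Subtype.ext (by simpa using hA.2 a a.2)
  obtain ⟨H', hnH', hcardH'⟩ := exists_hyperplane_not_mem (p := p) hexp (⟨n₀, hn₀A⟩ : ↥A) (by
    intro h; exact hprod (congrArg Subtype.val h))
  let H₀ : Subgroup P := H'.map A.subtype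
  have hH₀A : H₀ ≤ A := by
    rintro _ ⟨a, _, rfl⟩
    exact a.2
  have hn₀H : n₀ ∉ H₀ := by
    rintro ⟨a, ha, e⟩
    apply hnH'
    have : a = ⟨n₀, hn₀A⟩ := Subtype.ext e
    rwa [← this]
  have hcardH₀ : Nat.card H₀ = Nat.card H' :=
    Subgroup.card_map_of_injective A.subtype_injective
  have hcardP : Nat.card P = p * Nat.card A := by
    rw [← hidx, mul_comm]; exact (Subgroup.card_mul_index A).symm
  have hidxH : H₀.index = p ^ 2 := by
    have h1 := Subgroup.card_mul_index H₀
    rw [hcardP, hcardH', ← hcardH₀] at h1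
    have hpos : 0 < Nat.card H₀ := Nat.card_pos
    have : Nat.card H₀ * H₀.index = Nat.card H₀ * p ^ 2 := by rw [h1]; ring
    exact Nat.eq_of_mul_eq_mul_left hpos this
  let K : Subgroup P := H₀.normalCore
  have hKH : K ≤ H₀ := Subgroup.normalCore_le H₀
  haveI hKn : K.Normal := Subgroup.normalCore_normal H₀
  have hn₀K : n₀ ∉ K := fun h => hn₀H (hKH h)
  have hge := card_ge_of_list_prod_not_mem hP A hA K (hKH.trans hH₀A) x y hx hyp hn₀K
  have hcq : Nat.card (P ⧸ H₀) = p ^ 2 := hidxH
  let e : (P ⧸ H₀) ≃ Fin (p ^ 2) := Finite.equivFinOfCardEq hcq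
  let φ : P →* Equiv.Perm (Fin (p ^ 2)) :=
    (Equiv.permCongrHom e).toMonoidHom.comp (MulAction.toPermHom P (P ⧸ H₀))
  have hker : φ.ker = K := by
    ext g
    rw [MonoidHom.mem_ker]
    change (Equiv.permCongrHom e) (MulAction.toPermHom P (P ⧸ H₀) g) = 1 ↔ g ∈ H₀.normalCore
    rw [Subgroup.normalCore_eq_ker, MonoidHom.mem_ker, map_eq_one_iff _ (MulEquiv.injective _)]
  have hRp : IsPGroup p φ.range := hP.of_surjective φ.rangeRestrict φ.rangeRestrict_surjective
  obtain ⟨Q, hRQ⟩ := hRp.exists_le_sylow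
  have hcardR : p ^ (p + 1) ≤ Nat.card φ.range := by
    have h1 : K.index = Nat.card φ.range := by rw [← hker]; exact Subgroup.index_ker φ
    have h2 := Subgroup.card_mul_index K
    rw [hcardP, h1] at h2
    have hpos : 0 < Nat.card K := Nat.card_pos
    have : Nat.card K * p ^ (p + 1) ≤ Nat.card K * Nat.card φ.range := by
      rw [h2]
      calc Nat.card K * p ^ (p + 1) = p * (p ^ p * Nat.card K) := by ring
        _ ≤ p * Nat.card A := Nat.mul_le_mul_left _ hge
    exact Nat.le_of_mul_le_mul_left this hpos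
  have hcardQ : Nat.card Q = p ^ (p + 1) := by
    rw [Sylow.card_eq_multiplicity, Nat.card_perm, Nat.card_eq_fintype_card, Fintype.card_fin]
    congr 1
    have h1 := Nat.factorization_factorial_mul (n := p) hp
    have h2 := Nat.factorization_factorial_mul (n := 1) hp
    rw [mul_one] at h2
    rw [h2, Nat.factorial_one, Nat.factorization_one] at h1
    rw [pow_two, h1]
    simp
    omega
  have hRQ' : φ.range = (Q : Subgroup _) :=
    Subgroup.eq_of_le_of_card_ge hRQ (by rw [hcardQ]; exact hcardR)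
  refine ⟨Q, φ.codRestrict (Q : Subgroup _) (fun g => hRQ ⟨g, rfl⟩), ?_⟩
  rintro ⟨q, hq⟩
  have hq' : q ∈ φ.range := by rw [hRQ']; exact hq
  obtain ⟨g, rfl⟩ := hq'
  exact ⟨g, rfl⟩

end Cfsg.Agent.Lib.Helper3
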