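import Mathlib
import Cfsg.Agent.Lib.Helper3.ZJQuot
import Cfsg.Agent.Lib.Helper3.StrongFus
import Cfsg.Agent.S1959

/-! Control of strong fusion by `N(Ω(Z(J(D))))` for a strongly closed subgroup `D`, in groups
with `p`-constrained `p`-local subgroups that are `p`-stable in the normalizer form. -/

set_option autoImplicit false

universe u

namespace Cfsg.Agent.Lib.Helper3

open Cfsg
open Cfsg.Agent.Lib.Helper4
open scoped commutatorElement

/-- Normalizer `p`-stability of `G` gives local `p`-stability of every subgroup. -/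
theorem lStabOn_of_isNormalizerPStable {G : Type*} [Group G] [Finite G] {p : ℕ} [Fact p.Prime]
    (hst : Cfsg.IsNormalizerPStable p G) (N : Subgroup G) (K : Subgroup ↥N) : LStabOn p K := by
  intro V hVp _ a ha hapow hquad
  have hinj := N.subtype_injective
  have hVGp : IsPGroup p ↥(V.map N.subtype) := hVp.map _
  have haG : (a : G) ∈ Subgroup.normalizer ((V.map N.subtype : Subgroup G) : Set G) :=
    Subgroup.le_normalizer_map N.subtype ⟨a, ha, rfl⟩
  have hquadG : ⁅⁅V.map N.subtype, Subgroup.zpowers (a : G)⁆, Subgroup.zpowers (a : G)⁆ = ⊥ := by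
    have h0 : Subgroup.zpowers (a : G) = (Subgroup.zpowers a).map N.subtype := by
      rw [MonoidHom.map_zpowers]; rfl
    rw [h0, ← Subgroup.map_commutator, ← Subgroup.map_commutator, hquad, Subgroup.map_bot]
  have h1 := hst (V.map N.subtype) hVGp (a : G) haG hquadG
  obtain ⟨L, hLN, hNL, hCL, hLp, haL⟩ := exists_L_of_mem_pCore (V.map N.subtype) (a : G) haG h1
  have hmemV : ∀ y : ↥N, (y : G) ∈ V.map N.subtype ↔ y ∈ V := fun y =>
    Subgroup.mem_map_iff_mem hinj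
  have hnorm : ∀ x : ↥N, x ∈ Subgroup.normalizer (V : Set ↥N) ↔
      (x : G) ∈ Subgroup.normalizer ((V.map N.subtype : Subgroup G) : Set G) := by
    intro x
    constructor
    · intro hx; exact Subgroup.le_normalizer_map N.subtype ⟨x, hx, rfl⟩
    · intro hx
      rw [Subgroup.mem_normalizer_iff] at hx ⊢
      intro v
      have h2 := hx (v : G)
      rw [hmemV] at h2
      rw [h2]
      have h3 : (x : G) * (v : G) * (x : G)⁻¹ = ((x * v * x⁻¹ : ↥N) : G) := rfl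
      rw [h3, hmemV]
  have hcent : ∀ x : ↥N, x ∈ Subgroup.centralizer (V : Set ↥N) ↔
      (x : G) ∈ Subgroup.centralizer ((V.map N.subtype : Subgroup G) : Set G) := by
    intro x
    rw [Subgroup.mem_centralizer_iff, Subgroup.mem_centralizer_iff]
    constructor
    · rintro hx _ ⟨v, hv, rfl⟩
      exact congrArg Subtype.val (hx v hv)
    · intro hx v hv
      exact Subtype.ext (hx (v : G) ⟨v, hv, rfl⟩)
  refine ⟨L.subgroupOf N, ?_, ?_, ?_, ?_, ?_⟩
  · intro x hx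
    exact (hnorm x).mpr (hLN (Subgroup.mem_subgroupOf.mp hx))
  · intro x hx
    have hx' := hNL ((hnorm x).mp hx)
    rw [Subgroup.mem_normalizer_iff] at hx' ⊢
    intro y
    rw [Subgroup.mem_subgroupOf, Subgroup.mem_subgroupOf]
    exact hx' (y : G)
  · intro c hc
    exact Subgroup.mem_subgroupOf.mpr (hCL ((hcent c).mp hc))
  · intro l hl
    obtain ⟨n, hn⟩ := hLp (l : G) (Subgroup.mem_subgroupOf.mp hl)
    exact ⟨n, (hcent _).mpr (by simpa using hn)⟩
  · exact Subgroup.mem_subgroupOf.mpr haL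

/-- If `N = K N_U` with `K` a normal `p'`-subgroup of `N` and `R ≤ N_U` a Sylow `p`-subgroup of
`N`, then `N_U` controls strong `N`-fusion in `R`. -/
theorem control_of_frattini {G : Type*} [Group G] [Finite G] {p : ℕ} [Fact p.Prime]
    (N R K NU : Subgroup G) (hRp : IsPGroup p ↥R) (hRN : R ≤ N) (hRidx : ¬ p ∣ R.relIndex N)
    (hNK : N ≤ Subgroup.normalizer (K : Set G)) (hKc : (Nat.card ↥K).Coprime p)
    (hNUN : NU ≤ N) (hRNU : R ≤ NU) (hfr : ∀ h ∈ N, ∃ k ∈ K, ∃ n ∈ NU, h = k * n) :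
    ∀ (A : Set G) (h : G), h ∈ N → A ⊆ (R : Set G) →
      (fun a => h * a * h⁻¹) '' A ⊆ (R : Set G) →
      ∃ x ∈ NU, ∀ a ∈ A, x * a * x⁻¹ = h * a * h⁻¹ := by
  intro A h hh hA hAh
  obtain ⟨k, hk, n, hn, hkn⟩ := hfr h hh
  have hRK : R ⊓ K = ⊥ := disjoint_of_isPGroup_of_coprime R K hRp hKc
  have hRnK : R ≤ Subgroup.normalizer (K : Set G) := hRN.trans hNK
  obtain ⟨B, hB⟩ : ∃ B : Subgroup G, B = (Subgroup.closure A).map (MulAut.conj n).toMonoidHom :=
    ⟨_, rfl⟩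
  have hclA : Subgroup.closure A ≤ R := (Subgroup.closure_le _).mpr hA
  have hBp : IsPGroup p ↥B := by rw [hB]; exact (hRp.to_le hclA).map _
  have hconjK : ∀ m ∈ N, ∀ k' ∈ K, m⁻¹ * k' * m ∈ K := by
    intro m hm k' hk'
    have := (Subgroup.mem_normalizer_iff.mp (hNK (inv_mem hm)) k').mp hk'
    rwa [inv_inv] at this
  have hBle : B ≤ NU ⊓ (R ⊔ K) := by
    rw [hB, MonoidHom.map_closure]
    apply (Subgroup.closure_le _).mpr
    rintro _ ⟨a, ha, rfl⟩
    show n * a * n⁻¹ ∈ _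
    refine Subgroup.mem_inf.mpr ⟨mul_mem (mul_mem hn (hRNU (hA ha))) (inv_mem hn), ?_⟩
    have hr : h * a * h⁻¹ ∈ R := hAh ⟨a, ha, rfl⟩
    have h1 : n * a * n⁻¹ =
        (h * a * h⁻¹) * (((h * a * h⁻¹)⁻¹ * k⁻¹ * (h * a * h⁻¹)) * k) := by rw [hkn]; group
    rw [h1]
    exact mul_mem (Subgroup.mem_sup_left hr)
      (Subgroup.mem_sup_right (mul_mem (hconjK _ (hRN hr) _ (inv_mem hk)) hk))
  have hSL : R ≤ NU ⊓ (R ⊔ K) := le_inf hRNU le_sup_left
  have hLN : NU ⊓ (R ⊔ K) ≤ N := inf_le_left.trans hNUN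
  have hidx : ¬ p ∣ R.relIndex (NU ⊓ (R ⊔ K)) := by
    intro hdiv
    apply hRidx
    rw [← Subgroup.relIndex_mul_relIndex R (NU ⊓ (R ⊔ K)) N hSL hLN]
    exact dvd_mul_of_dvd_left hdiv _
  obtain ⟨y, hyL, hy⟩ := exists_conj_mem_of_relIndex R (NU ⊓ (R ⊔ K)) B hRp hidx hBp hBle
  obtain ⟨s, hs, k₁, hk₁, hysk⟩ := exists_mul_of_mem_sup_of_le_normalizer R K hRnK
    (Subgroup.mem_inf.mp hyL).2
  have hk₁NU : k₁ ∈ NU := by
    have : k₁ = s⁻¹ * y := by rw [hysk]; group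
    rw [this]; exact mul_mem (inv_mem (hRNU hs)) (Subgroup.mem_inf.mp hyL).1
  have hk₁B : ∀ b ∈ B, k₁ * b * k₁⁻¹ ∈ R := by
    intro b hb
    have h1 := hy b hb
    have h2 : k₁ * b * k₁⁻¹ = s⁻¹ * (y * b * y⁻¹) * s := by rw [hysk]; group
    rw [h2]; exact mul_mem (mul_mem (inv_mem hs) h1) hs
  refine ⟨k₁ * n, mul_mem hk₁NU hn, fun a ha => ?_⟩
  have hm : n * a * n⁻¹ ∈ N := hNUN (mul_mem (mul_mem hn (hRNU (hA ha))) (inv_mem hn))
  have h5 : k₁ * n * a * (k₁ * n)⁻¹ ∈ R := by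
    have h6 := hk₁B (n * a * n⁻¹) (by rw [hB]; exact ⟨a, Subgroup.subset_closure ha, rfl⟩)
    have h7 : k₁ * n * a * (k₁ * n)⁻¹ = k₁ * (n * a * n⁻¹) * k₁⁻¹ := by group
    rw [h7]; exact h6
  have h6 : h * a * h⁻¹ ∈ R := hAh ⟨a, ha, rfl⟩
  have h7 : (k₁ * n * a * (k₁ * n)⁻¹)⁻¹ * (h * a * h⁻¹) ∈ K := by
    have h8 : (k₁ * n * a * (k₁ * n)⁻¹)⁻¹ * (h * a * h⁻¹) =
        k₁ * ((n * a * n⁻¹)⁻¹ * (k₁⁻¹ * k) * (n * a * n⁻¹)) * k⁻¹ := by rw [hkn]; group
    rw [h8]
    exact mul_mem (mul_mem hk₁ (hconjK _ hm _ (mul_mem (inv_mem hk₁) hk))) (inv_mem hk)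
  have h9 : (k₁ * n * a * (k₁ * n)⁻¹)⁻¹ * (h * a * h⁻¹) ∈ R ⊓ K :=
    Subgroup.mem_inf.mpr ⟨mul_mem (inv_mem h5) h6, h7⟩
  rw [hRK, Subgroup.mem_bot] at h9
  exact inv_mul_eq_one.mp h9

/-- `R ∩ D^x` for `R ≤ P^x` (well defined when `D` is strongly closed in `P`). -/
def dfun {G : Type*} [Group G] (P D R : Subgroup G) : Subgroup G :=
  ⨆ x ∈ {x : G | R ≤ P.map (MulAut.conj x).toMonoidHom}, R ⊓ D.map (MulAut.conj x).toMonoidHom

theorem dfun_eq {G : Type*} [Group G] {P D : Subgroup G} (hD : Cfsg.IsStronglyClosed D P)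
    (R : Subgroup G) (x : G) (hx : R ≤ P.map (MulAut.conj x).toMonoidHom) :
    dfun P D R = R ⊓ D.map (MulAut.conj x).toMonoidHom := by
  apply le_antisymm
  · apply iSup₂_le
    intro y hy
    apply le_inf inf_le_left
    intro r hr
    obtain ⟨hrR, hrD⟩ := Subgroup.mem_inf.mp hr
    rw [mem_map_conj_iff] at hrD ⊢
    have h1 : x⁻¹ * r * x ∈ P := (mem_map_conj_iff P x r).mp (hx hrR)
    have h3 : x⁻¹ * y * (y⁻¹ * r * y) * (x⁻¹ * y)⁻¹ = x⁻¹ * r * x := by group
    have h2 := hD.2 (y⁻¹ * r * y) hrD (x⁻¹ * y) (by rw [h3]; exact h1)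
    rwa [h3] at h2
  · exact le_iSup₂ (f := fun (y : G) (_ : y ∈ {x : G | R ≤ P.map (MulAut.conj x).toMonoidHom}) =>
      R ⊓ D.map (MulAut.conj y).toMonoidHom) x hx

/-- The conjugacy functor `R ↦ Ω(Z(J(R ∩ D^x)))` (or `Ω(Z(J(R)))` if `R ∩ D^x = 1`). -/
def zjD {G : Type*} [Group G] (e : ℕ) (P D R : Subgroup G) : Subgroup G :=
  zjE e (dfun P D R) ⊔ ⨆ (_ : dfun P D R = ⊥), zjE e R

theorem zjE_le_self {G : Type*} [Group G] (e : ℕ) (D : Subgroup G) : zjE e D ≤ D :=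
  (zjE_le_jE e D).trans (jE_le e D)

theorem zjE_bot {G : Type*} [Group G] (e : ℕ) : zjE e (⊥ : Subgroup G) = ⊥ :=
  le_bot_iff.mp (zjE_le_self e ⊥)

theorem zjD_of_eq_bot {G : Type*} [Group G] (e : ℕ) (P D R : Subgroup G) (h : dfun P D R = ⊥) :
    zjD e P D R = zjE e R := by
  unfold zjD
  rw [iSup_pos h, h, zjE_bot, bot_sup_eq]

theorem zjD_of_ne_bot {G : Type*} [Group G] (e : ℕ) (P D R : Subgroup G) (h : dfun P D R ≠ ⊥) :
    zjD e P D R = zjE e (dfun P D R) := by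
  unfold zjD
  rw [iSup_neg h, sup_bot_eq]

theorem isConjugacyFunctor_zjD {G : Type u} [Group G] [Finite G] {p : ℕ} [Fact p.Prime] (e : ℕ)
    (he : e = 0 ∨ e = p) (P : Sylow p G) (D : Subgroup G)
    (hD : Cfsg.IsStronglyClosed D (P : Subgroup G)) :
    Cfsg.IsConjugacyFunctor p (zjD e (P : Subgroup G) D) := by
  have hW := zjFun_isCharPFunctor.{u} p e he
  have hconj := isConjugacyFunctor_inducedFunctor hW G
  have hzj : ∀ R : Subgroup G, Cfsg.inducedFunctor (zjFun.{u} e) R = zjE e R :=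
    inducedFunctor_zjFun e
  intro R hRp
  obtain ⟨u, hu⟩ := exists_conj_mem_sylow R hRp P
  have hx : R ≤ (P : Subgroup G).map (MulAut.conj u⁻¹).toMonoidHom := fun q hq =>
    (mem_map_conj_iff (P : Subgroup G) u⁻¹ q).mpr (by rw [inv_inv]; exact hu q hq)
  have hdf := dfun_eq hD R u⁻¹ hx
  have hdfle : dfun (P : Subgroup G) D R ≤ R := by rw [hdf]; exact inf_le_left
  have hdfp : IsPGroup p ↥(dfun (P : Subgroup G) D R) := hRp.to_le hdfle
  have hR1 := hconj R hRp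
  have hR2 := hconj _ hdfp
  rw [hzj] at hR1 hR2
  refine ⟨?_, ?_, ?_⟩
  · by_cases h0 : dfun (P : Subgroup G) D R = ⊥
    · rw [zjD_of_eq_bot e _ D R h0]; exact hR1.1
    · rw [zjD_of_ne_bot e _ D R h0]; exact hR2.1.trans hdfle
  · intro hR
    by_cases h0 : dfun (P : Subgroup G) D R = ⊥
    · rw [zjD_of_eq_bot e _ D R h0]; exact hR1.2.1 hR
    · rw [zjD_of_ne_bot e _ D R h0]; exact hR2.2.1 h0
  · intro g
    have hxg : R.map (MulAut.conj g).toMonoidHom ≤
        (P : Subgroup G).map (MulAut.conj (g * u⁻¹)).toMonoidHom := by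
      rw [← map_conj_map_conj]; exact Subgroup.map_mono hx
    have hdfg : dfun (P : Subgroup G) D (R.map (MulAut.conj g).toMonoidHom) =
        (dfun (P : Subgroup G) D R).map (MulAut.conj g).toMonoidHom := by
      rw [dfun_eq hD _ (g * u⁻¹) hxg, hdf, Subgroup.map_inf_eq _ _ _ (MulAut.conj g).injective,
        map_conj_map_conj]
    by_cases h0 : dfun (P : Subgroup G) D R = ⊥
    · rw [zjD_of_eq_bot e _ D R h0, zjD_of_eq_bot e _ D _ (by rw [hdfg, h0, Subgroup.map_bot])]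
      exact zjE_map e (MulAut.conj g) R
    · rw [zjD_of_ne_bot e _ D R h0, zjD_of_ne_bot e _ D _ (by
        rw [hdfg]
        intro h1
        exact h0 ((Subgroup.map_eq_bot_iff_of_injective _ (MulAut.conj g).injective).mp h1)), hdfg]
      exact zjE_map e (MulAut.conj g) _

/-- A single functor whose normalizer controls strong fusion gives family control. -/
theorem family_of_single {G : Type*} [Group G] {p : ℕ} (W : Subgroup G → Subgroup G)
    (H T' : Subgroup G) (hT'H : T' ≤ H) (hT'p : IsPGroup p ↥T') (hidx : ¬ p ∣ T'.relIndex H)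
    (h1 : ∀ (A : Set G) (h : G), h ∈ H → A ⊆ (T' : Set G) →
      (fun a => h * a * h⁻¹) '' A ⊆ (T' : Set G) →
      ∃ x ∈ H ⊓ Subgroup.normalizer ((W T' : Subgroup G) : Set G),
        ∀ a ∈ A, x * a * x⁻¹ = h * a * h⁻¹) :
    Cfsg.FamilyControlsStrongFusionIn p {W} H := by
  refine ⟨T', hT'H, hT'p, hidx, ?_⟩
  intro A h hh hA hAh
  obtain ⟨x, hx, hxa⟩ := h1 A h hh hA hAh
  refine ⟨1, ![1, x], rfl, ?_, ?_, ?_⟩
  · intro i
    refine ⟨W, rfl, ?_⟩
    have hi : i = 0 := Subsingleton.elim _ _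
    subst hi
    simpa using hx
  · intro i
    fin_cases i
    · simpa using hA
    · rintro _ ⟨a, ha, rfl⟩
      show x * a * x⁻¹ ∈ _
      rw [hxa a ha]; exact hAh ⟨a, ha, rfl⟩
  · intro a ha
    exact hxa a ha

/-- `N_G(Ω(Z(J(D))))` controls strong fusion in `P`, for `D` strongly closed in `P`, when `G` is
`p`-stable in the normalizer form and has `p`-constrained `p`-local subgroups. -/
theorem zj_controls_strong_fusion {G : Type u} [Group G] [Finite G] {p : ℕ} [Fact p.Prime]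
    (hp : p ≠ 2) (e : ℕ) (he : e = 0 ∨ e = p) (P : Sylow p G) (D : Subgroup G)
    (hD : Cfsg.IsStronglyClosed D (P : Subgroup G)) (hst : Cfsg.IsNormalizerPStable p G)
    (hc : ∀ U : Subgroup G, U ≤ (P : Subgroup G) → U ≠ ⊥ →
      Cfsg.IsPConstrained p ↥(Subgroup.normalizer (U : Set G))) :
    ∀ A : Set G, A ⊆ (P : Subgroup G) →
      Cfsg.ControlsStrongFusionOf (Subgroup.normalizer (zjE e D : Set G)) (P : Subgroup G) A := by
  have hpp : p.Prime := Fact.out
  have he' : e = 0 ∨ Odd e := by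
    rcases he with h | h
    · exact Or.inl h
    · right; rw [h]; exact hpp.odd_of_ne_two hp
  intro A hA
  refine ⟨hA, ?_⟩
  intro g hg
  by_cases hD0 : D = ⊥
  · refine ⟨g, ?_, fun a _ => rfl⟩
    rw [hD0, zjE_bot]
    have : (⊥ : Subgroup G).Normal := Subgroup.normal_bot
    rw [Subgroup.normalizer_eq_top]
    exact Subgroup.mem_top g
  have hWconj := isConjugacyFunctor_zjD e he P D hD
  have hdfP : dfun (P : Subgroup G) D (P : Subgroup G) = D := by
    rw [dfun_eq hD _ 1 (by rw [map_conj_one_eq]), map_conj_one_eq]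
    exact inf_eq_right.mpr hD.1
  have hzP : zjD e (P : Subgroup G) D (P : Subgroup G) = zjE e D := by
    rw [zjD_of_ne_bot e _ D _ (by rw [hdfP]; exact hD0), hdfP]
  have hloc : ∀ T : Subgroup G, T ≤ (P : Subgroup G) → T ≠ ⊥ →
      ¬ p ∣ ((P : Subgroup G) ⊓ Subgroup.normalizer (T : Set G)).relIndex
        (Subgroup.normalizer (T : Set G)) →
      Cfsg.FamilyControlsStrongFusionIn p {zjD e (P : Subgroup G) D}
        (Subgroup.normalizer (T : Set G)) := by
    intro T hTP hT0 hfn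
    have hcN := hc T hTP hT0
    obtain ⟨N, hN⟩ : ∃ N : Subgroup G, N = Subgroup.normalizer (T : Set G) := ⟨_, rfl⟩
    rw [← hN] at hfn hcN ⊢
    obtain ⟨R, hR⟩ : ∃ R : Subgroup G, R = (P : Subgroup G) ⊓ N := ⟨_, rfl⟩
    rw [← hR] at hfn
    have hRP : R ≤ P := by rw [hR]; exact inf_le_left
    have hRN : R ≤ N := by rw [hR]; exact inf_le_right
    have hRp : IsPGroup p ↥R := P.isPGroup'.to_le hRP
    obtain ⟨D₁, hD₁R, hD₁sc, hD₁z⟩ : ∃ D₁ : Subgroup G, D₁ ≤ R ∧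
        Cfsg.IsStronglyClosed (D₁.subgroupOf N) (R.subgroupOf N) ∧
        zjD e (P : Subgroup G) D R = zjE e D₁ := by
      by_cases hd : dfun (P : Subgroup G) D R = ⊥
      · exact ⟨R, le_rfl, ⟨le_rfl, fun x _ g h => h⟩, zjD_of_eq_bot e _ D R hd⟩
      · have hdf : dfun (P : Subgroup G) D R = R ⊓ D := by
          rw [dfun_eq hD R 1 (by rw [map_conj_one_eq]; exact hRP), map_conj_one_eq]
        refine ⟨R ⊓ D, inf_le_left, ⟨?_, ?_⟩, ?_⟩
        · intro x hx
          exact Subgroup.mem_subgroupOf.mpr (Subgroup.mem_inf.mp (Subgroup.mem_subgroupOf.mp hx)).1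
        · intro x hx g hgx
          rw [Subgroup.mem_subgroupOf] at hx hgx ⊢
          have h1 : ((g * x * g⁻¹ : ↥N) : G) = (g : G) * (x : G) * (g : G)⁻¹ := rfl
          rw [h1] at hgx ⊢
          exact Subgroup.mem_inf.mpr
            ⟨hgx, hD.2 (x : G) (Subgroup.mem_inf.mp hx).2 (g : G) (hRP hgx)⟩
        · rw [zjD_of_ne_bot e _ D R hd, hdf]
    have hR'p : IsPGroup p ↥(R.subgroupOf N) := hRp.comap_subtype
    have hfn' : ¬ p ∣ (R.subgroupOf N).index := hfn
    obtain ⟨R', hR'⟩ : ∃ R' : Sylow p ↥N, (R' : Subgroup ↥N) = R.subgroupOf N :=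
      ⟨hR'p.toSylow hfn', rfl⟩
    have hfr0 := zj_frattini hp e he' R' (D₁.subgroupOf N) (by rw [hR']; exact hD₁sc) hcN
      (lStabOn_of_isNormalizerPStable hst N (Cfsg.pPrimeCore p ↥N))
    have hD₁N : D₁ ≤ N := hD₁R.trans hRN
    have hzmap : zjE e D₁ = (zjE e (D₁.subgroupOf N)).map N.subtype := by
      rw [← zjE_map_inj e N.subtype N.subtype_injective, Subgroup.map_subgroupOf_eq_of_le hD₁N]
    obtain ⟨K, hK⟩ : ∃ K : Subgroup G, K = (Cfsg.pPrimeCore p ↥N).map N.subtype := ⟨_, rfl⟩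
    have hKN : K ≤ N := by rw [hK]; exact Subgroup.map_subtype_le _
    have hKn' : (Cfsg.pPrimeCore p ↥N).Normal := pPrimeCore_normal p ↥N
    have hNK : N ≤ Subgroup.normalizer (K : Set G) := by
      have h1 : (K.subgroupOf N).Normal := by
        have h2 : K.subgroupOf N = Cfsg.pPrimeCore p ↥N := by
          rw [hK]
          exact Subgroup.comap_map_eq_self_of_injective N.subtype_injective _
        rw [h2]; exact hKn'
      exact (Subgroup.normal_subgroupOf_iff_le_normalizer hKN).mp h1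
    have hKc : (Nat.card ↥K).Coprime p := by
      rw [hK, Subgroup.card_map_of_injective N.subtype_injective]
      exact pPrimeCore_coprime hpp ↥N
    have hWR : Subgroup.normalizer (R : Set G) ≤
        Subgroup.normalizer ((zjD e (P : Subgroup G) D R : Subgroup G) : Set G) :=
      normalizer_le_normalizer_functor _ hWconj R hRp
    have hfr : ∀ h ∈ N, ∃ k ∈ K, ∃ n ∈ N ⊓
        Subgroup.normalizer ((zjD e (P : Subgroup G) D R : Subgroup G) : Set G), h = k * n := by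
      intro h hh
      have h1 : (⟨h, hh⟩ : ↥N)⁻¹ ∈ Subgroup.normalizer (zjE e (D₁.subgroupOf N) : Set ↥N) ⊔
          Cfsg.pPrimeCore p ↥N := by
        rw [sup_comm, hfr0]; exact Subgroup.mem_top _
      obtain ⟨n, hn, k, hk, hnk⟩ := exists_mul_of_mem_sup_of_le_normalizer _ _
        (by rw [Subgroup.normalizer_eq_top (Cfsg.pPrimeCore p ↥N)]; exact le_top) h1
      refine ⟨((k⁻¹ : ↥N) : G), ?_, ((n⁻¹ : ↥N) : G), ?_, ?_⟩
      · rw [hK]; exact ⟨k⁻¹, inv_mem hk, rfl⟩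
      · refine Subgroup.mem_inf.mpr ⟨(n⁻¹).2, ?_⟩
        rw [hD₁z, hzmap]
        exact Subgroup.le_normalizer_map N.subtype ⟨n⁻¹, inv_mem hn, rfl⟩
      · have h2 : (⟨h, hh⟩ : ↥N) = k⁻¹ * n⁻¹ := by
          rw [← mul_inv_rev, ← hnk, inv_inv]
        exact congrArg Subtype.val h2
    have hctl := control_of_frattini N R K
      (N ⊓ Subgroup.normalizer ((zjD e (P : Subgroup G) D R : Subgroup G) : Set G)) hRp hRN hfn hNK
      hKc inf_le_left (le_inf hRN (Subgroup.le_normalizer.trans hWR)) hfr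
    exact family_of_single _ N R hRN hRp hfn hctl
  have hfam := Cfsg.Agent.S1959.result P {zjD e (P : Subgroup G) D}
    (by rintro W rfl; exact hWconj) hloc
  have hidx : ¬ p ∣ (P : Subgroup G).relIndex ⊤ := by
    rw [Subgroup.relIndex_top_right]; exact P.not_dvd_index
  have hgood := familyControlsStrongFusionIn_sylow {zjD e (P : Subgroup G) D}
    (by rintro W rfl; exact hWconj) ⊤ (P : Subgroup G) le_top P.isPGroup' hidx hfam A g
    (Subgroup.mem_top g) hA hg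
  obtain ⟨g', hch, hag⟩ := hgood
  have hg'N : g' ∈ Subgroup.normalizer (zjE e D : Set G) := by
    refine RChain.mem_of_forall _ ?_ hch
    rintro x ⟨W, rfl, hx⟩
    rw [hzP] at hx
    exact (Subgroup.mem_inf.mp hx).2
  refine ⟨g'⁻¹, inv_mem hg'N, fun a ha => ?_⟩
  have h3 := hag a ha
  rw [inv_inv] at h3 ⊢
  exact h3.symm

end Cfsg.Agent.Lib.Helper3
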