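import Mathlib
import Cfsg.Agent.Lib.Helper3.ZJNpc
import Cfsg.Agent.Lib.Helper3.ThompsonSC

set_option autoImplicit false

universe u

namespace Cfsg.Agent.Lib.Helper3

open Cfsg

theorem zj_normal_of_special_sc {Y : Type u} [Group Y] [Finite Y] {p : ℕ} [Fact p.Prime]
    (hp : p ≠ 2) (e : ℕ) (he : e = 0 ∨ Odd e)
    (hcon : Subgroup.centralizer (Cfsg.pCore p Y : Set Y) ≤ Cfsg.pCore p Y)
    (hq : Cfsg.HasNormalPComplement p (Y ⧸ Cfsg.pCore p Y)) (T : Sylow p Y)
    (hTco : IsCoatom (T : Subgroup Y)) (D : Subgroup Y)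
    (hD : Cfsg.IsStronglyClosed D (T : Subgroup Y)) : (zjE e D).Normal := by
  have h1 := isPAbP_of_special hq (T : Subgroup Y) T.isPGroup' T.not_dvd_index hTco
  have h2 := pStab_of_isNormalizerPStable (h1.isNormalizerPStable hp)
  exact zj_normal hp e he T D hD hcon h2

/-- The Glauberman–Thompson criterion for `Ω_e(Z(J_e(D)))`, `D` strongly closed. -/
theorem npc_of_npc_normalizer_zjE {G : Type u} [Group G] [Finite G] {p : ℕ} [Fact p.Prime]
    (hp : p ≠ 2) (e : ℕ) (he : e = 0 ∨ e = p) (P : Sylow p G) (D : Subgroup G)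
    (hD : Cfsg.IsStronglyClosed D (P : Subgroup G))
    (h : Cfsg.HasNormalPComplement p ↥(Subgroup.normalizer ((zjE e D : Subgroup G) : Set G))) :
    Cfsg.HasNormalPComplement p G := by
  have he' : e = 0 ∨ Odd e := by
    rcases he with he | he
    · exact Or.inl he
    · exact Or.inr (he ▸ Nat.Prime.odd_of_ne_two Fact.out hp)
  apply thompson_reduction_abs (HypSC p (zjFun.{u} e))
    (thHyp_sc (zjFun.{u} e) (zjFun_isCharPFunctor p e he) ?_) (Nat.card G) G le_rfl P
    ⟨D, hD, by rw [inducedFunctor_zjFun]; exact h⟩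
  intro X _ _ T hcon hq hTco D' hD'
  rw [inducedFunctor_zjFun]
  exact zj_normal_of_special_sc hp e he' hcon hq T hTco D' hD'

end Cfsg.Agent.Lib.Helper3
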